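import Mathlib
import Cfsg.Agent.Lib.Helper25.ACStmt
import Cfsg.Agent.Lib.Helper25.ACOddStmt

/-!
# S3911 / PCOMPL: a cyclic Sylow `p`-subgroup `P` not inside `M ⊴ G`: `M` has a `p`-complement `K`
normal in `G` (from `Burn`, applied inside `M ⊔ P`).
-/

set_option autoImplicit false
set_option maxHeartbeats 400000

namespace Cfsg.Agent.Lib.Helper77.AOPCOMPL

open Cfsg.Agent.Lib.Helper25.ACStmt Cfsg.Agent.Lib.Helper25.ACOddStmt

universe u

theorem main (hB : Burn.{u}) : PCompl.{u} := by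
  intro G _ _ p _ P hcyc M hMn hPM
  have hp : p.Prime := Fact.out
  obtain ⟨H, hHdef⟩ : ∃ H : Subgroup G, H = M ⊔ (P : Subgroup G) := ⟨_, rfl⟩
  have hMH : M ≤ H := by rw [hHdef]; exact le_sup_left
  have hPH : (P : Subgroup G) ≤ H := by rw [hHdef]; exact le_sup_right
  obtain ⟨P', hP'def⟩ : ∃ P' : Sylow p ↥H, P' = P.subtype hPH := ⟨_, rfl⟩
  have hP'coe : (P' : Subgroup ↥H) = (P : Subgroup G).subgroupOf H := by
    rw [hP'def]
    exact Sylow.coe_subtype ..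
  have hcyc' : IsCyclic ↥(P' : Subgroup ↥H) := by
    rw [hP'coe]
    haveI := hcyc
    exact isCyclic_of_surjective (Subgroup.subgroupOfEquivOfLe hPH).symm
      (Subgroup.subgroupOfEquivOfLe hPH).symm.surjective
  have hMn' : (M.subgroupOf H).Normal := hMn.subgroupOf H
  have hPM' : ¬ (P' : Subgroup ↥H) ≤ M.subgroupOf H := by
    intro hle
    apply hPM
    intro x hx
    have h1 : (⟨x, hPH hx⟩ : ↥H) ∈ (P' : Subgroup ↥H) := by
      rw [hP'coe, Subgroup.mem_subgroupOf]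
      exact hx
    have h2 := hle h1
    rw [Subgroup.mem_subgroupOf] at h2
    exact h2
  have hsup' : M.subgroupOf H ⊔ (P' : Subgroup ↥H) = ⊤ := by
    rw [hP'coe, ← Subgroup.subgroupOf_sup hMH hPH, ← hHdef, Subgroup.subgroupOf_self]
  obtain ⟨K₁, hK₁n, hK₁M, hK₁card⟩ := hB ↥H p P' hcyc' (M.subgroupOf H) hMn' hPM' hsup'
  obtain ⟨n, hn⟩ : ∃ n, Nat.card ↥(P' : Subgroup ↥H) = p ^ n :=
    IsPGroup.iff_card.mp P'.isPGroup'
  rw [hn] at hK₁card
  have hcop : Nat.Coprime (Nat.card ↥K₁) p := by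
    have h1 : Nat.card ↥(P' : Subgroup ↥H) * (P' : Subgroup ↥H).index = Nat.card ↥H :=
      Subgroup.card_mul_index _
    rw [hn] at h1
    have h2 : (P' : Subgroup ↥H).index = Nat.card ↥K₁ := by
      have hpos : 0 < p ^ n := pow_pos hp.pos n
      apply Nat.eq_of_mul_eq_mul_left hpos
      rw [h1, ← hK₁card, mul_comm]
    have h3 : ¬ p ∣ (P' : Subgroup ↥H).index := P'.not_dvd_index
    rw [h2] at h3
    exact (Nat.Coprime.symm ((Nat.Prime.coprime_iff_not_dvd hp).mpr h3))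
  obtain ⟨K, hKdef⟩ : ∃ K : Subgroup G, K = K₁.map H.subtype := ⟨_, rfl⟩
  have hKcard : Nat.card ↥K = Nat.card ↥K₁ := by
    rw [hKdef]
    exact Subgroup.card_map_of_injective H.subtype_injective
  have hKM : K ≤ M := by
    rw [hKdef]
    rintro _ ⟨k, hk, rfl⟩
    have h1 := hK₁M hk
    rw [Subgroup.mem_subgroupOf] at h1
    exact h1
  have hindex : K₁.index = p ^ n := by
    have h1 : Nat.card ↥K₁ * K₁.index = Nat.card ↥H := Subgroup.card_mul_index _
    have hpos : 0 < Nat.card ↥K₁ := Nat.card_pos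
    apply Nat.eq_of_mul_eq_mul_left hpos
    rw [h1, hK₁card]
  have hchar : ∀ m : G, m ∈ K ↔ m ∈ M ∧ Nat.Coprime (orderOf m) p := by
    intro m
    constructor
    · intro hm
      refine ⟨hKM hm, ?_⟩
      rw [hKdef] at hm
      obtain ⟨k, hk, rfl⟩ := hm
      have h1 : orderOf (H.subtype k) = orderOf k := Subgroup.orderOf_coe k
      rw [h1]
      exact Nat.Coprime.coprime_dvd_left (Subgroup.orderOf_dvd_natCard K₁ hk) hcop
    · rintro ⟨hmM, hmc⟩
      haveI := hK₁n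
      have h2 : ((⟨m, hMH hmM⟩ : ↥H) : ↥H ⧸ K₁) ^ (p ^ n) = 1 := by
        rw [← hindex]
        exact pow_card_eq_one'
      have h3 : ((⟨m, hMH hmM⟩ : ↥H) : ↥H ⧸ K₁) ^ (orderOf m) = 1 := by
        rw [← QuotientGroup.mk_pow]
        have h31 : (⟨m, hMH hmM⟩ : ↥H) ^ orderOf m = 1 := by
          apply Subtype.ext
          rw [Subgroup.coe_pow, Subgroup.coe_one]
          exact pow_orderOf_eq_one m
        rw [h31]
        rfl
      have h4 : ((⟨m, hMH hmM⟩ : ↥H) : ↥H ⧸ K₁) = 1 := by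
        have hd1 := orderOf_dvd_of_pow_eq_one h2
        have hd2 := orderOf_dvd_of_pow_eq_one h3
        have hc : Nat.Coprime (orderOf m) (p ^ n) := Nat.Coprime.pow_right n hmc
        have h41 : orderOf ((⟨m, hMH hmM⟩ : ↥H) : ↥H ⧸ K₁) = 1 :=
          Nat.eq_one_of_dvd_coprimes hc hd2 hd1
        exact orderOf_eq_one_iff.mp h41
      have h5 : (⟨m, hMH hmM⟩ : ↥H) ∈ K₁ := (QuotientGroup.eq_one_iff _).mp h4
      rw [hKdef]
      exact ⟨⟨m, hMH hmM⟩, h5, rfl⟩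
  have hKn : K.Normal := by
    constructor
    intro k hk g
    rw [hchar] at hk ⊢
    refine ⟨hMn.conj_mem k hk.1 g, ?_⟩
    have h1 : orderOf (g * k * g⁻¹) = orderOf k := by
      have h2 := MulEquiv.orderOf_eq (MulAut.conj g) k
      rwa [MulAut.conj_apply] at h2
    rw [h1]
    exact hk.2
  have hdvd1 : Nat.card ↥K ∣ Nat.card ↥M := Subgroup.card_dvd_of_le hKM
  have hdvd2 : Nat.card ↥M ∣ Nat.card ↥H := Subgroup.card_dvd_of_le hMH
  obtain ⟨t, ht⟩ := hdvd1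
  have h6 : t ∣ p ^ n := by
    rw [ht, ← hK₁card, hKcard] at hdvd2
    exact Nat.dvd_of_mul_dvd_mul_left Nat.card_pos hdvd2
  obtain ⟨j, -, hj⟩ := (Nat.dvd_prime_pow hp).mp h6
  refine ⟨K, hKn, hKM, ?_, j, ?_⟩
  · rw [hKcard]
    exact hcop
  · rw [ht, hj]

end Cfsg.Agent.Lib.Helper77.AOPCOMPL
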