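import Mathlib
import Cfsg.Agent.Lib.Helper64.AutStmt

set_option autoImplicit false
set_option maxHeartbeats 400000

namespace Cfsg.Agent.Lib.Helper77.AutSYLN

universe u

open Cfsg.Agent.Lib.Helper64.AutStmt

theorem mem_cj_iff {Γ : Type u} [Group Γ] (x h : Γ) (R : Subgroup Γ) :
    h ∈ cj x R ↔ x⁻¹ * h * x ∈ R := by
  unfold cj
  rw [Subgroup.mem_map_equiv]
  rfl

theorem main (hConj : SylConj.{u}) (hOfMax : SylOfMax.{u}) (hPG : SylPG.{u}) : SylN.{u} := by
  intro p _ Γ _ _ X T H₀ P hT hH₀T hPH₀ hinv hmax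
  have hTp : IsPGroup p ↥T := hPG p Γ X T hT
  have hTX : T ≤ X := hT.1
  apply hOfMax p Γ (X ⊓ Subgroup.normalizer (H₀ : Set Γ)) (T ⊓ Subgroup.normalizer (H₀ : Set Γ))
  · exact inf_le_inf_right _ hTX
  · exact hTp.to_le inf_le_left
  · intro P' hP'N hP'p hTP'
    obtain ⟨x, hxX, hx⟩ := hConj p Γ X T hT P' (hP'N.trans inf_le_left) hP'p
    have hH₀P' : H₀ ≤ P' := fun h hh => hTP' ⟨hH₀T hh, Subgroup.le_normalizer hh⟩
    have hRT : cj x H₀ ≤ T := by
      rintro _ ⟨h, hh, rfl⟩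
      exact hx h (hH₀P' hh)
    have hPR : P (cj x H₀) := hinv H₀ x hxX hPH₀
    have hle : cj x P' ≤ T ⊓ Subgroup.normalizer ((cj x H₀ : Subgroup Γ) : Set Γ) := by
      rintro _ ⟨g, hg, rfl⟩
      refine ⟨hx g hg, ?_⟩
      show (MulAut.conj x).toMonoidHom g ∈ Subgroup.normalizer ((cj x H₀ : Subgroup Γ) : Set Γ)
      rw [Subgroup.mem_normalizer_iff]
      intro h
      have hgN : g ∈ Subgroup.normalizer (H₀ : Set Γ) := (hP'N hg).2
      rw [Subgroup.mem_normalizer_iff] at hgN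
      rw [mem_cj_iff, mem_cj_iff]
      have e : x⁻¹ * ((MulAut.conj x).toMonoidHom g * h * ((MulAut.conj x).toMonoidHom g)⁻¹) * x
          = g * (x⁻¹ * h * x) * g⁻¹ := by
        simp only [MulEquiv.coe_toMonoidHom, MulAut.conj_apply]
        group
      rw [e]
      exact hgN (x⁻¹ * h * x)
    have hc1 : Nat.card ↥(cj x P') = Nat.card ↥P' :=
      Subgroup.card_map_of_injective (MulAut.conj x).injective
    have hc2 : Nat.card ↥(cj x P') ≤
        Nat.card ↥(T ⊓ Subgroup.normalizer ((cj x H₀ : Subgroup Γ) : Set Γ)) :=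
      Subgroup.card_le_of_le hle
    have hc3 := hmax (cj x H₀) hRT hPR
    exact (Subgroup.eq_of_le_of_card_ge hTP' (by omega)).symm

end Cfsg.Agent.Lib.Helper77.AutSYLN
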