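import Cfsg.Agent.Lib.Helper77.BPInd

/-!
# Covering of blocks for a normal subgroup of `p`-power index

`K ≤ H` subgroups of `G`, `H` normalizing `K`, every `p`-regular element of `H` in `K`
(so `H / K` is a `p`-group).  A block `f` of `H` covers a block `g` of `K` when the central
characters of `g` take the value `1` (modulo the local ideal) on the idempotent of `f`
(`Covers`).

* `exists_cover`, `cover_unique`: every block of `K` is covered by exactly one block of `H`.
* `exists_covered`: every block of `H` covers a block of `K`.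
* `om_sub_om_of_covers`: central characters of `f` and `g` agree on `H`-fixed integral elements
  supported on `K`.
* `transitive`: `H` is transitive on the blocks of `K` covered by `f`.
* `covers_conj`, `fixed_of_commute`.
-/

set_option autoImplicit false

namespace Cfsg.Agent.Lib.Helper77.BPCov

open Cfsg Cfsg.Agent.Lib.Helper77.LocalRing Cfsg.Agent.Lib.Helper77.CentralChar
  Cfsg.Agent.Lib.Helper77.ClassSum Cfsg.Agent.Lib.Helper77.BlockIdem
  Cfsg.Agent.Lib.Helper77.OsimaVanish Cfsg.Agent.Lib.Helper77.IdemIn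
  Cfsg.Agent.Lib.Helper77.BPBasic Cfsg.Agent.Lib.Helper77.BPBrauer
  Cfsg.Agent.Lib.Helper77.BPPairs Cfsg.Agent.Lib.Helper77.BPConj
  Cfsg.Agent.Lib.Helper77.BPNormal Cfsg.Agent.Lib.Helper77.BPSubpair
  Cfsg.Agent.Lib.Helper77.BPIdem Cfsg.Agent.Lib.Helper77.BPMax
  Cfsg.Agent.Lib.Helper77.BPMax2 Cfsg.Agent.Lib.Helper77.BPEquiv
  Cfsg.Agent.Lib.Helper77.BPEquiv2
  Cfsg.Agent.Lib.Helper77.BPTransport Cfsg.Agent.Lib.Helper77.BPConjMax
  Cfsg.Agent.Lib.Helper77.BPCent Cfsg.Agent.Lib.Helper77.BPStab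
  Cfsg.Agent.Lib.Helper77.BPNorm Cfsg.Agent.Lib.Helper77.BPFix
  Cfsg.Agent.Lib.Helper77.BPSub Cfsg.Agent.Lib.Helper77.BPUp
  Cfsg.Agent.Lib.CT.Wedderburn Cfsg.Agent.Lib.Helper16.ZR Cfsg.Agent.Lib.Helper33.Conj
  Cfsg.Agent.Lib.Helper16.MinMax

universe u
variable {G : Type u} [Group G] {M : Ideal AlgInt}

/-! ### Conjugation of blocks -/

theorem conjB_mul [Finite G] (K : Subgroup G) (x y : G)
    (hx : x ∈ Subgroup.normalizer (K : Set G)) (hy : y ∈ Subgroup.normalizer (K : Set G))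
    (hxy : x * y ∈ Subgroup.normalizer (K : Set G)) (f : Set (IrrCharacter K)) :
    conjB K (x * y) hxy f = conjB K x hx (conjB K y hy f) := by
  have h1 := conjA_ext_blockIdem K (x * y) hxy f
  rw [conjA_mul, conjA_ext_blockIdem K y hy f, conjA_ext_blockIdem K x hx] at h1
  have h2 := congrArg (res K) h1
  rw [res_ext, res_ext] at h2
  exact (blockIdem_injective h2).symm

theorem conjB_one [Finite G] (K : Subgroup G)
    (h1 : (1 : G) ∈ Subgroup.normalizer (K : Set G)) (f : Set (IrrCharacter K)) :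
    conjB K 1 h1 f = f := by
  have h := conjA_ext_blockIdem K 1 h1 f
  rw [conjA_one] at h
  have h2 := congrArg (res K) h
  rw [res_ext, res_ext] at h2
  exact (blockIdem_injective h2).symm

theorem om_conj [Finite G] (K : Subgroup G) (x : G)
    (hx : x ∈ Subgroup.normalizer (K : Set G)) (ζ : K → ℂ) (z : MonoidAlgebra ℂ G) :
    om K (fun k => ζ (normConj K x hx k)) (conjA x z) = om K ζ z := by
  classical
  cases nonempty_fintype G
  have : Fintype K := Fintype.ofFinite _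
  unfold om omega
  rw [pair_eq_sum, pair_eq_sum]
  show (∑ g, (res K (conjA x z)).coeff g * ζ ((normConj K x hx) g)) / ζ (normConj K x hx 1) = _
  rw [map_one]
  congr 1
  apply Fintype.sum_equiv (normConj K x hx).toEquiv
  intro k
  rw [coeff_res, coeff_res, coeff_conjA]
  rfl

theorem supportSubring_mono {K H : Subgroup G} (hKH : K ≤ H) :
    supportSubring K ≤ supportSubring H :=
  fun _ hz g hg => hz g (fun h => hg (hKH h))

/-! ### The subring of `H`-fixed integral elements supported on `K` -/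

section Cov

variable [Finite G]

/-- The subring of `H`-fixed integral elements supported on `K`. -/
noncomputable def covS (hMp : M.IsPrime) (K H : Subgroup G) : Subring (MonoidAlgebra ℂ G) :=
  fixedSubring H ⊓ intSubring M hMp ⊓ supportSubring K

theorem mem_covS {hMp : M.IsPrime} {K H : Subgroup G} {z : MonoidAlgebra ℂ G} :
    z ∈ covS hMp K H ↔ z ∈ fixedSubring H ∧ z ∈ intSubring M hMp ∧ z ∈ supportSubring K := by
  unfold covS
  rw [Subring.mem_inf, Subring.mem_inf, and_assoc]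

/-- `f` covers `g`. -/
def Covers (M : Ideal AlgInt) (K H : Subgroup G) (f : Set (IrrCharacter H))
    (g : Set (IrrCharacter K)) : Prop :=
  ∀ ζ ∈ g, MemLocalIdeal M (om K (ζ : K → ℂ) (ext H (blockIdem f)) - 1)

variable {p : ℕ} [Fact p.Prime] (hM : IsPModular p M) {K H : Subgroup G}

include hM in
/-- Block idempotents of `H` are supported on `K`. -/
theorem ext_blockIdem_mem_covS
    (hp' : ∀ h ∈ H, ¬ p ∣ orderOf h → h ∈ K) (f : Set (IrrCharacter H)) (hf : IsPBlock M f) :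
    ext H (blockIdem f) ∈ covS (isPrime_of_isPModular hM) K H := by
  classical
  have hMp := isPrime_of_isPModular hM
  obtain ⟨h1, h2, h3⟩ := ext_blockIdem_mem hMp H f hf
  refine mem_covS.mpr ⟨h2, h3, ?_⟩
  intro g hg
  by_cases hgH : g ∈ H
  · rw [coeff_ext, dif_pos hgH, coeff_blockIdem]
    apply blockCoeff_eq_zero_of_singular p M hM f hf
    by_contra hn
    rw [Subgroup.orderOf_mk] at hn
    exact hg (hp' g hgH hn)
  · exact coeff_ext_of_not_mem H _ hgH

include hM in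
theorem exists_irr_cov (hKH : K ≤ H) (ζ : IrrCharacter K) :
    ∃ ψ₀ : IrrCharacter H, ∀ z ∈ covS (isPrime_of_isPModular hM) K H,
      MemLocalIdeal M (om K (ζ : K → ℂ) z - om H (ψ₀ : H → ℂ) z) := by
  have hMp := isPrime_of_isPModular hM
  have := finite_irrCharacter H
  refine exists_of_multiplicative hMp (covS hMp K H)
    (fun r hr z hz => ?_)
    (fun (ψ : IrrCharacter H) z => om H (ψ : H → ℂ) z)
    (fun ψ z r => om_sub_smul_one H ψ.2 z r)
    (fun ψ z hz w hw => om_mul H ψ.2 z w (mem_covS.mp hz).1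
      (supportSubring_mono hKH (mem_covS.mp hw).2.2))
    (fun ψ z hz => om_memLocalRing hMp H ψ.2 z (mem_covS.mp hz).1 (mem_covS.mp hz).2.1)
    ?_ (fun z => om K (ζ : K → ℂ) z) (om_zero _ _) (om_one _ ζ.2)
    (fun z r => om_sub_smul_one _ ζ.2 z r)
    (fun z hz => om_memLocalRing hMp K ζ.2 z
      (fixedSubring_mono hKH (mem_covS.mp hz).1) (mem_covS.mp hz).2.1)
    (fun z hz w hw => ?_)
  · obtain ⟨h1, h2, h3⟩ := mem_covS.mp hz
    refine mem_covS.mpr ⟨smul_mem_fixedSubring r h1, smul_mem_intSubring M hMp hr h2, ?_⟩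
    intro g hg
    rw [MonoidAlgebra.coeff_smul]
    show r • z.coeff g = 0
    rw [h3 g hg, smul_zero]
  · intro z hz h0
    obtain ⟨h1, h2, h3⟩ := mem_covS.mp hz
    have hr : res H z = 0 := by
      apply eq_of_omega_eq _ _ (res_mem_center H h1) (Subalgebra.zero_mem _)
      intro ψ
      rw [omega_zero]
      exact h0 ψ
    exact ext_injective_of_res (supportSubring_mono hKH h3) (Subring.zero_mem _)
      (by rw [hr, res_zero])
  · rw [om_mul K ζ.2 z w (fixedSubring_mono hKH (mem_covS.mp hz).1) (mem_covS.mp hw).2.2,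
      sub_self]
    exact memLocalIdeal_zero hMp

include hM in
/-- Every block of `K` is covered by a block of `H`. -/
theorem exists_cover (hKH : K ≤ H) (hp' : ∀ h ∈ H, ¬ p ∣ orderOf h → h ∈ K)
    (g : Set (IrrCharacter K)) (hg : IsPBlock M g) :
    ∃ f : Set (IrrCharacter H), IsPBlock M f ∧ Covers M K H f g := by
  classical
  have hMp := isPrime_of_isPModular hM
  obtain ⟨ζ₀, hζ₀⟩ := isPBlock_nonempty hMp hg
  obtain ⟨ψ₀, hψ₀⟩ := exists_irr_cov hM hKH ζ₀
  refine ⟨blockOf M (ψ₀ : H → ℂ), isPBlock_blockOf ψ₀, fun ζ hζ => ?_⟩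
  have hε := ext_blockIdem_mem_covS hM hp' (blockOf M (ψ₀ : H → ℂ)) (isPBlock_blockOf ψ₀)
  have h1 := hψ₀ _ hε
  rw [om_ext_blockIdem, if_pos (mem_blockOf_self hMp ψ₀)] at h1
  have h2 := om_sub_mem_of_sameBlock hMp K ζ.2 ζ₀.2 (sameBlock_of_mem hMp hg hζ hζ₀) _
    (fixedSubring_mono hKH (mem_covS.mp hε).1) (mem_covS.mp hε).2.1
  have h3 := memLocalIdeal_add hMp h2 h1
  rwa [sub_add_sub_cancel] at h3

include hM in
/-- Central characters of a block and of a block it covers agree on `covS`. -/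
theorem om_sub_om_of_covers (hKH : K ≤ H) (hp' : ∀ h ∈ H, ¬ p ∣ orderOf h → h ∈ K)
    {f : Set (IrrCharacter H)} (hf : IsPBlock M f) {g : Set (IrrCharacter K)}
    (hg : IsPBlock M g) (hcov : Covers M K H f g) {ξ : IrrCharacter H} (hξ : ξ ∈ f)
    {ζ : IrrCharacter K} (hζ : ζ ∈ g) {z : MonoidAlgebra ℂ G}
    (hz : z ∈ covS (isPrime_of_isPModular hM) K H) :
    MemLocalIdeal M (om H (ξ : H → ℂ) z - om K (ζ : K → ℂ) z) := by
  classical
  have hMp := isPrime_of_isPModular hM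
  obtain ⟨ψ₀, hψ₀⟩ := exists_irr_cov hM hKH ζ
  have hε := ext_blockIdem_mem_covS hM hp' f hf
  have hψ₀f : ψ₀ ∈ f := by
    by_contra hn
    have h1 := hψ₀ _ hε
    rw [om_ext_blockIdem, if_neg hn, sub_zero] at h1
    have h2 := hcov ζ hζ
    have h3 := memLocalIdeal_sub hMp h1 h2
    rw [sub_sub_cancel] at h3
    exact not_memLocalIdeal_one hMp h3
  have h1 := hψ₀ z hz
  have h2 := om_sub_mem_of_sameBlock hMp H ξ.2 ψ₀.2 (sameBlock_of_mem hMp hf hξ hψ₀f) z
    (mem_covS.mp hz).1 (mem_covS.mp hz).2.1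
  have h3 := memLocalIdeal_sub hMp h2 h1
  rwa [sub_sub_sub_cancel_right] at h3

include hM in
/-- The covering block is unique. -/
theorem cover_unique (hKH : K ≤ H) (hp' : ∀ h ∈ H, ¬ p ∣ orderOf h → h ∈ K)
    {f f₂ : Set (IrrCharacter H)} (hf : IsPBlock M f) (hf₂ : IsPBlock M f₂)
    {g : Set (IrrCharacter K)} (hg : IsPBlock M g) (hcov : Covers M K H f g)
    (hcov₂ : Covers M K H f₂ g) : f = f₂ := by
  classical
  have hMp := isPrime_of_isPModular hM
  obtain ⟨ζ, hζ⟩ := isPBlock_nonempty hMp hg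
  obtain ⟨ξ, hξ⟩ := isPBlock_nonempty hMp hf
  have hε₂ := ext_blockIdem_mem_covS hM hp' f₂ hf₂
  have h1 := om_sub_om_of_covers hM hKH hp' hf hg hcov hξ hζ hε₂
  have h2 := hcov₂ ζ hζ
  have h3 := memLocalIdeal_add hMp h1 h2
  rw [sub_add_sub_cancel, om_ext_blockIdem] at h3
  have hξ₂ : ξ ∈ f₂ := by
    by_contra hn
    rw [if_neg hn, zero_sub] at h3
    have h4 := memLocalIdeal_neg h3
    rw [neg_neg] at h4
    exact not_memLocalIdeal_one hMp h4
  rw [isPBlock_eq_blockOf hMp hf hξ, isPBlock_eq_blockOf hMp hf₂ hξ₂]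

include hM in
/-- Every block of `H` covers a block of `K`. -/
theorem exists_covered (hKH : K ≤ H) (hp' : ∀ h ∈ H, ¬ p ∣ orderOf h → h ∈ K)
    (f : Set (IrrCharacter H)) (hf : IsPBlock M f) :
    ∃ g : Set (IrrCharacter K), IsPBlock M g ∧ Covers M K H f g := by
  classical
  have hMp := isPrime_of_isPModular hM
  have hε := ext_blockIdem_mem_covS hM hp' f hf
  obtain ⟨h1, h2, h3⟩ := mem_covS.mp hε
  obtain ⟨ξ, hξ⟩ := isPBlock_nonempty hMp hf
  have hex : ∃ ζ : IrrCharacter K, om K (ζ : K → ℂ) (ext H (blockIdem f)) ≠ 0 := by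
    by_contra hn
    push Not at hn
    have hr : res K (ext H (blockIdem f)) = 0 := by
      apply eq_of_omega_eq _ _ (res_mem_center K (fixedSubring_mono hKH h1))
        (Subalgebra.zero_mem _)
      intro ζ
      rw [omega_zero]
      exact hn ζ
    have h0 : ext H (blockIdem f) = 0 :=
      ext_injective_of_res h3 (Subring.zero_mem _) (by rw [hr, res_zero])
    have h4 := congrArg (res H) h0
    rw [res_ext, res_zero] at h4
    have h5 := omega_blockIdem f ξ
    rw [h4, omega_zero, if_pos hξ] at h5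
    exact zero_ne_one h5
  obtain ⟨ζ, hζ⟩ := hex
  have hidem := om_mul K ζ.2 (ext H (blockIdem f)) (ext H (blockIdem f))
    (fixedSubring_mono hKH h1) h3
  rw [ext_blockIdem_mul_self hM H f hf] at hidem
  have hone : om K (ζ : K → ℂ) (ext H (blockIdem f)) = 1 := by
    have h6 : om K (ζ : K → ℂ) (ext H (blockIdem f)) *
        (om K (ζ : K → ℂ) (ext H (blockIdem f)) - 1) = 0 := by
      rw [mul_sub, mul_one, ← hidem, sub_self]
    rcases mul_eq_zero.mp h6 with h7 | h7
    · exact absurd h7 hζ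
    · exact sub_eq_zero.mp h7
  refine ⟨blockOf M (ζ : K → ℂ), isPBlock_blockOf ζ, fun ζ' hζ' => ?_⟩
  have h8 := om_sub_mem_of_sameBlock hMp K ζ'.2 ζ.2
    (sameBlock_symm (show SameBlock M (ζ : K → ℂ) (ζ' : K → ℂ) from hζ')) _
    (fixedSubring_mono hKH h1) h2
  rwa [hone] at h8

include hM in
/-- `H` is transitive on the blocks of `K` covered by a block of `H`. -/
theorem transitive (hKH : K ≤ H) (hn : ∀ h ∈ H, h ∈ Subgroup.normalizer (K : Set G))
    (hp' : ∀ h ∈ H, ¬ p ∣ orderOf h → h ∈ K)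
    {f : Set (IrrCharacter H)} (hf : IsPBlock M f) {g g₂ : Set (IrrCharacter K)}
    (hg : IsPBlock M g) (hg₂ : IsPBlock M g₂) (hcov : Covers M K H f g)
    (hcov₂ : Covers M K H f g₂) :
    ∃ h ∈ H, conjA h (ext K (blockIdem g)) = ext K (blockIdem g₂) := by
  classical
  have hMp := isPrime_of_isPModular hM
  have : Fintype H := Fintype.ofFinite _
  obtain ⟨s, hs⟩ : ∃ s : Finset (Set (IrrCharacter K)),
      s = Finset.univ.image (fun h : H => conjB K (h : G) (hn h h.2) g) := ⟨_, rfl⟩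
  have hmem : ∀ b, b ∈ s ↔ ∃ h : H, conjB K (h : G) (hn h h.2) g = b := by
    intro b
    rw [hs, Finset.mem_image]
    constructor
    · rintro ⟨h, -, hh⟩
      exact ⟨h, hh⟩
    · rintro ⟨h, hh⟩
      exact ⟨h, Finset.mem_univ _, hh⟩
  have hblk : ∀ b ∈ s, IsPBlock M b := by
    intro b hb
    obtain ⟨h, rfl⟩ := (hmem b).mp hb
    exact isPBlock_conjB K _ _ hg
  have hgs : g ∈ s := (hmem g).mpr ⟨1, conjB_one K _ g⟩
  have hstab : ∀ y (hy : y ∈ H), ∀ b ∈ s, conjB K y (hn y hy) b ∈ s := by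
    intro y hy b hb
    obtain ⟨h, rfl⟩ := (hmem b).mp hb
    refine (hmem _).mpr ⟨⟨y * h, mul_mem hy h.2⟩, ?_⟩
    exact conjB_mul K y h (hn y hy) (hn h h.2) _ g
  obtain ⟨O, hO⟩ : ∃ O : MonoidAlgebra ℂ G, O = ∑ b ∈ s, ext K (blockIdem b) := ⟨_, rfl⟩
  have hOS : O ∈ covS hMp K H := by
    refine mem_covS.mpr ⟨?_, ?_, ?_⟩
    · rw [mem_fixedSubring_iff_conjA]
      intro y hy
      rw [hO, conjA_sum]
      apply Finset.sum_nbij' (fun b => conjB K y (hn y hy) b)
        (fun b => conjB K y⁻¹ (hn _ (inv_mem hy)) b)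
      · exact hstab y hy
      · exact hstab y⁻¹ (inv_mem hy)
      · intro b _
        show conjB K y⁻¹ _ (conjB K y _ b) = b
        rw [← conjB_mul K y⁻¹ y (hn _ (inv_mem hy)) (hn y hy)
          (by rw [inv_mul_cancel]; exact one_mem _) b]
        have h1 : conjB K (y⁻¹ * y) (by rw [inv_mul_cancel]; exact one_mem _) b =
            conjB K 1 (one_mem _) b := by
          congr 1
          exact inv_mul_cancel y
        rw [h1, conjB_one]
      · intro b _
        show conjB K y _ (conjB K y⁻¹ _ b) = b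
        rw [← conjB_mul K y y⁻¹ (hn y hy) (hn _ (inv_mem hy))
          (by rw [mul_inv_cancel]; exact one_mem _) b]
        have h1 : conjB K (y * y⁻¹) (by rw [mul_inv_cancel]; exact one_mem _) b =
            conjB K 1 (one_mem _) b := by
          congr 1
          exact mul_inv_cancel y
        rw [h1, conjB_one]
      · intro b _
        exact conjA_ext_blockIdem K y (hn y hy) b
    · rw [hO]
      exact Subring.sum_mem _ (fun b hb => (ext_blockIdem_mem hMp K b (hblk b hb)).2.2)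
    · rw [hO]
      exact Subring.sum_mem _ (fun b _ => ext_mem_supportSubring K _)
  have hom : ∀ ζ : IrrCharacter K, om K (ζ : K → ℂ) O = ∑ b ∈ s, if ζ ∈ b then 1 else 0 := by
    intro ζ
    rw [hO, om_sum]
    exact Finset.sum_congr rfl (fun b _ => om_ext_blockIdem K b ζ)
  obtain ⟨ζ, hζ⟩ := isPBlock_nonempty hMp hg
  obtain ⟨ζ₂, hζ₂⟩ := isPBlock_nonempty hMp hg₂
  obtain ⟨ξ, hξ⟩ := isPBlock_nonempty hMp hf
  have h1 : om K (ζ : K → ℂ) O = 1 := by
    rw [hom, Finset.sum_eq_single g]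
    · rw [if_pos hζ]
    · intro b hb hne
      rw [if_neg]
      intro hζb
      apply hne
      rw [isPBlock_eq_blockOf hMp (hblk b hb) hζb, isPBlock_eq_blockOf hMp hg hζ]
    · intro h
      exact absurd hgs h
  have h2 := om_sub_om_of_covers hM hKH hp' hf hg hcov hξ hζ hOS
  have h3 := om_sub_om_of_covers hM hKH hp' hf hg₂ hcov₂ hξ hζ₂ hOS
  have h4 := memLocalIdeal_sub hMp h2 h3
  rw [sub_sub_sub_cancel_left, h1] at h4
  have hex : ∃ b ∈ s, ζ₂ ∈ b := by
    by_contra hn'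
    push Not at hn'
    rw [hom, Finset.sum_eq_zero (fun b hb => if_neg (hn' b hb)), zero_sub] at h4
    have h5 := memLocalIdeal_neg h4
    rw [neg_neg] at h5
    exact not_memLocalIdeal_one hMp h5
  obtain ⟨b, hb, hζb⟩ := hex
  obtain ⟨h, rfl⟩ := (hmem b).mp hb
  refine ⟨h, h.2, ?_⟩
  rw [conjA_ext_blockIdem K h (hn h h.2) g,
    isPBlock_eq_blockOf hMp (hblk _ hb) hζb, isPBlock_eq_blockOf hMp hg₂ hζ₂]

/-- Covering is compatible with conjugation. -/
theorem covers_conj (x : G) (hxH : x ∈ Subgroup.normalizer (H : Set G))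
    (hxK : x ∈ Subgroup.normalizer (K : Set G)) {f : Set (IrrCharacter H)}
    {g : Set (IrrCharacter K)} (h : Covers M K H f g) :
    Covers M K H (conjB H x hxH f) (conjB K x hxK g) := by
  rintro ζ₁ ⟨ζ, hζ, rfl⟩
  rw [← conjA_ext_blockIdem H x hxH f]
  show MemLocalIdeal M (om K (fun k => (ζ : K → ℂ) (normConj K x hxK k))
    (conjA x (ext H (blockIdem f))) - 1)
  rw [om_conj]
  exact h ζ hζ

include hM in
/-- A `p`-regular element stabilizing `f` and commuting with `H` modulo `K` fixes every block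
of `K` covered by `f`. -/
theorem fixed_of_commute (hKH : K ≤ H) (hn : ∀ h ∈ H, h ∈ Subgroup.normalizer (K : Set G))
    (hp' : ∀ h ∈ H, ¬ p ∣ orderOf h → h ∈ K)
    {f : Set (IrrCharacter H)} (hf : IsPBlock M f) {g : Set (IrrCharacter K)}
    (hg : IsPBlock M g) (hcov : Covers M K H f g) (x : G)
    (hxH : x ∈ Subgroup.normalizer (H : Set G)) (hxK : x ∈ Subgroup.normalizer (K : Set G))
    (hxp : ¬ p ∣ orderOf x) (hcomm : ∀ h ∈ H, x⁻¹ * h⁻¹ * x * h ∈ K)
    (hfx : conjB H x hxH f = f) :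
    conjA x (ext K (blockIdem g)) = ext K (blockIdem g) := by
  classical
  have hMp := isPrime_of_isPModular hM
  have hp : p.Prime := Fact.out
  have hg₁ : IsPBlock M (conjB K x hxK g) := isPBlock_conjB K x hxK hg
  have hcov₁ : Covers M K H f (conjB K x hxK g) := by
    have h := covers_conj x hxH hxK hcov
    rwa [hfx] at h
  obtain ⟨h₀, hh₀, hh⟩ := transitive hM hKH hn hp' hf hg hg₁ hcov hcov₁
  obtain ⟨ε, hε⟩ : ∃ ε : MonoidAlgebra ℂ G, ε = ext K (blockIdem g) := ⟨_, rfl⟩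
  rw [← hε] at hh ⊢
  have hx1 : conjA x ε = conjA h₀ ε := by
    rw [hh, hε, conjA_ext_blockIdem K x hxK g]
  have hKfix : ∀ k ∈ K, conjA k ε = ε := by
    rw [hε]
    exact mem_fixedSubring_iff_conjA.mp (ext_blockIdem_mem hMp K g hg).2.1
  have hj : ∀ j : ℕ, conjA (x ^ j) ε = conjA (h₀ ^ j) ε := by
    intro j
    induction j with
    | zero => rw [pow_zero, pow_zero]
    | succ j ih =>
      have hk : x⁻¹ * (h₀ ^ j)⁻¹ * x * h₀ ^ j ∈ K := hcomm _ (pow_mem hh₀ j)
      have e1 : x * h₀ ^ j = h₀ ^ j * x * (x⁻¹ * (h₀ ^ j)⁻¹ * x * h₀ ^ j) := by group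
      calc conjA (x ^ (j + 1)) ε = conjA x (conjA (x ^ j) ε) := by rw [pow_succ', conjA_mul]
        _ = conjA x (conjA (h₀ ^ j) ε) := by rw [ih]
        _ = conjA (x * h₀ ^ j) ε := by rw [conjA_mul]
        _ = conjA (h₀ ^ j * x * (x⁻¹ * (h₀ ^ j)⁻¹ * x * h₀ ^ j)) ε := by rw [← e1]
        _ = conjA (h₀ ^ j * x) (conjA (x⁻¹ * (h₀ ^ j)⁻¹ * x * h₀ ^ j) ε) := by rw [conjA_mul]
        _ = conjA (h₀ ^ j * x) ε := by rw [hKfix _ hk]
        _ = conjA (h₀ ^ j) (conjA x ε) := by rw [conjA_mul]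
        _ = conjA (h₀ ^ j) (conjA h₀ ε) := by rw [hx1]
        _ = conjA (h₀ ^ (j + 1)) ε := by rw [← conjA_mul, ← pow_succ]
  let S : Subgroup G :=
    { carrier := {y | conjA y ε = ε}
      mul_mem' := by
        intro a b ha hb
        show conjA (a * b) ε = ε
        rw [conjA_mul, show conjA b ε = ε from hb, show conjA a ε = ε from ha]
      one_mem' := conjA_one ε
      inv_mem' := by
        intro a ha
        show conjA a⁻¹ ε = ε
        have h1 : conjA a⁻¹ (conjA a ε) = ε := conjA_inv_cancel a ε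
        rwa [show conjA a ε = ε from ha] at h1 }
  have h1 : h₀ ^ orderOf x ∈ S := by
    show conjA (h₀ ^ orderOf x) ε = ε
    rw [← hj, pow_orderOf_eq_one, conjA_one]
  obtain ⟨s, t, ht, hst⟩ := Nat.exists_eq_pow_mul_and_not_dvd (orderOf_pos h₀).ne' p hp.ne_one
  have h2 : h₀ ^ (p ^ s) ∈ K := by
    apply hp' _ (pow_mem hh₀ _)
    have h3 : orderOf (h₀ ^ (p ^ s)) = t := by
      rw [orderOf_pow' h₀ (pow_ne_zero _ hp.ne_zero), hst, Nat.gcd_eq_right (dvd_mul_right _ _)]
      exact Nat.mul_div_cancel_left _ (pow_pos hp.pos _)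
    rw [h3]
    exact ht
  have h2' : h₀ ^ (p ^ s) ∈ S := hKfix _ h2
  have hcop : Nat.gcd (orderOf x) (p ^ s) = 1 :=
    Nat.Coprime.pow_right s ((Nat.Prime.coprime_iff_not_dvd hp).mpr hxp).symm
  have hb := Nat.gcd_eq_gcd_ab (orderOf x) (p ^ s)
  rw [hcop] at hb
  have hh₀S : h₀ ∈ S := by
    have e2 : h₀ = (h₀ ^ orderOf x) ^ (Nat.gcdA (orderOf x) (p ^ s)) *
        (h₀ ^ (p ^ s)) ^ (Nat.gcdB (orderOf x) (p ^ s)) := by
      rw [← zpow_natCast h₀ (orderOf x), ← zpow_natCast h₀ (p ^ s), ← zpow_mul, ← zpow_mul,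
        ← zpow_add, ← hb]
      simp
    rw [e2]
    exact mul_mem (zpow_mem h1 _) (zpow_mem h2' _)
  rw [hx1]
  exact hh₀S

end Cov

end Cfsg.Agent.Lib.Helper77.BPCov
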