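import Mathlib
import Cfsg.Prelude.Def_BrauerPairs
import Cfsg.Agent.Lib.Helper77.BPConjMax

/-!
# Brauer pairs of the principal block (Brauer's third main theorem in Brauer-pair form)

`(Q, e)` is a Brauer pair of the principal block of `G` iff `e` is the principal block of
`C_G(Q)`.
-/

set_option autoImplicit false

namespace Cfsg.Agent.Lib.Helper77.BPPrincipal

open Cfsg Cfsg.Agent.Lib.Helper77.LocalRing Cfsg.Agent.Lib.Helper77.CentralChar
  Cfsg.Agent.Lib.Helper77.ClassSum Cfsg.Agent.Lib.Helper77.BlockIdem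
  Cfsg.Agent.Lib.Helper77.OsimaVanish Cfsg.Agent.Lib.Helper77.IdemIn
  Cfsg.Agent.Lib.Helper77.BPBasic Cfsg.Agent.Lib.Helper77.BPBrauer
  Cfsg.Agent.Lib.Helper77.BPPairs Cfsg.Agent.Lib.Helper77.BPConj
  Cfsg.Agent.Lib.Helper77.BPNormal Cfsg.Agent.Lib.Helper77.BPSubpair
  Cfsg.Agent.Lib.Helper77.BPIdem Cfsg.Agent.Lib.Helper77.BPMax
  Cfsg.Agent.Lib.Helper77.BPMax2 Cfsg.Agent.Lib.Helper77.BPEquiv
  Cfsg.Agent.Lib.Helper77.BPTransport Cfsg.Agent.Lib.Helper77.BPConjMax
  Cfsg.Agent.Lib.CT.Wedderburn Cfsg.Agent.Lib.Helper16.ZR Cfsg.Agent.Lib.Helper33.Conj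
  Cfsg.Agent.Lib.Helper16.MinMax

universe u
variable {G : Type u} [Group G] {M : Ideal AlgInt}

/-- The principal character as an irreducible character. -/
def trivIrr (H : Type u) [Group H] : IrrCharacter H :=
  ⟨fun _ => 1, Cfsg.Agent.Lib.CT.Ops.isIrrCharacter_one⟩

theorem trivIrr_apply (H : Type u) [Group H] (h : H) : (trivIrr H : H → ℂ) h = 1 := rfl

theorem isPBlock_principal (H : Type u) [Group H] : IsPBlock M (principalBlock M H) :=
  ⟨trivIrr H, rfl⟩

theorem trivIrr_mem (hMp : M.IsPrime) (H : Type u) [Group H] :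
    trivIrr H ∈ principalBlock M H :=
  mem_blockOf_self hMp (trivIrr H)

theorem omega_triv [Fintype G] (z : MonoidAlgebra ℂ G) :
    omega (trivIrr G : G → ℂ) z = ∑ g : G, z.coeff g := by
  unfold omega
  rw [pair_eq_sum]
  simp [trivIrr_apply]

theorem om_triv [Finite G] (H : Subgroup G) [Fintype H] (z : MonoidAlgebra ℂ G) :
    om H (trivIrr H : H → ℂ) z = ∑ h : H, z.coeff (h : G) := by
  unfold om
  rw [omega_triv]
  rfl

/-- For an element supported on `H`, the augmentation on `H` is the augmentation on `G`. -/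
theorem om_triv_of_support [Finite G] (H : Subgroup G) (z : MonoidAlgebra ℂ G)
    (hz : z ∈ supportSubring H) :
    om H (trivIrr H : H → ℂ) z = omega (trivIrr G : G → ℂ) z := by
  classical
  haveI : Fintype G := Fintype.ofFinite G
  haveI : Fintype H := Fintype.ofFinite H
  rw [omega_triv, om_triv,
    ← Finset.sum_subtype (Finset.univ.filter (fun g : G => g ∈ H)) (by simp)
      (fun g => z.coeff g)]
  apply Finset.sum_subset (Finset.filter_subset _ _)
  intro g _ hg
  have hg' : g ∉ H := by simpa using hg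
  exact hz g hg'

/-- **Augmentation congruence**: for an integral element fixed by the `p`-subgroup `Q`, the
augmentation is congruent to the augmentation of its truncation to `C_G(Q)`. -/
theorem aug_sub_mem [Finite G] {p : ℕ} [Fact p.Prime] (hM : IsPModular p M) (Q : Subgroup G)
    (hQ : IsPGroup p Q) (z : MonoidAlgebra ℂ G) (hz : z ∈ fixedSubring Q)
    (hzR : z ∈ intSubring M (isPrime_of_isPModular hM)) :
    MemLocalIdeal M (omega (trivIrr G : G → ℂ) z -
      om (Subgroup.centralizer (Q : Set G))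
        (trivIrr (Subgroup.centralizer (Q : Set G)) : Subgroup.centralizer (Q : Set G) → ℂ)
        z) := by
  classical
  haveI : Fintype G := Fintype.ofFinite G
  haveI : Fintype (Subgroup.centralizer (Q : Set G)) := Fintype.ofFinite _
  rw [omega_triv, om_triv,
    ← Finset.sum_subtype (Finset.univ.filter (fun g : G => g ∈ Subgroup.centralizer (Q : Set G)))
      (by simp) (fun g => z.coeff g),
    ← Finset.sum_filter_add_sum_filter_not Finset.univ
      (fun g : G => g ∈ Subgroup.centralizer (Q : Set G)), add_sub_cancel_left]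
  apply sum_mem_of_invariant p hM Q hQ
  · intro x hx u hu
    rw [Finset.mem_filter] at hx ⊢
    refine ⟨Finset.mem_univ _, fun hin => hx.2 ?_⟩
    rw [Subgroup.mem_centralizer_iff] at hin ⊢
    intro q hq
    have h1 := hin (u * q * u⁻¹) (Q.mul_mem (Q.mul_mem hu hq) (Q.inv_mem hu))
    have h2 : u * (q * x) * u⁻¹ = u * (x * q) * u⁻¹ := by
      calc u * (q * x) * u⁻¹ = (u * q * u⁻¹) * (u * x * u⁻¹) := by group
        _ = (u * x * u⁻¹) * (u * q * u⁻¹) := h1
        _ = u * (x * q) * u⁻¹ := by group
    exact mul_left_cancel (mul_right_cancel h2)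
  · intro x hx
    rw [Finset.mem_filter] at hx
    by_contra hn
    push Not at hn
    apply hx.2
    rw [Subgroup.mem_centralizer_iff]
    intro u hu
    have h1 := hn u hu
    calc u * x = u * x * u⁻¹ * u := by group
      _ = x * u := by rw [h1]
  · intro x _ u hu
    exact (mem_fixedSubring.mp hz) u hu x
  · intro x _
    exact hzR x

/-- `(Q, principal block of C_G(Q))` is a Brauer pair of the principal block of `G`. -/
theorem isBrauerPairOf_principal [Finite G] {p : ℕ} [Fact p.Prime] (hM : IsPModular p M)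
    (Q : Subgroup G) (hQ : IsPGroup p Q) :
    IsBrauerPairOf p M (principalBlock M G) Q
      (principalBlock M (Subgroup.centralizer (Q : Set G))) := by
  classical
  have hMp := isPrime_of_isPModular hM
  refine ⟨⟨hQ, isPBlock_principal _⟩, isPBlock_principal G, fun ξ hξ => ?_⟩
  rw [brauerOmega_eq]
  have hz := blockIdem_mem_top hMp (principalBlock M G) (isPBlock_principal G)
  obtain ⟨hz1, hz2⟩ := Subring.mem_inf.mp hz
  have a1 := om_sub_mem_of_sameBlock hMp _ ξ.2 (trivIrr _).2
    (sameBlock_of_mem hMp (isPBlock_principal _) hξ (trivIrr_mem hMp _))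
    (blockIdem (principalBlock M G)) (fixedSubring_mono le_top hz1) hz2
  have a2 := aug_sub_mem hM Q hQ (blockIdem (principalBlock M G))
    (fixedSubring_mono le_top hz1) hz2
  have a3 : omega (trivIrr G : G → ℂ) (blockIdem (principalBlock M G)) = 1 := by
    rw [omega_blockIdem, if_pos (trivIrr_mem hMp G)]
  rw [a3] at a2
  have a4 : MemLocalIdeal M (om (Subgroup.centralizer (Q : Set G))
      (ξ : Subgroup.centralizer (Q : Set G) → ℂ) (blockIdem (principalBlock M G)) - 1) := by
    have a5 := memLocalIdeal_sub hMp a1 a2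
    convert a5 using 1
    ring
  exact a4

/-- The principal blocks form a normal inclusion of Brauer pairs. -/
theorem isNormalSubpair_principal [Finite G] {p : ℕ} [Fact p.Prime] (hM : IsPModular p M)
    {Q₁ P₁ : Subgroup G} (hP : IsPGroup p P₁) (hQP : Q₁ ≤ P₁)
    (hPN : P₁ ≤ Subgroup.normalizer (Q₁ : Set G)) :
    IsNormalSubpair p M Q₁ (principalBlock M (Subgroup.centralizer (Q₁ : Set G))) P₁
      (principalBlock M (Subgroup.centralizer (P₁ : Set G))) := by
  classical
  have hMp := isPrime_of_isPModular hM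
  have hCC : Subgroup.centralizer (P₁ : Set G) ≤ Subgroup.centralizer (Q₁ : Set G) :=
    Subgroup.centralizer_le hQP
  have hPNC : P₁ ≤ Subgroup.normalizer
      ((Subgroup.centralizer (Q₁ : Set G) : Subgroup G) : Set G) :=
    hPN.trans (normalizer_le_normalizer_centralizer Q₁)
  have hst : ∀ x ∈ P₁, StabilizesBlock (Subgroup.centralizer (Q₁ : Set G))
      (principalBlock M (Subgroup.centralizer (Q₁ : Set G))) x := by
    intro x hx
    rw [stabilizesBlock_iff _ x (hPNC hx)]
    have h1 : trivIrr (Subgroup.centralizer (Q₁ : Set G)) ∈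
        conjB (Subgroup.centralizer (Q₁ : Set G)) x (hPNC hx)
          (principalBlock M (Subgroup.centralizer (Q₁ : Set G))) :=
      ⟨trivIrr _, trivIrr_mem hMp _, rfl⟩
    rw [isPBlock_eq_blockOf hMp (isPBlock_conjB _ x (hPNC hx) (isPBlock_principal _)) h1]
    rfl
  refine ⟨⟨hP.to_le hQP, isPBlock_principal _⟩, ⟨hP, isPBlock_principal _⟩, hQP, hPN, hst,
    fun ξ hξ => ?_⟩
  rw [brauerOmega_eq, ofFun_subgroupBlockCoeff]
  have hεp := ext_blockIdem_mem_pairSubring hMp _ P₁ hPNC _ (isPBlock_principal _) hst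
  obtain ⟨hz1, hz2, hz3, hz4⟩ := (mem_pairSubring hMp).mp hεp
  have a1 := om_sub_mem_of_sameBlock hMp _ ξ.2 (trivIrr _).2
    (sameBlock_of_mem hMp (isPBlock_principal _) hξ (trivIrr_mem hMp _)) _
    (fixedSubring_mono hCC hz2) hz4
  have a2 := aug_sub_mem hM P₁ hP _ hz3 hz4
  rw [← om_triv_of_support _ _ hz1, om_ext_blockIdem, if_pos (trivIrr_mem hMp _)] at a2
  have a5 := memLocalIdeal_sub hMp a1 a2
  convert a5 using 1
  ring

/-- A pair below a pair with a principal block has a principal block. -/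
theorem eq_principal_of_le [Finite G] {p : ℕ} [Fact p.Prime] (hM : IsPModular p M)
    (a b : BrauerPairIdx G) (h : Relation.ReflTransGen (NormalSubpairRel p M) a b) :
    IsPGroup p b.1 → b.2 = principalBlock M (Subgroup.centralizer (b.1 : Set G)) →
      a.2 = principalBlock M (Subgroup.centralizer (a.1 : Set G)) := by
  induction h with
  | refl => exact fun _ h => h
  | @tail b c hab hbc ih =>
    intro hc hc2
    apply ih hbc.1.1
    obtain ⟨R, g⟩ := b
    obtain ⟨P₁, e₁⟩ := c
    have hbc' : IsNormalSubpair p M R g P₁ e₁ := hbc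
    have hc' : IsPGroup p P₁ := hc
    have hc2' : e₁ = principalBlock M (Subgroup.centralizer (P₁ : Set G)) := hc2
    rw [hc2'] at hbc'
    exact normalSubpair_unique hM hbc'
      (isNormalSubpair_principal hM hc' hbc'.2.2.1 hbc'.2.2.2.1)

/-- **Brauer's third main theorem, Brauer-pair form.** -/
theorem isBrauerPairOf_principal_iff [Finite G] {p : ℕ} [Fact p.Prime] (hM : IsPModular p M)
    (Q : Subgroup G) (hQ : IsPGroup p Q)
    (e : Set (IrrCharacter (Subgroup.centralizer (Q : Set G)))) (he : IsPBlock M e) :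
    IsBrauerPairOf p M (principalBlock M G) Q e ↔
      e = principalBlock M (Subgroup.centralizer (Q : Set G)) := by
  have hMp := isPrime_of_isPModular hM
  constructor
  · intro h
    obtain ⟨S⟩ : Nonempty (Sylow p G) := inferInstance
    have hmax : IsMaximalBrauerPair p M (principalBlock M G) (S : Subgroup G)
        (principalBlock M (Subgroup.centralizer ((S : Subgroup G) : Set G))) := by
      refine ⟨isBrauerPairOf_principal hM _ S.2, fun R g hRg hle => ?_⟩
      have hle' : Relation.ReflTransGen (NormalSubpairRel p M)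
          ⟨(S : Subgroup G), principalBlock M _⟩ ⟨R, g⟩ := hle
      exact S.is_maximal' hRg.1.1 (le_of_subpairLE _ _ hle')
    obtain ⟨x, hx⟩ := exists_conj_le_of_maximal hM hmax h
    have h1 := eq_principal_of_le hM ⟨Q.map (MulAut.conj x).toMonoidHom, conjBlock Q x e⟩
      ⟨(S : Subgroup G), _⟩ hx S.2 rfl
    simp only at h1
    have h2 : trivIrr _ ∈ conjBlock Q x e := by
      rw [h1]
      exact trivIrr_mem hMp _
    rw [conjBlock_eq] at h2
    obtain ⟨ξ, hξ, hξ1⟩ := h2
    have h3 : ξ = trivIrr _ := by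
      apply Subtype.ext
      funext c
      have h4 := congrArg (fun χ : IrrCharacter _ => (χ : _ → ℂ) (cIso Q x c)) hξ1
      simp only [pull_apply, MulEquiv.symm_apply_apply] at h4
      exact h4
    rw [h3] at hξ
    exact isPBlock_eq_blockOf hMp he hξ
  · rintro rfl
    exact isBrauerPairOf_principal hM Q hQ

end Cfsg.Agent.Lib.Helper77.BPPrincipal
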