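import Mathlib
import Cfsg.Prelude.Def_BrauerPairs
import Cfsg.Agent.Lib.Helper77.BPPrincipal

/-!
# Brauer pairs of the principal block, II

The principal blocks of the centralizers of the subgroups of a `p`-subgroup form a chain of
Brauer pairs; for a Sylow `p`-subgroup `S`, `(S, principal block of C_G(S))` is a maximal Brauer
pair of the principal block.
-/

set_option autoImplicit false

namespace Cfsg.Agent.Lib.Helper77.BPPrincipal2

open Cfsg Cfsg.Agent.Lib.Helper77.LocalRing Cfsg.Agent.Lib.Helper77.CentralChar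
  Cfsg.Agent.Lib.Helper77.ClassSum Cfsg.Agent.Lib.Helper77.BlockIdem
  Cfsg.Agent.Lib.Helper77.BPBasic Cfsg.Agent.Lib.Helper77.BPBrauer
  Cfsg.Agent.Lib.Helper77.BPPairs Cfsg.Agent.Lib.Helper77.BPConj
  Cfsg.Agent.Lib.Helper77.BPNormal Cfsg.Agent.Lib.Helper77.BPSubpair
  Cfsg.Agent.Lib.Helper77.BPEquiv
  Cfsg.Agent.Lib.Helper77.BPTransport Cfsg.Agent.Lib.Helper77.BPConjMax
  Cfsg.Agent.Lib.Helper77.BPPrincipal
  Cfsg.Agent.Lib.CT.Wedderburn Cfsg.Agent.Lib.Helper16.ZR Cfsg.Agent.Lib.Helper33.Conj

universe u
variable {G : Type u} [Group G] {M : Ideal AlgInt}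

/-- The principal block of a subgroup is stable under its normalizer. -/
theorem stabilizesBlock_principal [Finite G] (hMp : M.IsPrime) (H : Subgroup G) (x : G)
    (hx : x ∈ Subgroup.normalizer (H : Set G)) :
    StabilizesBlock H (principalBlock M H) x := by
  rw [stabilizesBlock_iff _ x hx]
  have h1 : trivIrr H ∈ conjB H x hx (principalBlock M H) :=
    ⟨trivIrr _, trivIrr_mem hMp _, rfl⟩
  rw [isPBlock_eq_blockOf hMp (isPBlock_conjB _ x hx (isPBlock_principal _)) h1]
  rfl

/-- The conjugate of a principal block is the principal block. -/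
theorem conjBlock_principal (hMp : M.IsPrime) (Q : Subgroup G) (x : G) :
    conjBlock Q x (principalBlock M (Subgroup.centralizer (Q : Set G))) =
      principalBlock M (Subgroup.centralizer
        ((Q.map (MulAut.conj x).toMonoidHom : Subgroup G) : Set G)) := by
  have h1 : trivIrr _ ∈ conjBlock Q x (principalBlock M (Subgroup.centralizer (Q : Set G))) :=
    ⟨trivIrr _, trivIrr_mem hMp _, fun _ _ _ => rfl⟩
  rw [isPBlock_eq_blockOf hMp (isPBlock_conjBlock Q x (isPBlock_principal _)) h1]
  rfl

/-- For a Sylow `p`-subgroup `S`, `(S, principal block of C_G(S))` is a maximal Brauer pair of the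
principal block. -/
theorem isMaximalBrauerPair_principal_sylow [Finite G] {p : ℕ} [Fact p.Prime]
    (hM : IsPModular p M) (S : Sylow p G) :
    IsMaximalBrauerPair p M (principalBlock M G) (S : Subgroup G)
      (principalBlock M (Subgroup.centralizer ((S : Subgroup G) : Set G))) := by
  refine ⟨isBrauerPairOf_principal hM _ S.2, fun R g hRg hle => ?_⟩
  have hle' : Relation.ReflTransGen (NormalSubpairRel p M)
      ⟨(S : Subgroup G), principalBlock M _⟩ ⟨R, g⟩ := hle
  exact S.is_maximal' hRg.1.1 (le_of_subpairLE _ _ hle')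

/-- The principal blocks of the centralizers form an inclusion of Brauer pairs. -/
theorem subpairLE_principal [Finite G] {p : ℕ} [Fact p.Prime] (hM : IsPModular p M)
    (S : Subgroup G) (hS : IsPGroup p S) (Q : Subgroup G) (hQS : Q ≤ S) :
    SubpairLE p M Q (principalBlock M (Subgroup.centralizer (Q : Set G))) S
      (principalBlock M (Subgroup.centralizer (S : Set G))) := by
  obtain ⟨f, hf⟩ := exists_subpair hM S (principalBlock M (Subgroup.centralizer (S : Set G)))
    ⟨hS, isPBlock_principal _⟩ Q hQS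
  have h1 := eq_principal_of_le hM ⟨Q, f⟩ ⟨S, _⟩ hf hS rfl
  have h2 : f = principalBlock M (Subgroup.centralizer (Q : Set G)) := h1
  rw [← h2]
  exact hf

end Cfsg.Agent.Lib.Helper77.BPPrincipal2
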