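import Cfsg.Agent.Lib.Helper77.DihG3
import Cfsg.Agent.Lib.Helper2.Frob
import Cfsg.Agent.Lib.Helper54.CyclicNormal
import Cfsg.Agent.H85.DihAut
import Cfsg.Agent.S0111

/-!
# Dihedral Sylow 2-subgroups: the centralizer of the central involution is 2-nilpotent
-/

set_option autoImplicit false

namespace Cfsg.Agent.Lib.Helper77.DihG4

open Cfsg Cfsg.Agent.Lib.Helper77.DihG Cfsg.Agent.Lib.Helper77.DihG2

/-- An element of odd order normalizing a cyclic 2-group centralizes it. -/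
theorem conj_eq_of_odd {X : Type*} [Group X] (g c : X) (r : ℤ) (m : ℕ) (hg : Odd (orderOf g))
    (hc : orderOf c = 2 ^ m) (hconj : g * c * g⁻¹ = c ^ r) : g * c * g⁻¹ = c := by
  have h1 := Cfsg.Agent.Lib.Helper54.CyclicNormal.pow_conj_of_conj hconj (orderOf g)
  rw [pow_orderOf_eq_one, one_mul, inv_one, mul_one] at h1
  have h2 : c ^ (r ^ orderOf g - 1) = 1 := by
    rw [zpow_sub, zpow_one, ← h1, mul_inv_cancel]
  have h3 : ((orderOf c : ℕ) : ℤ) ∣ r ^ orderOf g - 1 := orderOf_dvd_iff_zpow_eq_one.mpr h2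
  rw [hc] at h3
  have h4 : ((r ^ orderOf g - 1 : ℤ) : ZMod (2 ^ m)) = 0 :=
    (ZMod.intCast_zmod_eq_zero_iff_dvd _ _).mpr h3
  push_cast at h4
  have h5 : (r : ZMod (2 ^ m)) ^ orderOf g = 1 := sub_eq_zero.mp h4
  have h6 := Cfsg.Agent.H85.zmod_two_pow_eq_one_of_odd_pow m (r : ZMod (2 ^ m)) (orderOf g) hg h5
  have h7 : ((r - 1 : ℤ) : ZMod (2 ^ m)) = 0 := by
    push_cast
    rw [h6, sub_self]
  have h8 : ((2 ^ m : ℕ) : ℤ) ∣ r - 1 := (ZMod.intCast_zmod_eq_zero_iff_dvd _ _).mp h7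
  rw [← hc] at h8
  have h9 : c ^ (r - 1) = 1 := orderOf_dvd_iff_zpow_eq_one.mp h8
  rw [hconj]
  calc c ^ r = c ^ (r - 1 + 1) := by rw [sub_add_cancel]
    _ = c ^ (r - 1) * c := zpow_add_one c (r - 1)
    _ = c := by rw [h9, one_mul]

/-- The Frobenius condition from Thompson transfer. -/
theorem frob_cond {X : Type*} [Group X] [Finite X] (S : Sylow 2 X) (c : X)
    (hM : ∀ u ∈ (S : Subgroup X), u ∉ Subgroup.zpowers c →
      ∃ M : Subgroup X, M.Normal ∧ M.index = 2 ∧ u ∉ M)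
    (T : Subgroup X) (hT : T ≤ (S : Subgroup X)) (g : X)
    (hg : g ∈ Subgroup.normalizer (T : Set X)) (hodd : Nat.Coprime (orderOf g) 2) :
    g ∈ Subgroup.centralizer (T : Set X) := by
  have hoddg : Odd (orderOf g) := Nat.coprime_two_right.mp hodd
  have h1 : ∀ M : Subgroup X, M.Normal → M.index = 2 → g ∈ M := by
    intro M _ hM2
    obtain ⟨j, hj⟩ := hoddg
    have e : g = (g * g) ^ (j + 1) := by
      rw [← pow_two, ← pow_mul]
      have e2 : 2 * (j + 1) = orderOf g + 1 := by omega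
      rw [e2, pow_succ, pow_orderOf_eq_one, one_mul]
    rw [e]
    exact Subgroup.pow_mem _ (Subgroup.mul_self_mem_of_index_two hM2 g) _
  have h2 : ∀ t ∈ T, g * t * g⁻¹ * t⁻¹ ∈ Subgroup.zpowers c := by
    intro t ht
    by_contra hc
    have hgt : g * t * g⁻¹ ∈ T := (Subgroup.mem_normalizer_iff.mp hg t).mp ht
    have hw : g * t * g⁻¹ * t⁻¹ ∈ T := T.mul_mem hgt (T.inv_mem ht)
    obtain ⟨M, hMn, hM2, hwM⟩ := hM _ (hT hw) hc
    apply hwM
    have hgM := h1 M hMn hM2
    have e : g * t * g⁻¹ * t⁻¹ = g * (t * g⁻¹ * t⁻¹) := by group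
    rw [e]
    exact M.mul_mem hgM (hMn.conj_mem _ (M.inv_mem hgM) t)
  have hcyc : IsCyclic ↥(T ⊓ Subgroup.zpowers c) :=
    isCyclic_of_injective
      (Subgroup.inclusion (inf_le_right : T ⊓ Subgroup.zpowers c ≤ Subgroup.zpowers c))
      (Subgroup.inclusion_injective _)
  obtain ⟨c₀, hc₀⟩ := hcyc.exists_generator
  have hc₀T : (c₀ : X) ∈ T := c₀.2.1
  have hc₀Q : (c₀ : X) ∈ Subgroup.zpowers c := c₀.2.2
  have hgc₀ : g * (c₀ : X) * g⁻¹ ∈ T ⊓ Subgroup.zpowers c := by
    refine ⟨(Subgroup.mem_normalizer_iff.mp hg _).mp hc₀T, ?_⟩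
    have e : g * (c₀ : X) * g⁻¹ = g * c₀ * g⁻¹ * (c₀ : X)⁻¹ * c₀ := by group
    rw [e]
    exact Subgroup.mul_mem _ (h2 _ hc₀T) hc₀Q
  obtain ⟨r, hr⟩ := Subgroup.mem_zpowers_iff.mp (hc₀ ⟨_, hgc₀⟩)
  have hr' : g * (c₀ : X) * g⁻¹ = (c₀ : X) ^ r := by
    have e := congrArg Subtype.val hr
    rw [Subgroup.coe_zpow] at e
    exact e.symm
  obtain ⟨m, hm⟩ := IsPGroup.iff_orderOf.mp S.2 ⟨(c₀ : X), hT hc₀T⟩
  rw [Subgroup.orderOf_mk] at hm
  have hfix₀ := conj_eq_of_odd g (c₀ : X) r m hoddg hm hr'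
  have hfix : ∀ q ∈ T ⊓ Subgroup.zpowers c, g * q * g⁻¹ = q := by
    intro q hq
    obtain ⟨i, hi⟩ := Subgroup.mem_zpowers_iff.mp (hc₀ ⟨q, hq⟩)
    have hi' : (c₀ : X) ^ i = q := by
      have e := congrArg Subtype.val hi
      rwa [Subgroup.coe_zpow] at e
    rw [← hi', ← conj_zpow, hfix₀]
  rw [Subgroup.mem_centralizer_iff]
  intro t ht
  obtain ⟨w, hw⟩ : ∃ w, w = g * t * g⁻¹ * t⁻¹ := ⟨_, rfl⟩
  have hwT : w ∈ T ⊓ Subgroup.zpowers c := by
    rw [hw]
    exact ⟨T.mul_mem ((Subgroup.mem_normalizer_iff.mp hg t).mp ht) (T.inv_mem ht), h2 t ht⟩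
  have hwfix := hfix w hwT
  have hgt : g * t * g⁻¹ = w * t := by rw [hw]; group
  have hpow : ∀ k : ℕ, g ^ k * t * (g ^ k)⁻¹ = w ^ k * t := by
    intro k
    induction k with
    | zero => simp
    | succ k ih =>
      calc g ^ (k + 1) * t * (g ^ (k + 1))⁻¹ = g * (g ^ k * t * (g ^ k)⁻¹) * g⁻¹ := by
            rw [pow_succ']; group
        _ = g * (w ^ k * t) * g⁻¹ := by rw [ih]
        _ = (g * w * g⁻¹) ^ k * (g * t * g⁻¹) := by rw [conj_pow]; group
        _ = w ^ k * (w * t) := by rw [hwfix, hgt]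
        _ = w ^ (k + 1) * t := by rw [pow_succ, mul_assoc]
  have h3 := hpow (orderOf g)
  rw [pow_orderOf_eq_one, one_mul, inv_one, mul_one] at h3
  have h4 : w ^ orderOf g = 1 := by
    have e : w ^ orderOf g * t = 1 * t := by rw [← h3, one_mul]
    exact mul_right_cancel e
  obtain ⟨m', hm'⟩ := IsPGroup.iff_orderOf.mp S.2 ⟨w, hT hwT.1⟩
  rw [Subgroup.orderOf_mk] at hm'
  have h5 : orderOf w ∣ orderOf g := orderOf_dvd_of_pow_eq_one h4
  have h6 : w = 1 := by
    rw [← orderOf_eq_one_iff, hm']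
    rcases Nat.eq_zero_or_pos m' with h0 | h0
    · rw [h0, pow_zero]
    · exfalso
      rw [hm'] at h5
      have h7 : 2 ∣ orderOf g := (dvd_pow_self 2 h0.ne').trans h5
      have h8 := Nat.odd_iff.mp hoddg
      omega
  rw [h6, one_mul] at hgt
  calc t * g = g * t * g⁻¹ * g := by rw [hgt]
    _ = g * t := by group

theorem exists_complement {X : Type*} [Group X] [Finite X] (S : Sylow 2 X) (c : X)
    (hM : ∀ u ∈ (S : Subgroup X), u ∉ Subgroup.zpowers c →
      ∃ M : Subgroup X, M.Normal ∧ M.index = 2 ∧ u ∉ M) :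
    ∃ K : Subgroup X, K.Normal ∧ K.IsComplement' (S : Subgroup X) :=
  Cfsg.Agent.Lib.Helper2.Frob.exists_normal_complement_of_cond S
    (fun T hT g hg hodd => frob_cond S c hM T hT g hg hodd)

variable {G : Type*} [Group G]

theorem P_le_centralizer_J {P : Subgroup G} {σ : G} {h : ℕ} (D : DihData P σ h) :
    P ≤ Subgroup.centralizer ({σ ^ h} : Set G) := by
  intro x hx
  rw [Subgroup.mem_centralizer_iff]
  intro w hw
  rw [Set.mem_singleton_iff] at hw
  subst hw
  exact (D.J_central x hx).symm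

/-- The centralizer of the central involution has a normal 2-complement. -/
theorem J_centralizer_facts [Finite G] (P : Sylow 2 G) {σ : G} {h : ℕ}
    (D : DihData (P : Subgroup G) σ h) :
    (∃ k : ℕ, (pPrimeCore 2 ↥(Subgroup.centralizer ({σ ^ h} : Set G))).index = 2 ^ k) ∧
      2 ^ (Nat.card ↥(Subgroup.centralizer ({σ ^ h} : Set G))).factorization 2 = 4 * h := by
  have hPH := P_le_centralizer_J D
  have hSmem : ∀ x : ↥(Subgroup.centralizer ({σ ^ h} : Set G)),
      x ∈ ((P.subtype hPH : Sylow 2 ↥(Subgroup.centralizer ({σ ^ h} : Set G))) :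
        Subgroup ↥(Subgroup.centralizer ({σ ^ h} : Set G))) ↔ (x : G) ∈ (P : Subgroup G) := by
    intro x
    rw [Sylow.coe_subtype, Subgroup.mem_subgroupOf]
  have hcard : Nat.card ((P.subtype hPH : Sylow 2 ↥(Subgroup.centralizer ({σ ^ h} : Set G))) :
      Subgroup ↥(Subgroup.centralizer ({σ ^ h} : Set G))) = 4 * h := by
    rw [Sylow.coe_subtype, Nat.card_congr (Subgroup.subgroupOfEquivOfLe hPH).toEquiv, D.card]
  have h0 : 0 < h := by have := D.two_le; omega
  constructor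
  · have hMM : ∀ u ∈ ((P.subtype hPH : Sylow 2 ↥(Subgroup.centralizer ({σ ^ h} : Set G))) :
        Subgroup ↥(Subgroup.centralizer ({σ ^ h} : Set G))),
        u ∉ Subgroup.zpowers (⟨σ, hPH D.mem⟩ : ↥(Subgroup.centralizer ({σ ^ h} : Set G))) →
        ∃ M : Subgroup ↥(Subgroup.centralizer ({σ ^ h} : Set G)),
          M.Normal ∧ M.index = 2 ∧ u ∉ M := by
      intro u hu huQ
      have huP : (u : G) ∈ (P : Subgroup G) := (hSmem u).mp hu
      have hcoe : ∀ v : ↥(Subgroup.centralizer ({σ ^ h} : Set G)),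
          (v : G) ∈ Subgroup.zpowers σ →
          v ∈ Subgroup.zpowers (⟨σ, hPH D.mem⟩ : ↥(Subgroup.centralizer ({σ ^ h} : Set G))) := by
        intro v hv
        obtain ⟨k, hk⟩ := Subgroup.mem_zpowers_iff.mp hv
        exact Subgroup.mem_zpowers_iff.mpr ⟨k, Subtype.ext (by rw [Subgroup.coe_zpow]; exact hk)⟩
      have huR : (u : G) ∉ Subgroup.zpowers σ := fun hc => huQ (hcoe u hc)
      have hu2 : orderOf u = 2 := by
        rw [← Subgroup.orderOf_coe]
        apply orderOf_eq_prime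
        · rw [pow_two]
          exact (D.out _ huP huR).1
        · intro e
          apply huR
          rw [e]
          exact Subgroup.one_mem _
      have hQS : Subgroup.zpowers (⟨σ, hPH D.mem⟩ : ↥(Subgroup.centralizer ({σ ^ h} : Set G))) ≤
          ((P.subtype hPH : Sylow 2 ↥(Subgroup.centralizer ({σ ^ h} : Set G))) :
            Subgroup ↥(Subgroup.centralizer ({σ ^ h} : Set G))) := by
        rw [Subgroup.zpowers_le]
        exact (hSmem _).mpr D.mem
      have hrel : (Subgroup.zpowers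
          (⟨σ, hPH D.mem⟩ : ↥(Subgroup.centralizer ({σ ^ h} : Set G)))).relIndex
          ((P.subtype hPH : Sylow 2 ↥(Subgroup.centralizer ({σ ^ h} : Set G))) :
            Subgroup ↥(Subgroup.centralizer ({σ ^ h} : Set G))) = 2 := by
        have e := Cfsg.Agent.Lib.Helper76.PSolv.card_eq_card_mul_relIndex hQS
        rw [hcard, Nat.card_zpowers, Subgroup.orderOf_mk, D.ord] at e
        obtain ⟨r, hr⟩ : ∃ r : ℕ, r = (Subgroup.zpowers
          (⟨σ, hPH D.mem⟩ : ↥(Subgroup.centralizer ({σ ^ h} : Set G)))).relIndex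
          ((P.subtype hPH : Sylow 2 ↥(Subgroup.centralizer ({σ ^ h} : Set G))) :
            Subgroup ↥(Subgroup.centralizer ({σ ^ h} : Set G))) := ⟨_, rfl⟩
        rw [← hr] at e ⊢
        have e2 : 2 * h * r = 2 * h * 2 := by rw [← e]; ring
        exact Nat.eq_of_mul_eq_mul_left (by omega) e2
      rcases Cfsg.Agent.S0111.result (P.subtype hPH) _ hQS hrel u hu2 hu huQ with hM | ⟨g, hg⟩
      · exact hM
      · exfalso
        apply huR
        obtain ⟨k, hk⟩ := Subgroup.mem_zpowers_iff.mp hg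
        have hk' : σ ^ k = (g : G) * (u : G) * (g : G)⁻¹ := by
          have e := congrArg Subtype.val hk
          rw [Subgroup.coe_zpow] at e
          exact e
        have hzR : (g : G) * (u : G) * (g : G)⁻¹ ∈ Subgroup.zpowers σ :=
          Subgroup.mem_zpowers_iff.mpr ⟨k, hk'⟩
        have hz2 : orderOf ((g : G) * (u : G) * (g : G)⁻¹) = 2 := by
          apply orderOf_eq_prime
          · rw [pow_two]
            calc (g : G) * (u : G) * (g : G)⁻¹ * ((g : G) * (u : G) * (g : G)⁻¹)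
                = (g : G) * ((u : G) * (u : G)) * (g : G)⁻¹ := by group
              _ = 1 := by rw [(D.out _ huP huR).1]; group
          · intro e
            have hu1 : (u : G) = 1 := by
              calc (u : G) = (g : G)⁻¹ * ((g : G) * (u : G) * (g : G)⁻¹) * (g : G) := by group
                _ = 1 := by rw [e]; group
            apply huR
            rw [hu1]
            exact Subgroup.one_mem _
        have hzJ := D.unique_invol _ hzR hz2
        have hgc := Subgroup.mem_centralizer_iff.mp g.2 (σ ^ h) (Set.mem_singleton _)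
        have huJ : (u : G) = σ ^ h := by
          calc (u : G) = (g : G)⁻¹ * ((g : G) * (u : G) * (g : G)⁻¹) * (g : G) := by group
            _ = (g : G)⁻¹ * (σ ^ h * (g : G)) := by rw [hzJ, mul_assoc]
            _ = (g : G)⁻¹ * ((g : G) * σ ^ h) := by rw [hgc]
            _ = σ ^ h := by group
        rw [huJ]
        exact DihData.J_mem σ h
    obtain ⟨K, hKn, hKc⟩ := exists_complement (P.subtype hPH) ⟨σ, hPH D.mem⟩ hMM
    exact index_of_complement 2 (P.subtype hPH) K hKn hKc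
  · rw [← Sylow.card_eq_multiplicity (P.subtype hPH)]
    exact hcard

end Cfsg.Agent.Lib.Helper77.DihG4
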