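import Cfsg.Agent.Lib.Helper77.DihG3
import Cfsg.Agent.Lib.Helper77.DihG4
import Cfsg.Agent.Lib.Helper80.AbSylowCh
import Cfsg.Agent.Lib.Helper75.KleinFour2

/-!
# Dihedral Sylow 2-subgroups: the columns of the principal block on the cyclic maximal subgroup
-/

set_option autoImplicit false

namespace Cfsg.Agent.Lib.Helper77.DihCol

open Cfsg Cfsg.Agent.Lib.CT.Wedderburn Cfsg.Agent.Lib.Helper77.DihG
  Cfsg.Agent.Lib.Helper80.AbSylowCh

open scoped ComplexConjugate

universe u
variable {G : Type u} [Group G]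

/-- The sum of the squares of the degrees in the principal block of a centralizer with a normal
`p`-complement. -/
theorem sum_deg_sq_of_nil [Finite G] (p : ℕ) [Fact p.Prime] (M : Ideal AlgInt)
    (hM : IsPModular p M) (y : G) (hord : ∃ k : ℕ, orderOf y = p ^ k) (hy1 : y ≠ 1)
    (hnil : ∃ k : ℕ, (pPrimeCore p ↥(Subgroup.centralizer ({y} : Set G))).index = p ^ k) :
    ((∑ᶠ ψ ∈ principalBlock M ↥(Subgroup.centralizer ({y} : Set G)),
      (charDegree (ψ : ↥(Subgroup.centralizer ({y} : Set G)) → ℂ) : ℚ) ^ 2) : ℚ) =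
      ((p ^ (Nat.card ↥(Subgroup.centralizer ({y} : Set G))).factorization p : ℕ) : ℚ) := by
  classical
  have hp : p.Prime := Fact.out
  have h1le : ¬ p ∣ orderOf (1 : ↥(Subgroup.centralizer ({y} : Set G))) := by
    rw [orderOf_one]
    exact fun h => hp.one_lt.ne' (Nat.dvd_one.mp h)
  obtain ⟨h1, h2⟩ := Cfsg.Agent.S0947.result p M hM y hord hy1 1 h1le
  have h3 := h2 hnil
  rw [h1] at h3
  have := finite_irrCharacter ↥(Subgroup.centralizer ({y} : Set G))
  have hfin : (principalBlock M ↥(Subgroup.centralizer ({y} : Set G))).Finite := Set.toFinite _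
  have e1 : ∀ χ : IrrCharacter ↥(Subgroup.centralizer ({y} : Set G)),
      ‖(χ : ↥(Subgroup.centralizer ({y} : Set G)) → ℂ) 1‖ ^ 2 =
        ((charDegree (χ : ↥(Subgroup.centralizer ({y} : Set G)) → ℂ) ^ 2 : ℕ) : ℝ) := by
    intro χ
    rw [← char_natCast_charDegree (isCharacter_of_irr χ.2), Complex.norm_natCast, Nat.cast_pow]
  have hnat : ∑ᶠ χ ∈ principalBlock M ↥(Subgroup.centralizer ({y} : Set G)),
      charDegree (χ : ↥(Subgroup.centralizer ({y} : Set G)) → ℂ) ^ 2 =
        p ^ (Nat.card ↥(Subgroup.centralizer ({y} : Set G))).factorization p := by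
    apply Nat.cast_injective (R := ℝ)
    rw [← h3]
    have e2 := AddMonoidHom.map_finsum_mem
      (fun χ : IrrCharacter ↥(Subgroup.centralizer ({y} : Set G)) =>
        charDegree (χ : ↥(Subgroup.centralizer ({y} : Set G)) → ℂ) ^ 2)
      (Nat.castAddMonoidHom ℝ) hfin
    simp only [Nat.coe_castAddMonoidHom] at e2
    rw [e2]
    exact finsum_mem_congr rfl fun χ _ => (e1 χ).symm
  have e3 := AddMonoidHom.map_finsum_mem
    (fun χ : IrrCharacter ↥(Subgroup.centralizer ({y} : Set G)) =>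
      charDegree (χ : ↥(Subgroup.centralizer ({y} : Set G)) → ℂ) ^ 2)
    (Nat.castAddMonoidHom ℚ) hfin
  simp only [Nat.coe_castAddMonoidHom, Nat.cast_pow] at e3
  rw [← e3, hnat]

/-- The order of a conjugate. -/
theorem orderOf_conj' (g u : G) : orderOf (g * u * g⁻¹) = orderOf u := by
  have := orderOf_injective (MulAut.conj g).toMonoidHom (MulAut.conj g).injective u
  simpa [MulAut.conj_apply] using this

/-- The weights of the column identity. -/
theorem weight [Finite G] (M : Ideal AlgInt) (hM : IsPModular 2 M) (P : Sylow 2 G) {σ : G}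
    {h : ℕ} (D : DihData (P : Subgroup G) σ h) (y : G) (hy : y ∈ Subgroup.zpowers σ)
    (hy1 : y ≠ 1) :
    ((∑ᶠ ψ ∈ principalBlock M ↥(Subgroup.centralizer ({y} : Set G)),
      (charDegree (ψ : ↥(Subgroup.centralizer ({y} : Set G)) → ℂ) : ℚ) ^ 2) : ℚ) =
      1 * (Nat.card ↥((P : Subgroup G) ⊓ Subgroup.centralizer ({y} : Set G)) : ℚ) := by
  haveI : Fact (Nat.Prime 2) := ⟨Nat.prime_two⟩
  have hord : ∃ k : ℕ, orderOf y = 2 ^ k :=
    Cfsg.Agent.Lib.CT.ColumnId.orderOf_coe_of_isPGroup P.2 ⟨y, D.R_le hy⟩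
  rw [one_mul]
  by_cases hyy : y * y = 1
  · have ho : orderOf y = 2 := orderOf_eq_prime (by rw [pow_two]; exact hyy) hy1
    have e := D.unique_invol y hy ho
    subst e
    have hf := Cfsg.Agent.Lib.Helper77.DihG4.J_centralizer_facts P D
    rw [sum_deg_sq_of_nil 2 M hM _ hord hy1 hf.1, hf.2,
      inf_eq_left.mpr (Cfsg.Agent.Lib.Helper77.DihG4.P_le_centralizer_J D), D.card]
  · have hf := Cfsg.Agent.Lib.Helper77.DihG2.centralizer_facts P D y hy hyy
    have hinf : (P : Subgroup G) ⊓ Subgroup.centralizer ({y} : Set G) = Subgroup.zpowers σ := by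
      apply le_antisymm
      · rintro x ⟨hx, hxc⟩
        have hc := Subgroup.mem_centralizer_iff.mp hxc y (Set.mem_singleton _)
        exact D.mem_R_of_commute y hy hyy x hx hc.symm
      · exact le_inf D.R_le (Cfsg.Agent.Lib.Helper77.DihG2.R_le_centralizer σ y hy)
    rw [sum_deg_sq_of_nil 2 M hM _ hord hy1 hf.1, hf.2, hinf, D.card_R]

/-- `P` normalizes the cyclic maximal subgroup. -/
theorem conj_mem {P : Subgroup G} {σ : G} {h : ℕ} (D : DihData P σ h) (x : G) (hx : x ∈ P)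
    (w : G) (hw : w ∈ Subgroup.zpowers σ) : x * w * x⁻¹ ∈ Subgroup.zpowers σ := by
  by_cases hxR : x ∈ Subgroup.zpowers σ
  · rw [DihData.comm_R x w hxR hw, mul_inv_cancel_right]
    exact hw
  · rw [D.inv_of_out x hx hxR w hw]
    exact Subgroup.inv_mem _ hw

theorem le_normalizer {P : Subgroup G} {σ : G} {h : ℕ} (D : DihData P σ h) :
    P ≤ Subgroup.normalizer ((Subgroup.zpowers σ : Subgroup G) : Set G) := by
  intro x hx
  rw [Subgroup.mem_normalizer_iff]
  intro w
  constructor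
  · exact conj_mem D x hx w
  · intro hw
    have h1 := conj_mem D x⁻¹ (Subgroup.inv_mem _ hx) _ hw
    rw [inv_inv] at h1
    have e : x⁻¹ * (x * w * x⁻¹) * x = w := by group
    rw [e] at h1
    exact h1

/-- There is an element of `P` outside the cyclic maximal subgroup. -/
theorem exists_out [Finite G] {P : Subgroup G} {σ : G} {h : ℕ} (D : DihData P σ h) :
    ∃ τ ∈ P, τ ∉ Subgroup.zpowers σ := by
  by_contra hc
  have hle : P ≤ Subgroup.zpowers σ := fun x hx => by
    by_contra hx'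
    exact hc ⟨x, hx, hx'⟩
  have h1 := Subgroup.card_le_of_le hle
  rw [D.card, D.card_R] at h1
  have h2 := D.two_le
  omega

/-- Fusion in the cyclic maximal subgroup is controlled by `P`. -/
theorem fusion_P [Finite G] (P : Sylow 2 G) {σ : G} {h : ℕ} (D : DihData (P : Subgroup G) σ h)
    (u : G) (hu : u ∈ Subgroup.zpowers σ) (hu1 : u ≠ 1) (g : G)
    (hg : g * u * g⁻¹ ∈ Subgroup.zpowers σ) :
    ∃ n ∈ (P : Subgroup G), n * u * n⁻¹ = g * u * g⁻¹ := by
  obtain ⟨τ, hτP, hτR⟩ := exists_out D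
  by_cases huu : u * u = 1
  · refine ⟨1, Subgroup.one_mem _, ?_⟩
    have ho : orderOf u = 2 := orderOf_eq_prime (by rw [pow_two]; exact huu) hu1
    have ho' : orderOf (g * u * g⁻¹) = 2 := by rw [orderOf_conj', ho]
    rw [D.unique_invol _ hg ho', one_mul, inv_one, mul_one]
    exact D.unique_invol u hu ho
  · rcases Cfsg.Agent.Lib.Helper77.DihG3.fusion P D u hu huu g hg with e | e
    · exact ⟨1, Subgroup.one_mem _, by rw [e, one_mul, inv_one, mul_one]⟩
    · exact ⟨τ, hτP, by rw [e]; exact D.inv_of_out τ hτP hτR u hu⟩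

/-- Characters of `G` take the same value at an element of the cyclic maximal subgroup and at its
inverse. -/
theorem char_inv [Finite G] {P : Subgroup G} {σ : G} {h : ℕ} (D : DihData P σ h)
    (χ : IrrCharacter G) (y : G) (hy : y ∈ Subgroup.zpowers σ) :
    (χ : G → ℂ) y⁻¹ = (χ : G → ℂ) y := by
  obtain ⟨τ, hτP, hτR⟩ := exists_out D
  rw [← D.inv_of_out τ hτP hτR y hy]
  exact char_isClassFunction (isCharacter_of_irr χ.2) _ _

/-- The numbers `⟨χ, ψ - 1⟩` are invariant under inversion of `ψ`. -/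
theorem dc_inv [Finite G] {P : Subgroup G} {σ : G} {h : ℕ} (D : DihData P σ h)
    (χ : IrrCharacter G) (ψ : ↥(Subgroup.zpowers σ) →* ℂˣ) :
    dc (Subgroup.zpowers σ) (χ : G → ℂ) ψ⁻¹ = dc (Subgroup.zpowers σ) (χ : G → ℂ) ψ := by
  classical
  let _ : Fintype ↥(Subgroup.zpowers σ) := Fintype.ofFinite _
  unfold dc th
  rw [finsum_eq_sum_of_fintype, finsum_eq_sum_of_fintype]
  congr 1
  refine Fintype.sum_equiv (Equiv.inv ↥(Subgroup.zpowers σ)) _ _ fun y => ?_
  rw [Equiv.inv_apply, inv_inv, MonoidHom.inv_apply, map_inv, inv_inv, Subgroup.coe_inv,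
    char_inv D χ (y : G) y.2]

/-- Composition of a linear character of the cyclic maximal subgroup with conjugation by an
element of `P`. -/
theorem comp_cj {P : Subgroup G} {σ : G} {h : ℕ} (D : DihData P σ h)
    (ψ : ↥(Subgroup.zpowers σ) →* ℂˣ) (x : G) (hx : x ∈ P)
    (hn : x ∈ Subgroup.normalizer ((Subgroup.zpowers σ : Subgroup G) : Set G)) :
    ψ.comp (cj (Subgroup.zpowers σ) x hn) = if x ∈ Subgroup.zpowers σ then ψ else ψ⁻¹ := by
  classical
  by_cases hxR : x ∈ Subgroup.zpowers σ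
  · rw [if_pos hxR]
    refine MonoidHom.ext fun w => ?_
    have e : cj (Subgroup.zpowers σ) x hn w = w := by
      apply Subtype.ext
      rw [cj_coe, DihData.comm_R x (w : G) hxR w.2, mul_inv_cancel_right]
    rw [MonoidHom.comp_apply, e]
  · rw [if_neg hxR]
    refine MonoidHom.ext fun w => ?_
    have e : cj (Subgroup.zpowers σ) x hn w = w⁻¹ := by
      apply Subtype.ext
      rw [cj_coe, D.inv_of_out x hx hxR (w : G) w.2, Subgroup.coe_inv]
    rw [MonoidHom.comp_apply, e, MonoidHom.inv_apply, map_inv]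

/-- Counting the elements of `P` inside and outside the cyclic maximal subgroup. -/
theorem sum_ite_mem [Finite G] {P : Subgroup G} {σ : G} {h : ℕ} (D : DihData P σ h)
    [Fintype ↥P] (a b : ℂ) :
    ∑ x : ↥P, (if (x : G) ∈ Subgroup.zpowers σ then a else b) =
      2 * (h : ℂ) * a + 2 * (h : ℂ) * b := by
  classical
  have hc1 : (Finset.univ.filter (fun x : ↥P => (x : G) ∈ Subgroup.zpowers σ)).card = 2 * h := by
    rw [← Fintype.card_subtype, ← Nat.card_eq_fintype_card]
    have e : Nat.card {x : ↥P // (x : G) ∈ Subgroup.zpowers σ} =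
        Nat.card ↥((Subgroup.zpowers σ).subgroupOf P) := rfl
    rw [e, Nat.card_congr (Subgroup.subgroupOfEquivOfLe D.R_le).toEquiv, D.card_R]
  have hc2 : (Finset.univ.filter (fun x : ↥P => ¬ (x : G) ∈ Subgroup.zpowers σ)).card =
      2 * h := by
    have h1 := Finset.card_filter_add_card_filter_not (s := (Finset.univ : Finset ↥P))
      (fun x : ↥P => (x : G) ∈ Subgroup.zpowers σ)
    rw [hc1, Finset.card_univ, ← Nat.card_eq_fintype_card, D.card] at h1
    omega
  rw [Finset.sum_ite, Finset.sum_const, Finset.sum_const, hc1, hc2]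
  simp only [nsmul_eq_mul]
  push_cast
  ring

/-- The Gram matrix of the columns `χ ↦ ⟨χ|_R, ψ - 1⟩` over the principal block. -/
theorem gram [Finite G] (M : Ideal AlgInt) (hM : IsPModular 2 M) (P : Sylow 2 G) {σ : G}
    {h : ℕ} (D : DihData (P : Subgroup G) σ h) (ψ ψ' : ↥(Subgroup.zpowers σ) →* ℂˣ)
    (hψ : ψ ≠ 1) (hψ' : ψ' ≠ 1) [Decidable (ψ = ψ')] [Decidable (ψ' = ψ⁻¹)] :
    ∑ᶠ χ ∈ principalBlock M G, dc (Subgroup.zpowers σ) (χ : G → ℂ) ψ *
        conj (dc (Subgroup.zpowers σ) (χ : G → ℂ) ψ') =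
      2 + (if ψ = ψ' then 1 else 0) + (if ψ' = ψ⁻¹ then 1 else 0) := by
  classical
  haveI : Fact (Nat.Prime 2) := ⟨Nat.prime_two⟩
  have hRP : Subgroup.zpowers σ ≤ (P : Subgroup G) := D.R_le
  have hR2 : IsPGroup 2 ↥(Subgroup.zpowers σ) := P.2.to_le hRP
  have hNN := le_normalizer D
  let _ : Fintype ↥(Subgroup.zpowers σ) := Fintype.ofFinite _
  let _ : Fintype ↥(P : Subgroup G) := Fintype.ofFinite _
  have h0 : (h : ℂ) ≠ 0 := by
    have := D.two_le
    exact Nat.cast_ne_zero.mpr (by omega)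
  have key := Cfsg.Agent.Lib.CT.ColumnId.column_identity 2 M hM (Subgroup.zpowers σ) hR2
    (P : Subgroup G) hNN {u : G | u ∈ Subgroup.zpowers σ ∧ u ≠ 1}
    (fun u hu g hg => fusion_P P D u hu.1 hu.2 g hg) 1
    (fun y hy => weight M hM P D y hy.1 hy.2)
    (th (Subgroup.zpowers σ) ψ) (th (Subgroup.zpowers σ) ψ')
    (fun y hy => by
      have : y = 1 := by
        by_contra h
        exact hy ⟨y.2, fun h1 => h (Subtype.ext h1)⟩
      rw [this]
      simp [th])
  have key' : ∑ᶠ χ ∈ principalBlock M G, dc (Subgroup.zpowers σ) (χ : G → ℂ) ψ *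
      conj (dc (Subgroup.zpowers σ) (χ : G → ℂ) ψ') = _ := key
  have hx : ∀ (x : ↥(P : Subgroup G)) (y : ↥(Subgroup.zpowers σ)),
      extendByZero (Subgroup.zpowers σ) (th (Subgroup.zpowers σ) ψ')
        ((x : G) * (y : G) * (x : G)⁻¹) =
        ((((ψ'.comp (cj (Subgroup.zpowers σ) x (hNN x.2))) y : ℂˣ) : ℂ) - 1) := by
    intro x y
    have e : (x : G) * (y : G) * (x : G)⁻¹ =
        ((cj (Subgroup.zpowers σ) x (hNN x.2) y : ↥(Subgroup.zpowers σ)) : G) := rfl
    rw [e]
    unfold extendByZero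
    rw [Subtype.val_injective.extend_apply]
    rfl
  have hinv1 : ψ'⁻¹ ≠ 1 := by
    intro e
    apply hψ'
    refine MonoidHom.ext fun w => ?_
    have e1 := DFunLike.congr_fun e w
    rw [MonoidHom.inv_apply, MonoidHom.one_apply] at e1
    rw [MonoidHom.one_apply]
    exact inv_eq_one.mp e1
  have hiff : ψ = ψ'⁻¹ ↔ ψ' = ψ⁻¹ := by
    constructor
    · intro e
      refine MonoidHom.ext fun w => ?_
      rw [e, MonoidHom.inv_apply, MonoidHom.inv_apply, inv_inv]
    · intro e
      refine MonoidHom.ext fun w => ?_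
      rw [e, MonoidHom.inv_apply, MonoidHom.inv_apply, inv_inv]
  have hne' : ∀ x : ↥(P : Subgroup G),
      ψ'.comp (cj (Subgroup.zpowers σ) x (hNN x.2)) ≠ 1 := by
    intro x
    rw [comp_cj D ψ' x x.2 (hNN x.2)]
    split_ifs
    · exact hψ'
    · exact hinv1
  have hR : ∑ᶠ y : ↥(Subgroup.zpowers σ), th (Subgroup.zpowers σ) ψ y *
      conj (∑ᶠ x : ↥(P : Subgroup G),
        extendByZero (Subgroup.zpowers σ) (th (Subgroup.zpowers σ) ψ')
          ((x : G) * (y : G) * (x : G)⁻¹))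
      = (Nat.card ↥(Subgroup.zpowers σ) : ℂ) *
        (2 * (h : ℂ) * (if ψ = ψ' then 1 else 0) + 2 * (h : ℂ) * (if ψ' = ψ⁻¹ then 1 else 0) +
          4 * (h : ℂ)) := by
    rw [finsum_eq_sum_of_fintype]
    have e1 : ∀ y : ↥(Subgroup.zpowers σ), th (Subgroup.zpowers σ) ψ y *
        conj (∑ᶠ x : ↥(P : Subgroup G),
          extendByZero (Subgroup.zpowers σ) (th (Subgroup.zpowers σ) ψ')
            ((x : G) * (y : G) * (x : G)⁻¹))
        = ∑ x : ↥(P : Subgroup G), (((ψ y : ℂˣ) : ℂ) - 1) *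
          conj ((((ψ'.comp (cj (Subgroup.zpowers σ) x (hNN x.2))) y : ℂˣ) : ℂ) - 1) := by
      intro y
      rw [finsum_eq_sum_of_fintype, map_sum, Finset.mul_sum]
      refine Finset.sum_congr rfl fun x _ => ?_
      rw [hx x y]
      rfl
    simp_rw [e1]
    rw [Finset.sum_comm]
    have e2 : ∀ x : ↥(P : Subgroup G),
        ∑ y : ↥(Subgroup.zpowers σ), (((ψ y : ℂˣ) : ℂ) - 1) *
          conj ((((ψ'.comp (cj (Subgroup.zpowers σ) x (hNN x.2))) y : ℂˣ) : ℂ) - 1) =
        (Nat.card ↥(Subgroup.zpowers σ) : ℂ) *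
          ((if (x : G) ∈ Subgroup.zpowers σ then (if ψ = ψ' then (1 : ℂ) else 0)
            else (if ψ' = ψ⁻¹ then 1 else 0)) + 1) := by
      intro x
      rw [sum_th_mul_conj ψ _ hψ (hne' x), Nat.card_eq_fintype_card]
      congr 2
      rw [comp_cj D ψ' x x.2 (hNN x.2)]
      by_cases hxR : (x : G) ∈ Subgroup.zpowers σ
      · rw [if_pos hxR, if_pos hxR]
        by_cases hh : ψ = ψ'
        · rw [if_pos hh, if_pos hh]
        · rw [if_neg hh, if_neg hh]
      · rw [if_neg hxR, if_neg hxR]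
        by_cases hh : ψ' = ψ⁻¹
        · rw [if_pos hh, if_pos (hiff.mpr hh)]
        · rw [if_neg hh, if_neg (fun e => hh (hiff.mp e))]
    simp_rw [e2]
    rw [← Finset.mul_sum, Finset.sum_add_distrib, sum_ite_mem D, Finset.sum_const,
      Finset.card_univ, ← Nat.card_eq_fintype_card, D.card]
    simp only [nsmul_eq_mul, mul_one]
    push_cast
    ring
  rw [key', hR, D.card_R]
  push_cast
  field_simp
  ring

end Cfsg.Agent.Lib.Helper77.DihCol
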