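import Cfsg.Agent.Lib.Helper77.DihVal

/-!
# Dihedral Sylow 2-subgroups: Brauer's theorem on the principal 2-block
-/

set_option autoImplicit false

namespace Cfsg.Agent.Lib.Helper77.DihFinal

open Cfsg Cfsg.Agent.Lib.CT.Wedderburn Cfsg.Agent.Lib.Helper77.DihG
  Cfsg.Agent.Lib.Helper80.AbSylowCh Cfsg.Agent.Lib.Helper77.DihHom
  Cfsg.Agent.Lib.Helper77.DihCol Cfsg.Agent.Lib.CT.ThirdMain Cfsg.Agent.Lib.Helper77.DihU
  Cfsg.Agent.Lib.Helper77.DihVal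

universe u
variable {G : Type u} [Group G]

/-- The columns `χ ↦ ⟨χ|_R, ψ - 1⟩` are orthogonal to the columns of the elements of odd order. -/
theorem orth_odd [Finite G] (M : Ideal AlgInt) (hM : IsPModular 2 M) (P : Sylow 2 G) {σ : G}
    {h : ℕ} (D : DihData (P : Subgroup G) σ h) (ψ : ↥(Subgroup.zpowers σ) →* ℂˣ) (ρ : G)
    (hρ : Odd (orderOf ρ)) :
    ∑ χ ∈ B0 G M, (χ : G → ℂ) ρ * dc (Subgroup.zpowers σ) (χ : G → ℂ) ψ = 0 := by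
  haveI : Fact (Nat.Prime 2) := ⟨Nat.prime_two⟩
  have hR2 : IsPGroup 2 ↥(Subgroup.zpowers σ) := P.2.to_le D.R_le
  have hρ2 : ¬ 2 ∣ orderOf ρ := fun hd =>
    (Nat.not_even_iff_odd.mpr hρ) (even_iff_two_dvd.mpr hd)
  have key := orth_reg 2 M hM (Subgroup.zpowers σ) hR2 ψ ρ hρ2
  rw [← sum_B0] at key
  rw [← key]
  exact Finset.sum_congr rfl fun χ _ => by rw [conj_dc]

theorem main [Finite G] (M : Ideal AlgInt) (hM : IsPModular 2 M) (P : Sylow 2 G) {σ : G}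
    {h : ℕ} (D : DihData (P : Subgroup G) σ h) (hh : h = 2 ∨ 4 ≤ h) (ζ : ℂ)
    (hζ : IsPrimitiveRoot ζ (2 * h)) :
    Nat.card (Cfsg.principalBlock M G) = 3 + h ∧ ∃ (χ₁ χ₂ χ₃ : Cfsg.IrrCharacter G) (χ' : Fin (h - 1) → Cfsg.IrrCharacter G) (δ₁ δ₂ δ₃ : ℤ), (δ₁ = 1 ∨ δ₁ = -1) ∧ (δ₂ = 1 ∨ δ₂ = -1) ∧ (δ₃ = 1 ∨ δ₃ = -1) ∧ Function.Injective χ' ∧ (χ₁ : G → ℂ) ≠ (fun _ => 1) ∧ (χ₂ : G → ℂ) ≠ (fun _ => 1) ∧ (χ₃ : G → ℂ) ≠ (fun _ => 1) ∧ χ₁ ≠ χ₂ ∧ χ₁ ≠ χ₃ ∧ χ₂ ≠ χ₃ ∧ (∀ j, χ' j ≠ χ₁ ∧ χ' j ≠ χ₂ ∧ χ' j ≠ χ₃ ∧ (χ' j : G → ℂ) ≠ (fun _ => 1)) ∧ Cfsg.principalBlock M G = {χ : Cfsg.IrrCharacter G | (χ : G → ℂ) = (fun _ => 1) ∨ χ = χ₁ ∨ χ = χ₂ ∨ χ = χ₃ ∨ ∃ j, χ = χ' j} ∧ (∀ l : ℕ, 0 < l → l < 2 * h → (χ₁ : G → ℂ) (σ ^ l) = δ₁ ∧ (χ₂ : G → ℂ) (σ ^ l) = δ₂ * (-1) ^ (l + 1) ∧ (χ₃ : G → ℂ) (σ ^ l) = δ₃ * (-1) ^ (l + 1) ∧ ∀ j : Fin (h - 1), (χ' j : G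 → ℂ) (σ ^ l) = δ₁ * (ζ ^ (((j : ℕ) + 1) * l) + (ζ ^ (((j : ℕ) + 1) * l))⁻¹)) ∧ ∀ ρ : G, Odd (orderOf ρ) → ∀ j : Fin (h - 1), 1 + δ₁ * (χ₁ : G → ℂ) ρ = -δ₂ * (χ₂ : G → ℂ) ρ - δ₃ * (χ₃ : G → ℂ) ρ ∧ 1 + δ₁ * (χ₁ : G → ℂ) ρ = δ₁ * (χ' j : G → ℂ) ρ := by
  classical
  have hMp := Cfsg.Agent.Lib.Helper77.LocalRing.isPrime_of_isPModular hM
  have h2 : 2 ≤ h := D.two_le
  haveI : NeZero (2 * h) := ⟨by omega⟩
  obtain ⟨ζu, hζu⟩ := hζ.isUnit (by omega)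
  have hζu2 : ζu ^ (2 * h) = 1 :=
    Units.ext (by rw [Units.val_pow_eq_pow_val, hζu, hζ.pow_eq_one, Units.val_one])
  obtain ⟨ψ₀, h0⟩ := exists_hom (σ := σ) (-1 : ℂˣ) (by rw [D.ord, pow_mul, neg_one_sq, one_pow])
  have hψ₀1 := psi0_ne_one ψ₀ h0
  have hψ₀inv := psi0_inv ψ₀ h0
  have hex : ∀ k : ℕ, ∃ ψ : ↥(Subgroup.zpowers σ) →* ℂˣ, ψ (gen σ) = ζu ^ k := fun k =>
    exists_hom (ζu ^ k) (by rw [D.ord, ← pow_mul, mul_comm, pow_mul, hζu2, one_pow])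
  choose ψf hψf using hex
  have hζk : ∀ k : ℕ, ((ζu ^ k : ℂˣ) : ℂ) = ζ ^ k := fun k => by
    rw [Units.val_pow_eq_pow_val, hζu]
  have hf1 : ∀ k : ℕ, 0 < k → k < h → ψf k ≠ 1 := by
    intro k hk0 hkh e
    have e1 := hψf k
    rw [e, MonoidHom.one_apply] at e1
    have e2 : ζ ^ k = 1 := by rw [← hζk k, ← e1, Units.val_one]
    have h3 := (hζ.pow_eq_one_iff_dvd k).mp e2
    have h4 := Nat.le_of_dvd hk0 h3
    omega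
  have hf0 : ∀ k : ℕ, 0 < k → k < h → ψf k ≠ ψ₀ := by
    intro k hk0 hkh e
    have e1 := hψf k
    rw [e, h0] at e1
    have e2 : ζ ^ (2 * k) = 1 := by
      rw [mul_comm, pow_mul, ← hζk k, ← e1, Units.val_neg, Units.val_one, neg_one_sq]
    have h3 := (hζ.pow_eq_one_iff_dvd (2 * k)).mp e2
    have h4 := Nat.le_of_dvd (by omega) h3
    omega
  have hfinj : ∀ k k' : ℕ, 0 < k → k < h → 0 < k' → k' < h → ψf k' = ψf k → k' = k := by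
    intro k k' hk0 hkh hk0' hkh' e
    have e1 : ζu ^ k' = ζu ^ k := by rw [← hψf k', ← hψf k, e]
    have e2 : ζ ^ k' = ζ ^ k := by rw [← hζk k', ← hζk k, e1]
    exact hζ.pow_inj (by omega) (by omega) e2
  have hfinv : ∀ k k' : ℕ, 0 < k → k < h → 0 < k' → k' < h → ψf k' ≠ (ψf k)⁻¹ := by
    intro k k' hk0 hkh hk0' hkh' e
    have e1 : ζu ^ k' = (ζu ^ k)⁻¹ := by
      rw [← hψf k', ← hψf k, e, MonoidHom.inv_apply]
    have e2 : ζu ^ (k' + k) = 1 := by rw [pow_add, e1, inv_mul_cancel]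
    have e3 : ζ ^ (k' + k) = 1 := by rw [← hζk (k' + k), e2, Units.val_one]
    have h3 := (hζ.pow_eq_one_iff_dvd (k' + k)).mp e3
    have h4 := Nat.le_of_dvd (by omega) h3
    omega
  have hζh : ζ ^ h = -1 :=
    (IsPrimitiveRoot.pow (by omega : 0 < 2 * h) hζ (mul_comm 2 h)).eq_neg_one_of_two_right
  have hsurj : ∀ ψ : ↥(Subgroup.zpowers σ) →* ℂˣ, ψ ≠ 1 → ψ ≠ ψ₀ →
      ∃ k : ℕ, 0 < k ∧ k < h ∧ (ψ = ψf k ∨ ψ = (ψf k)⁻¹) := by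
    intro ψ hψ1 hψ0
    have e1 : ((ψ (gen σ) : ℂˣ) : ℂ) ^ (2 * h) = 1 := by
      rw [← Units.val_pow_eq_pow_val, ← D.ord, apply_gen_pow, Units.val_one]
    obtain ⟨k, hk, e2⟩ := hζ.eq_pow_of_pow_eq_one e1
    have e3 : ψ (gen σ) = ζu ^ k := Units.ext (by rw [hζk k, e2])
    have hk0 : k ≠ 0 := by
      intro ek
      apply hψ1
      apply eq_one_of_gen
      rw [e3, ek, pow_zero]
    have hkh : k ≠ h := by
      intro ek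
      apply hψ0
      apply hom_ext_gen
      rw [e3, h0, ek]
      exact Units.ext (by rw [hζk h, hζh, Units.val_neg, Units.val_one])
    by_cases hlt : k < h
    · exact ⟨k, by omega, hlt, Or.inl (hom_ext_gen _ _ (by rw [e3, hψf]))⟩
    · refine ⟨2 * h - k, by omega, by omega, Or.inr (hom_ext_gen _ _ ?_)⟩
      rw [e3, MonoidHom.inv_apply, hψf]
      apply eq_inv_of_mul_eq_one_left
      rw [← pow_add, show k + (2 * h - k) = 2 * h by omega, hζu2]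
  obtain ⟨χ₁, χ₂, χ₃, s, ε₂, ε₃, β, hs, hε₂, hε₃, m1, m2, m3, n1, n2, n3, d12, d13, d23, hβ,
    hβiff, hall, hc1, hc2, hc2', hc3, hc3', hcβ, hcβ'⟩ :=
    Cfsg.Agent.Lib.Helper77.DihProfile.profile M hM P D hh ψ₀ h0
  have hj : ∀ j : Fin (h - 1), 0 < (j : ℕ) + 1 ∧ (j : ℕ) + 1 < h := fun j =>
    ⟨by omega, by have := j.2; omega⟩
  have hj1 : ∀ j : Fin (h - 1), ψf ((j : ℕ) + 1) ≠ 1 := fun j => hf1 _ (hj j).1 (hj j).2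
  have hj0 : ∀ j : Fin (h - 1), ψf ((j : ℕ) + 1) ≠ ψ₀ := fun j => hf0 _ (hj j).1 (hj j).2
  have htriv : ∀ χ : IrrCharacter G, (χ : G → ℂ) = (fun _ => 1) ↔ χ = triv G := fun χ =>
    ⟨fun e => Subtype.ext e, fun e => by rw [e]; rfl⟩
  have hχ'inj : Function.Injective (fun j : Fin (h - 1) => β (ψf ((j : ℕ) + 1))) := by
    intro j j' e
    have e' : β (ψf ((j : ℕ) + 1)) = β (ψf ((j' : ℕ) + 1)) := e
    rw [hβiff _ _ (hj1 j) (hj0 j) (hj1 j') (hj0 j')] at e'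
    rcases e' with e' | e'
    · have h3 := hfinj _ _ (hj j).1 (hj j).2 (hj j').1 (hj j').2 e'
      exact Fin.ext (by omega)
    · exact absurd e' (hfinv _ _ (hj j).1 (hj j).2 (hj j').1 (hj j').2)
  have hset : principalBlock M G = {χ : IrrCharacter G | (χ : G → ℂ) = (fun _ => 1) ∨
      χ = χ₁ ∨ χ = χ₂ ∨ χ = χ₃ ∨ ∃ j : Fin (h - 1), χ = β (ψf ((j : ℕ) + 1))} := by
    ext χ
    simp only [Set.mem_setOf_eq]
    constructor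
    · intro hχ
      rcases hall χ hχ with e | e | e | e | ⟨ψ, hψ1, hψ0, e⟩
      · exact Or.inl ((htriv χ).mpr e)
      · exact Or.inr (Or.inl e)
      · exact Or.inr (Or.inr (Or.inl e))
      · exact Or.inr (Or.inr (Or.inr (Or.inl e)))
      · obtain ⟨k, hk0, hkh, hk⟩ := hsurj ψ hψ1 hψ0
        refine Or.inr (Or.inr (Or.inr (Or.inr ⟨⟨k - 1, by omega⟩, ?_⟩)))
        have ek : (k - 1) + 1 = k := by omega
        show χ = β (ψf ((k - 1) + 1))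
        rw [ek, e]
        exact ((hβiff (ψf k) ψ (hf1 k hk0 hkh) (hf0 k hk0 hkh) hψ1 hψ0).mpr hk).symm
    · rintro (e | e | e | e | ⟨j, e⟩)
      · rw [(htriv χ).mp e]
        exact triv_mem_principalBlock hMp
      · rw [e]
        exact m1
      · rw [e]
        exact m2
      · rw [e]
        exact m3
      · rw [e]
        exact (hβ _ (hj1 j) (hj0 j)).1
  have hcard : Nat.card (principalBlock M G) = 3 + h := by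
    have e := card_five (triv G) χ₁ χ₂ χ₃ (h - 1) (fun j : Fin (h - 1) => β (ψf ((j : ℕ) + 1)))
      hχ'inj n1.symm n2.symm n3.symm d12 d13 d23 (fun j => (hβ _ (hj1 j) (hj0 j)).2.1)
      (fun j => (hβ _ (hj1 j) (hj0 j)).2.2.1) (fun j => (hβ _ (hj1 j) (hj0 j)).2.2.2.1)
      (fun j => (hβ _ (hj1 j) (hj0 j)).2.2.2.2)
    have hs' : {χ : IrrCharacter G | (χ : G → ℂ) = (fun _ => 1) ∨
        χ = χ₁ ∨ χ = χ₂ ∨ χ = χ₃ ∨ ∃ j : Fin (h - 1), χ = β (ψf ((j : ℕ) + 1))} =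
        {x : IrrCharacter G | x = triv G ∨ x = χ₁ ∨ x = χ₂ ∨ x = χ₃ ∨
          ∃ j : Fin (h - 1), x = β (ψf ((j : ℕ) + 1))} := by
      ext χ
      simp only [Set.mem_setOf_eq, htriv]
    rw [hset, hs', e]
    omega
  have hval : ∀ l : ℕ, 0 < l → l < 2 * h → (χ₁ : G → ℂ) (σ ^ l) = (s : ℂ) ∧
      (χ₂ : G → ℂ) (σ ^ l) = (ε₂ : ℂ) * (-1) ^ (l + 1) ∧
      (χ₃ : G → ℂ) (σ ^ l) = (ε₃ : ℂ) * (-1) ^ (l + 1) ∧
      ∀ j : Fin (h - 1), (β (ψf ((j : ℕ) + 1)) : G → ℂ) (σ ^ l) =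
        (s : ℂ) * (ζ ^ (((j : ℕ) + 1) * l) + (ζ ^ (((j : ℕ) + 1) * l))⁻¹) := by
    intro l hl0 hl
    have hmem : σ ^ l ∈ Subgroup.zpowers σ := Subgroup.pow_mem _ (Subgroup.mem_zpowers σ) l
    have hy : (⟨σ ^ l, hmem⟩ : ↥(Subgroup.zpowers σ)) ≠ 1 := by
      intro e
      exact pow_ne_one_of_lt_orderOf (by omega) (by rw [D.ord]; exact hl)
        (congrArg Subtype.val e)
    refine ⟨?_, ?_, ?_, ?_⟩
    · have h3 := val_const σ (χ₁ : G → ℂ) (-(s : ℂ)) hc1 ⟨σ ^ l, hmem⟩ hy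
      rw [neg_neg] at h3
      exact h3
    · have h3 := val_single σ (χ₂ : G → ℂ) ψ₀ hc2' ⟨σ ^ l, hmem⟩ hy
      rw [hc2, apply_pow, h0, Units.val_pow_eq_pow_val, Units.val_neg, Units.val_one] at h3
      refine h3.trans ?_
      rw [pow_succ]
      ring
    · have h3 := val_single σ (χ₃ : G → ℂ) ψ₀ hc3' ⟨σ ^ l, hmem⟩ hy
      rw [hc3, apply_pow, h0, Units.val_pow_eq_pow_val, Units.val_neg, Units.val_one] at h3
      refine h3.trans ?_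
      rw [pow_succ]
      ring
    · intro j
      have hne : ψf ((j : ℕ) + 1) ≠ (ψf ((j : ℕ) + 1))⁻¹ :=
        (inv_ne_self ψ₀ h0 _ (hj1 j) (hj0 j)).symm
      have h3 := val_pair σ (β (ψf ((j : ℕ) + 1)) : G → ℂ) (ψf ((j : ℕ) + 1)) hne
        (fun ψ a b => hcβ' ψ (ψf ((j : ℕ) + 1)) (hj1 j) (hj0 j) a b) ⟨σ ^ l, hmem⟩ hy
      rw [(hcβ _ (hj1 j) (hj0 j)).1, (hcβ _ (hj1 j) (hj0 j)).2, apply_pow, hψf, ← pow_mul,
        hζk] at h3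
      refine h3.trans ?_
      ring
  have mt : triv G ∈ B0 G M := (mem_B0 M _).mpr (triv_mem_principalBlock hMp)
  have mb1 : χ₁ ∈ B0 G M := (mem_B0 M _).mpr m1
  have mb2 : χ₂ ∈ B0 G M := (mem_B0 M _).mpr m2
  have mb3 : χ₃ ∈ B0 G M := (mem_B0 M _).mpr m3
  have hodd : ∀ ρ : G, Odd (orderOf ρ) → ∀ j : Fin (h - 1),
      1 + (s : ℂ) * (χ₁ : G → ℂ) ρ = -(ε₂ : ℂ) * (χ₂ : G → ℂ) ρ - (ε₃ : ℂ) * (χ₃ : G → ℂ) ρ ∧
      1 + (s : ℂ) * (χ₁ : G → ℂ) ρ = (s : ℂ) * (β (ψf ((j : ℕ) + 1)) : G → ℂ) ρ := by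
    intro ρ hρ j
    constructor
    · have key := orth_odd M hM P D ψ₀ ρ hρ
      have hz : ∀ χ ∈ B0 G M, χ ≠ triv G → χ ≠ χ₁ → χ ≠ χ₂ → χ ≠ χ₃ →
          (χ : G → ℂ) ρ * dc (Subgroup.zpowers σ) (χ : G → ℂ) ψ₀ = 0 := by
        intro χ hχ c0 c1 c2 c3
        rcases hall χ ((mem_B0 M χ).mp hχ) with e | e | e | e | ⟨ψ, hψ1, hψ0, e⟩
        · exact absurd e c0
        · exact absurd e c1
        · exact absurd e c2
        · exact absurd e c3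
        · have a1 : ψ₀ ≠ ψ := fun e' => hψ0 e'.symm
          have a2 : ψ₀ ≠ ψ⁻¹ := by
            intro e'
            apply hψ0
            rw [← inv_inv' ψ, ← e', hψ₀inv]
          rw [e, hcβ' ψ₀ ψ hψ1 hψ0 a1 a2, mul_zero]
      rw [sum_four' (B0 G M) _ (triv G) χ₁ χ₂ χ₃ mt mb1 mb2 mb3 n1.symm n2.symm n3.symm d12 d13
        d23 hz, coe_triv, dc_triv _ ψ₀ hψ₀1, hc1 ψ₀ hψ₀1, hc2, hc3] at key
      linear_combination (-1 : ℂ) * key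
    · have key := orth_odd M hM P D (ψf ((j : ℕ) + 1)) ρ hρ
      have mβ : β (ψf ((j : ℕ) + 1)) ∈ B0 G M := (mem_B0 M _).mpr (hβ _ (hj1 j) (hj0 j)).1
      have hz : ∀ χ ∈ B0 G M, χ ≠ triv G → χ ≠ χ₁ → χ ≠ β (ψf ((j : ℕ) + 1)) →
          (χ : G → ℂ) ρ * dc (Subgroup.zpowers σ) (χ : G → ℂ) (ψf ((j : ℕ) + 1)) = 0 := by
        intro χ hχ c0 c1 c2
        rcases hall χ ((mem_B0 M χ).mp hχ) with e | e | e | e | ⟨ψ, hψ1, hψ0, e⟩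
        · exact absurd e c0
        · exact absurd e c1
        · rw [e, hc2' _ (hj0 j), mul_zero]
        · rw [e, hc3' _ (hj0 j), mul_zero]
        · have hnot : ¬ (ψf ((j : ℕ) + 1) = ψ ∨ ψf ((j : ℕ) + 1) = ψ⁻¹) := by
            intro hor
            apply c2
            rw [e]
            exact (hβiff ψ (ψf ((j : ℕ) + 1)) hψ1 hψ0 (hj1 j) (hj0 j)).mpr hor
          rw [not_or] at hnot
          rw [e, hcβ' (ψf ((j : ℕ) + 1)) ψ hψ1 hψ0 hnot.1 hnot.2, mul_zero]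
      rw [sum_three' (B0 G M) _ (triv G) χ₁ (β (ψf ((j : ℕ) + 1))) mt mb1 mβ n1.symm
        (hβ _ (hj1 j) (hj0 j)).2.1.symm (hβ _ (hj1 j) (hj0 j)).2.2.1.symm hz, coe_triv,
        dc_triv _ (ψf ((j : ℕ) + 1)) (hj1 j), hc1 _ (hj1 j), (hcβ _ (hj1 j) (hj0 j)).1] at key
      linear_combination (-1 : ℂ) * key
  refine ⟨hcard, χ₁, χ₂, χ₃, fun j => β (ψf ((j : ℕ) + 1)), s, ε₂, ε₃, hs, hε₂, hε₃, hχ'inj,
    fun e => n1 ((htriv χ₁).mp e), fun e => n2 ((htriv χ₂).mp e), fun e => n3 ((htriv χ₃).mp e),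
    d12, d13, d23, ?_, hset, hval, ?_⟩
  · intro j
    have hb := hβ _ (hj1 j) (hj0 j)
    exact ⟨hb.2.2.1, hb.2.2.2.1, hb.2.2.2.2, fun e => hb.2.1 ((htriv _).mp e)⟩
  · intro ρ hρ j
    have h3 := hodd ρ hρ j
    constructor
    · push_cast
      linear_combination h3.1
    · exact h3.2

end Cfsg.Agent.Lib.Helper77.DihFinal
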