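import Cfsg.Agent.Lib.Helper77.DihFinal
import Cfsg.Agent.Lib.CT.ClassMult
import Cfsg.Agent.Lib.CT.Orth

/-!
# Generic lemmas for Brauer's order formula: retraction onto a Sylow subgroup, class sums
-/

set_option autoImplicit false

namespace Cfsg.Agent.Lib.Helper77.DihOrd1

open Cfsg Cfsg.Agent.Lib.CT.Wedderburn

/-- If the `p'`-core has `p`-power index, it contains every `p`-regular element. -/
theorem mem_pPrimeCore_of_index {X : Type*} [Group X] [Finite X] (p : ℕ) [Fact p.Prime]
    (hidx : ∃ k : ℕ, (pPrimeCore p X).index = p ^ k) (v : X) (hv : ¬ p ∣ orderOf v) :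
    v ∈ pPrimeCore p X := by
  haveI : (pPrimeCore p X).Normal := (Cfsg.Agent.Lib.Helper76.PSolv.pPrimeCore_mem p).1
  obtain ⟨k, hk⟩ := hidx
  rw [← QuotientGroup.eq_one_iff]
  have h1 : orderOf (QuotientGroup.mk' (pPrimeCore p X) v) ∣ orderOf v := orderOf_map_dvd _ v
  have h2 : orderOf (QuotientGroup.mk' (pPrimeCore p X) v) ∣ p ^ k := by
    rw [← hk, Subgroup.index_eq_card]
    exact orderOf_dvd_natCard _
  obtain ⟨j, -, hj⟩ := (Nat.dvd_prime_pow Fact.out).mp h2
  by_contra hne
  have hj0 : j ≠ 0 := by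
    rintro rfl
    rw [pow_zero, orderOf_eq_one_iff] at hj
    exact hne hj
  exact hv ((dvd_pow_self p hj0).trans (hj ▸ h1))

theorem sylow_card_of_index {X : Type*} [Group X] [Finite X] (p : ℕ) [Fact p.Prime]
    (S : Sylow p X) (k : ℕ) (hk : (pPrimeCore p X).index = p ^ k) :
    Nat.card (S : Subgroup X) = p ^ k := by
  have hp : p.Prime := Fact.out
  have hcop := Cfsg.Agent.Lib.Helper76.PSolv.pPrimeCore_coprime (G := X) p
  have hnd : ¬ p ∣ Nat.card (pPrimeCore p X) := (Nat.Prime.coprime_iff_not_dvd hp).mp hcop.symm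
  have hcard : Nat.card X = Nat.card (pPrimeCore p X) * p ^ k := by
    rw [← hk, Subgroup.card_mul_index]
  rw [Sylow.card_eq_multiplicity, hcard,
    Nat.factorization_mul Nat.card_pos.ne' (pow_ne_zero k hp.ne_zero), Finsupp.add_apply,
    Nat.factorization_eq_zero_of_not_dvd hnd, zero_add, hp.factorization_pow,
    Finsupp.single_eq_same]

/-- If the `p'`-core has `p`-power index, there is a retraction onto a Sylow `p`-subgroup whose
kernel is the `p'`-core. -/
theorem exists_retraction {X : Type*} [Group X] [Finite X] (p : ℕ) [Fact p.Prime] (S : Sylow p X)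
    (hidx : ∃ k : ℕ, (pPrimeCore p X).index = p ^ k) :
    ∃ r : X →* ↥(S : Subgroup X), (∀ s : ↥(S : Subgroup X), r (s : X) = s) ∧
      ∀ x : X, r x = 1 → x ∈ pPrimeCore p X := by
  haveI hKn : (pPrimeCore p X).Normal := (Cfsg.Agent.Lib.Helper76.PSolv.pPrimeCore_mem p).1
  obtain ⟨k, hk⟩ := hidx
  have hcop := Cfsg.Agent.Lib.Helper76.PSolv.pPrimeCore_coprime (G := X) p
  have hS := sylow_card_of_index p S k hk
  have hc : (S : Subgroup X).IsComplement' (pPrimeCore p X) := by
    apply Subgroup.isComplement'_of_coprime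
    · rw [hS, mul_comm, ← hk, Subgroup.card_mul_index]
    · rw [hS]
      exact Nat.Coprime.pow_left k hcop.symm
  have key : ∀ x : X, ((hc.QuotientMulEquiv (QuotientGroup.mk x) : ↥(S : Subgroup X)) : X)⁻¹ * x ∈
      pPrimeCore p X := fun x => Subgroup.IsComplement.inv_toLeftFun_mul_mem hc x
  refine ⟨hc.QuotientMulEquiv.toMonoidHom.comp (QuotientGroup.mk' _), ?_, ?_⟩
  · intro s
    have h1 := key (s : X)
    have h2 : ((hc.QuotientMulEquiv (QuotientGroup.mk (s : X)) : ↥(S : Subgroup X)) : X)⁻¹ *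
        (s : X) ∈ (S : Subgroup X) :=
      Subgroup.mul_mem _ (Subgroup.inv_mem _ (Subtype.property _)) s.2
    have h3 := Subgroup.disjoint_def.mp hc.disjoint h2 h1
    apply Subtype.ext
    exact inv_mul_eq_one.mp h3
  · intro x hx
    have h1 := key x
    have h2 : (hc.QuotientMulEquiv (QuotientGroup.mk x) : ↥(S : Subgroup X)) = 1 := hx
    rw [h2, OneMemClass.coe_one, inv_one, one_mul] at h1
    exact h1

variable {G : Type*} [Group G]

/-- A sum over all conjugates of `y`, with multiplicity. -/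
theorem sum_conj [Fintype G] [DecidableEq G] (y : G) (F : G → ℂ)
    [DecidablePred fun x : G => IsConj y x] :
    ∑ g : G, F (g * y * g⁻¹) = (Nat.card (Subgroup.centralizer ({y} : Set G)) : ℂ) *
      ∑ x ∈ Finset.univ.filter (fun x : G => IsConj y x), F x := by
  have hmaps : ∀ g ∈ (Finset.univ : Finset G),
      g * y * g⁻¹ ∈ Finset.univ.filter (fun x : G => IsConj y x) := fun g _ => by
    rw [Finset.mem_filter]
    exact ⟨Finset.mem_univ _, isConj_iff.mpr ⟨g, rfl⟩⟩
  rw [← Finset.sum_fiberwise_of_maps_to hmaps, Finset.mul_sum]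
  refine Finset.sum_congr rfl fun x hx => ?_
  rw [Finset.mem_filter] at hx
  have e : ∀ g ∈ Finset.univ.filter (fun g : G => g * y * g⁻¹ = x), F (g * y * g⁻¹) = F x :=
    fun g hg => by rw [(Finset.mem_filter.mp hg).2]
  rw [Finset.sum_congr rfl e, Finset.sum_const, nsmul_eq_mul,
    Cfsg.Agent.Lib.CT.Orth.card_conj_eq_of_isConj y x hx.2]

/-- The class equation for one class. -/
theorem card_class [Fintype G] [DecidableEq G] (y : G) [DecidablePred fun x : G => IsConj y x] :
    (Nat.card G : ℂ) = (Nat.card (Subgroup.centralizer ({y} : Set G)) : ℂ) *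
      ((Finset.univ.filter (fun x : G => IsConj y x)).card : ℂ) := by
  have h := sum_conj y (fun _ => (1 : ℂ))
  rw [Finset.sum_const, Finset.sum_const, Finset.card_univ, nsmul_eq_mul, nsmul_eq_mul, mul_one,
    mul_one] at h
  rw [Nat.card_eq_fintype_card]
  exact h

/-- The sum of an irreducible character over the products of pairs of conjugates of `J`. -/
theorem sum_char_pairs [Fintype G] [DecidableEq G] (χ : IrrCharacter G) (J : G)
    [DecidablePred fun x : G => IsConj J x] :
    ∑ x ∈ Finset.univ.filter (fun x : G => IsConj J x),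
      ∑ y ∈ Finset.univ.filter (fun y : G => IsConj J y), (χ : G → ℂ) (x * y) =
      ((Finset.univ.filter (fun x : G => IsConj J x)).card : ℂ) ^ 2 * (χ : G → ℂ) J ^ 2 /
        (χ : G → ℂ) 1 := by
  have hc0 : (Nat.card (Subgroup.centralizer ({J} : Set G)) : ℂ) ≠ 0 :=
    Nat.cast_ne_zero.mpr Nat.card_pos.ne'
  have hcl := card_class J
  have hx : ∀ x ∈ Finset.univ.filter (fun x : G => IsConj J x),
      ∑ y ∈ Finset.univ.filter (fun y : G => IsConj J y), (χ : G → ℂ) (x * y) =
        ((Finset.univ.filter (fun x : G => IsConj J x)).card : ℂ) * (χ : G → ℂ) J ^ 2 /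
          (χ : G → ℂ) 1 := by
    intro x hx
    rw [Finset.mem_filter] at hx
    obtain ⟨g, hg⟩ := isConj_iff.mp hx.2
    have hχx : (χ : G → ℂ) x = (χ : G → ℂ) J := by
      rw [← hg]
      exact char_isClassFunction (isCharacter_of_irr χ.2) _ _
    have h1 := sum_conj J (fun y => (χ : G → ℂ) (x * y))
    have h2 := Cfsg.Agent.Lib.CT.ClassMult.irr_schur_average χ.2 x J
    rw [h2, hχx, hcl] at h1
    have h3 : ∑ y ∈ Finset.univ.filter (fun y : G => IsConj J y), (χ : G → ℂ) (x * y) =
        (Nat.card (Subgroup.centralizer ({J} : Set G)) : ℂ)⁻¹ *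
          ((Nat.card (Subgroup.centralizer ({J} : Set G)) : ℂ) *
            ((Finset.univ.filter (fun x : G => IsConj J x)).card : ℂ) * (χ : G → ℂ) J *
              (χ : G → ℂ) J / (χ : G → ℂ) 1) := by
      rw [h1, ← mul_assoc, inv_mul_cancel₀ hc0, one_mul]
    rw [h3]
    field_simp
  rw [Finset.sum_congr rfl hx, Finset.sum_const, nsmul_eq_mul]
  ring

end Cfsg.Agent.Lib.Helper77.DihOrd1
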