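import Cfsg.Agent.Lib.Helper77.DihOrd1
import Cfsg.Agent.Lib.Helper23.Cores

/-!
# Dihedral Sylow 2-subgroups given by generators; one class of involutions
-/

set_option autoImplicit false
set_option maxHeartbeats 400000

namespace Cfsg.Agent.Lib.Helper77.DihOrd2

open Cfsg Cfsg.Agent.Lib.Helper77.DihG

variable {G : Type*} [Group G]

/-- A dihedral subgroup given by generators and relations. -/
structure Gens (P : Subgroup G) (σ τ : G) (h : ℕ) : Prop where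
  two_le : 2 ≤ h
  hσ : σ ∈ P
  hτ : τ ∈ P
  ordσ : orderOf σ = 2 * h
  ordτ : orderOf τ = 2
  rel : τ * σ * τ⁻¹ = σ⁻¹
  gen : Subgroup.closure ({σ, τ} : Set G) = P

namespace Gens

variable {P : Subgroup G} {σ τ : G} {h : ℕ}

theorem tau_sq (g : Gens P σ τ h) : τ * τ = 1 := by
  rw [← pow_two, ← g.ordτ]
  exact pow_orderOf_eq_one τ

theorem tau_inv (g : Gens P σ τ h) : τ⁻¹ = τ := inv_eq_of_mul_eq_one_left g.tau_sq

theorem conj_R (g : Gens P σ τ h) (y : G) (hy : y ∈ Subgroup.zpowers σ) :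
    τ * y * τ⁻¹ = y⁻¹ := by
  obtain ⟨i, rfl⟩ := Subgroup.mem_zpowers_iff.mp hy
  rw [← conj_zpow, g.rel, inv_zpow]

theorem conj_R' (g : Gens P σ τ h) (y : G) (hy : y ∈ Subgroup.zpowers σ) :
    τ * y * τ = y⁻¹ := by
  have h1 := g.conj_R y hy
  rw [g.tau_inv] at h1
  exact h1

theorem tau_notMem (g : Gens P σ τ h) : τ ∉ Subgroup.zpowers σ := by
  intro hτR
  have h1 := DihData.comm_R τ σ hτR (Subgroup.mem_zpowers σ)
  have h2 : σ⁻¹ = σ := by
    rw [← g.rel, h1, mul_inv_cancel_right]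
  have h3 : σ ^ 2 = 1 := by
    rw [pow_two]
    nth_rewrite 2 [← h2]
    exact mul_inv_cancel σ
  have h4 := orderOf_dvd_of_pow_eq_one h3
  rw [g.ordσ] at h4
  have h5 := Nat.le_of_dvd (by norm_num) h4
  have h6 := g.two_le
  omega

/-- Every element of `P` lies in `⟨σ⟩` or in `⟨σ⟩τ`. -/
theorem mem_cases (g : Gens P σ τ h) (x : G) (hx : x ∈ P) :
    x ∈ Subgroup.zpowers σ ∨ x * τ ∈ Subgroup.zpowers σ := by
  rw [← g.gen] at hx
  refine Subgroup.closure_induction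
    (p := fun x _ => x ∈ Subgroup.zpowers σ ∨ x * τ ∈ Subgroup.zpowers σ) ?_ ?_ ?_ ?_ hx
  · intro x hx
    rcases hx with rfl | hx
    · exact Or.inl (Subgroup.mem_zpowers _)
    · rw [Set.mem_singleton_iff] at hx
      subst hx
      right
      rw [g.tau_sq]
      exact Subgroup.one_mem _
  · exact Or.inl (Subgroup.one_mem _)
  · intro a b _ _ ha hb
    rcases ha with ha | ha <;> rcases hb with hb | hb
    · exact Or.inl (Subgroup.mul_mem _ ha hb)
    · right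
      rw [mul_assoc]
      exact Subgroup.mul_mem _ ha hb
    · right
      have e : a * b * τ = (a * τ) * (τ * b * τ) := by
        calc a * b * τ = a * (τ * τ) * b * τ := by rw [g.tau_sq, mul_one]
          _ = a * τ * (τ * b * τ) := by group
      rw [e, g.conj_R' b hb]
      exact Subgroup.mul_mem _ ha (Subgroup.inv_mem _ hb)
    · left
      have e : a * b = (a * τ) * (τ * (b * τ) * τ) := by
        calc a * b = a * (τ * τ) * b * (τ * τ) := by rw [g.tau_sq, mul_one, mul_one]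
          _ = a * τ * (τ * (b * τ) * τ) := by group
      rw [e, g.conj_R' _ hb]
      exact Subgroup.mul_mem _ ha (Subgroup.inv_mem _ hb)
  · intro a _ ha
    rcases ha with ha | ha
    · exact Or.inl (Subgroup.inv_mem _ ha)
    · right
      have e : a⁻¹ * τ = τ * (a * τ)⁻¹ * τ := by group
      rw [e, g.conj_R' _ (Subgroup.inv_mem _ ha), inv_inv]
      exact ha

theorem mul_tau_mem (g : Gens P σ τ h) (x : G) (hx : x ∈ P) (hxR : x ∉ Subgroup.zpowers σ) :
    x * τ ∈ Subgroup.zpowers σ :=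
  (g.mem_cases x hx).resolve_left hxR

theorem eq_mul_tau (g : Gens P σ τ h) (x : G) : x = x * τ * τ := by
  rw [mul_assoc, g.tau_sq, mul_one]

theorem out (g : Gens P σ τ h) (x : G) (hx : x ∈ P) (hxR : x ∉ Subgroup.zpowers σ) :
    x * x = 1 ∧ x * σ * x⁻¹ = σ⁻¹ := by
  have hρ := g.mul_tau_mem x hx hxR
  obtain ⟨ρ, hρdef⟩ : ∃ ρ, ρ = x * τ := ⟨_, rfl⟩
  rw [← hρdef] at hρ
  have hx' : x = ρ * τ := by rw [hρdef]; exact g.eq_mul_tau x
  constructor
  · rw [hx']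
    calc ρ * τ * (ρ * τ) = ρ * (τ * ρ * τ) := by group
      _ = 1 := by rw [g.conj_R' ρ hρ, mul_inv_cancel]
  · rw [hx']
    calc ρ * τ * σ * (ρ * τ)⁻¹ = ρ * (τ * σ * τ⁻¹) * ρ⁻¹ := by group
      _ = ρ * σ⁻¹ * ρ⁻¹ := by rw [g.rel]
      _ = σ⁻¹ := by
        rw [DihData.comm_R ρ σ⁻¹ hρ (Subgroup.inv_mem _ (Subgroup.mem_zpowers σ)),
          mul_inv_cancel_right]

theorem card [Finite G] (g : Gens P σ τ h) : Nat.card P = 4 * h := by
  have hRP : Subgroup.zpowers σ ≤ P := by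
    rw [Subgroup.zpowers_le]
    exact g.hσ
  have hR : Nat.card (Subgroup.zpowers σ) = 2 * h := by rw [Nat.card_zpowers, g.ordσ]
  have hsub : (P : Set G) ⊆ (Subgroup.zpowers σ : Set G) ∪
      (fun y => y * τ) '' (Subgroup.zpowers σ : Set G) := by
    intro x hx
    rcases g.mem_cases x hx with h1 | h1
    · exact Or.inl h1
    · exact Or.inr ⟨x * τ, h1, (g.eq_mul_tau x).symm⟩
  have hle : Nat.card P ≤ 2 * h + 2 * h := by
    have e1 : Nat.card P = (P : Set G).ncard := Nat.card_coe_set_eq (P : Set G)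
    have e2 : Nat.card (Subgroup.zpowers σ) = (Subgroup.zpowers σ : Set G).ncard :=
      Nat.card_coe_set_eq (Subgroup.zpowers σ : Set G)
    rw [e1]
    refine (Set.ncard_le_ncard hsub (Set.toFinite _)).trans ?_
    refine (Set.ncard_union_le _ _).trans ?_
    have e3 := Set.ncard_image_le (f := fun y => y * τ) (Set.toFinite (Subgroup.zpowers σ : Set G))
    rw [← e2, hR] at e3 ⊢
    omega
  obtain ⟨q, hq⟩ := Subgroup.card_dvd_of_le hRP
  rw [hR] at hq
  have hq0 : q ≠ 0 := by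
    rintro rfl
    rw [mul_zero] at hq
    exact Nat.card_pos.ne' hq
  have hq1 : q ≠ 1 := by
    rintro rfl
    rw [mul_one] at hq
    have e := Subgroup.eq_of_le_of_card_ge hRP (by rw [hq, hR])
    apply g.tau_notMem
    rw [e]
    exact g.hτ
  have h2 := g.two_le
  have hq2 : q ≤ 2 := by
    by_contra hc
    have h3 : 3 ≤ q := by omega
    have h4 : 2 * h * 3 ≤ 2 * h * q := Nat.mul_le_mul_left _ h3
    omega
  have hq' : q = 2 := by omega
  rw [hq, hq']
  ring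

theorem dihData [Finite G] (g : Gens P σ τ h) : DihData P σ h :=
  ⟨g.two_le, g.hσ, g.ordσ, g.card, g.out⟩

/-- The product of two elements outside `⟨σ⟩`. -/
theorem mul_eq (g : Gens P σ τ h) (x y : G) (hy : y ∈ P) (hyR : y ∉ Subgroup.zpowers σ) :
    x * y = (x * τ) * (y * τ)⁻¹ := by
  have h1 := (g.out y hy hyR).1
  have h2 : y⁻¹ = y := inv_eq_of_mul_eq_one_left h1
  calc x * y = x * y⁻¹ := by rw [h2]
    _ = (x * τ) * (y * τ)⁻¹ := by group

/-- Conjugates of `τ` under `P`. -/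
theorem conj_tau (g : Gens P σ τ h) (p : G) (hp : p ∈ P) :
    ∃ ρ ∈ Subgroup.zpowers σ, p * τ * p⁻¹ = ρ * ρ * τ := by
  by_cases hpR : p ∈ Subgroup.zpowers σ
  · refine ⟨p, hpR, ?_⟩
    calc p * τ * p⁻¹ = p * (τ * p⁻¹ * τ) * τ⁻¹ := by group
      _ = p * p * τ := by
          rw [g.conj_R' _ (Subgroup.inv_mem _ hpR), inv_inv, g.tau_inv]
  · refine ⟨p * τ, g.mul_tau_mem p hp hpR, ?_⟩
    have hρ := g.mul_tau_mem p hp hpR
    have e1 : τ * (p * τ)⁻¹ * τ = p * τ := by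
      rw [g.conj_R' _ (Subgroup.inv_mem _ hρ), inv_inv]
    calc p * τ * p⁻¹ = p * τ * (τ * (p * τ)⁻¹ * τ) * τ⁻¹ := by group
      _ = p * τ * (p * τ) * τ := by rw [e1, g.tau_inv]

theorem sq_ne (g : Gens P σ τ h) (ρ : G) (hρ : ρ ∈ Subgroup.zpowers σ) : ρ * ρ ≠ σ := by
  obtain ⟨k, rfl⟩ := Subgroup.mem_zpowers_iff.mp hρ
  intro e
  have h1 : σ ^ (2 * k - 1) = 1 := by
    rw [zpow_sub, zpow_one, two_mul, zpow_add, e, mul_inv_cancel]
  have h2 := orderOf_dvd_iff_zpow_eq_one.mpr h1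
  rw [g.ordσ] at h2
  push_cast at h2
  have h3 : (2 : ℤ) ∣ 2 * k - 1 := Dvd.dvd.trans (dvd_mul_right 2 (h : ℤ)) h2
  omega

/-- `τ` and `στ` are not conjugate under `P`. -/
theorem not_conj (g : Gens P σ τ h) (p : G) (hp : p ∈ P) : p * τ * p⁻¹ ≠ σ * τ := by
  obtain ⟨ρ, hρ, e⟩ := g.conj_tau p hp
  rw [e]
  intro e2
  exact g.sq_ne ρ hρ (mul_right_cancel e2)

/-- Every element of `P` outside `⟨σ⟩` is conjugate under `P` to `τ` or to `στ`. -/
theorem conj_cases (g : Gens P σ τ h) (x : G) (hx : x ∈ P) (hxR : x ∉ Subgroup.zpowers σ) :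
    ∃ p ∈ P, x = p * τ * p⁻¹ ∨ x = p * (σ * τ) * p⁻¹ := by
  have hRP : Subgroup.zpowers σ ≤ P := by
    rw [Subgroup.zpowers_le]
    exact g.hσ
  obtain ⟨i, hi⟩ := Subgroup.mem_zpowers_iff.mp (g.mul_tau_mem x hx hxR)
  have hx' : x = σ ^ i * τ := by rw [hi]; exact g.eq_mul_tau x
  have hconj : ∀ k : ℤ, τ * (σ ^ k)⁻¹ * τ = σ ^ k := by
    intro k
    rw [g.conj_R' _ (Subgroup.inv_mem _ (Subgroup.zpow_mem _ (Subgroup.mem_zpowers σ) k)),
      inv_inv]
  obtain ⟨k, hk | hk⟩ := Int.even_or_odd' i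
  · refine ⟨σ ^ k, hRP (Subgroup.zpow_mem _ (Subgroup.mem_zpowers σ) k), Or.inl ?_⟩
    rw [hx', hk, two_mul, zpow_add]
    calc σ ^ k * σ ^ k * τ = σ ^ k * (τ * (σ ^ k)⁻¹ * τ) * τ := by rw [hconj]
      _ = σ ^ k * τ * (σ ^ k)⁻¹ * (τ * τ) := by group
      _ = σ ^ k * τ * (σ ^ k)⁻¹ := by rw [g.tau_sq, mul_one]
  · refine ⟨σ ^ k, hRP (Subgroup.zpow_mem _ (Subgroup.mem_zpowers σ) k), Or.inr ?_⟩
    rw [hx', hk, zpow_add, zpow_one, two_mul, zpow_add]
    calc σ ^ k * σ ^ k * σ * τ = σ ^ k * σ * σ ^ k * τ := by group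
      _ = σ ^ k * σ * (τ * (σ ^ k)⁻¹ * τ) * τ := by rw [hconj]
      _ = σ ^ k * (σ * τ) * (σ ^ k)⁻¹ * (τ * τ) := by group
      _ = σ ^ k * (σ * τ) * (σ ^ k)⁻¹ := by rw [g.tau_sq, mul_one]

end Gens

theorem index_pPrimeCore_congr {A B : Type*} [Group A] [Group B] (p : ℕ) (e : A ≃* B) :
    (pPrimeCore p B).index = (pPrimeCore p A).index := by
  rw [← Cfsg.Agent.Lib.Helper23.Cores.pPrimeCore_map_mulEquiv p e]
  exact Subgroup.index_map_equiv (pPrimeCore p A) e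

/-- Transport of the normal-complement condition along conjugation. -/
theorem nil_conj (p : ℕ) (y g : G)
    (hy : ∃ k : ℕ, (pPrimeCore p ↥(Subgroup.centralizer ({y} : Set G))).index = p ^ k) :
    ∃ k : ℕ, (pPrimeCore p ↥(Subgroup.centralizer ({g * y * g⁻¹} : Set G))).index = p ^ k := by
  have h1 : Subgroup.centralizer ({g * y * g⁻¹} : Set G) =
      (Subgroup.centralizer ({y} : Set G)).map (MulAut.conj g).toMonoidHom := by
    rw [← Cfsg.Agent.Lib.Helper23.Cores.centralizer_image_mulEquiv (MulAut.conj g) {y},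
      Set.image_singleton]
    rfl
  obtain ⟨e⟩ : Nonempty (↥(Subgroup.centralizer ({y} : Set G)) ≃*
      ↥(Subgroup.centralizer ({g * y * g⁻¹} : Set G))) :=
    ⟨((MulAut.conj g).subgroupMap _).trans (MulEquiv.subgroupCongr h1.symm)⟩
  obtain ⟨k, hk⟩ := hy
  exact ⟨k, (index_pPrimeCore_congr p e).trans hk⟩

end Cfsg.Agent.Lib.Helper77.DihOrd2
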