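import Cfsg.Agent.Lib.Helper77.DihOrd2

/-!
# Brauer's order formula for dihedral Sylow 2-subgroups: characters on `C(J)`
-/

set_option autoImplicit false
set_option maxHeartbeats 400000

namespace Cfsg.Agent.Lib.Helper77.DihOrd3

open Cfsg Cfsg.Agent.Lib.CT.Wedderburn Cfsg.Agent.Lib.Helper77.DihG
  Cfsg.Agent.Lib.Helper80.AbSylowCh Cfsg.Agent.Lib.Helper77.DihHom
  Cfsg.Agent.Lib.Helper77.DihCol Cfsg.Agent.Lib.CT.ThirdMain Cfsg.Agent.Lib.Helper77.DihU
  Cfsg.Agent.Lib.Helper77.DihVal Cfsg.Agent.Lib.Helper77.DihOrd1 Cfsg.Agent.Lib.Helper77.DihOrd2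

universe u
variable {G : Type u} [Group G]

/-- Elements of `P` outside `⟨σ⟩` are conjugate to the central involution. -/
theorem conj_J_of_out {P : Subgroup G} {σ τ : G} {h : ℕ} (g : Gens P σ τ h)
    (hc1 : IsConj (σ ^ h) τ) (hc2 : IsConj (σ ^ h) (σ * τ)) (x : G) (hx : x ∈ P)
    (hxR : x ∉ Subgroup.zpowers σ) : IsConj (σ ^ h) x := by
  obtain ⟨p, hp, e | e⟩ := g.conj_cases x hx hxR
  · rw [e]
    exact hc1.trans (isConj_iff.mpr ⟨p, rfl⟩)
  · rw [e]
    exact hc2.trans (isConj_iff.mpr ⟨p, rfl⟩)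

/-- The centralizer of every non-identity element of `P` has a normal 2-complement. -/
theorem nil_all [Finite G] (P : Sylow 2 G) {σ τ : G} {h : ℕ} (g : Gens (P : Subgroup G) σ τ h)
    (hc1 : IsConj (σ ^ h) τ) (hc2 : IsConj (σ ^ h) (σ * τ)) (y : G)
    (hy : y ∈ (P : Subgroup G)) (hy1 : y ≠ 1) :
    ∃ k : ℕ, (pPrimeCore 2 ↥(Subgroup.centralizer ({y} : Set G))).index = 2 ^ k := by
  have D := g.dihData
  by_cases hyR : y ∈ Subgroup.zpowers σ
  · by_cases hyy : y * y = 1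
    · have ho : orderOf y = 2 := orderOf_eq_prime (by rw [pow_two]; exact hyy) hy1
      have e := D.unique_invol y hyR ho
      subst e
      exact (Cfsg.Agent.Lib.Helper77.DihG4.J_centralizer_facts P D).1
    · exact (Cfsg.Agent.Lib.Helper77.DihG2.centralizer_facts P D y hyR hyy).1
  · obtain ⟨a, ha⟩ := isConj_iff.mp (conj_J_of_out g hc1 hc2 y hy hyR)
    subst ha
    exact nil_conj 2 (σ ^ h) a (Cfsg.Agent.Lib.Helper77.DihG4.J_centralizer_facts P D).1

/-- All involutions are conjugate to the central involution. -/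
theorem conj_J_of_invol [Finite G] (P : Sylow 2 G) {σ τ : G} {h : ℕ}
    (g : Gens (P : Subgroup G) σ τ h) (hc1 : IsConj (σ ^ h) τ) (hc2 : IsConj (σ ^ h) (σ * τ))
    (x : G) (hx : orderOf x = 2) : IsConj (σ ^ h) x := by
  haveI : Fact (Nat.Prime 2) := ⟨Nat.prime_two⟩
  have D := g.dihData
  obtain ⟨a, ha⟩ := Cfsg.Agent.Lib.Helper80.AbSylowGT.exists_conj_mem_sylow 2 P x 1
    (by rw [hx, pow_one])
  have ho : orderOf (a⁻¹ * x * a) = 2 := by
    have h1 := orderOf_conj' a⁻¹ x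
    rw [inv_inv] at h1
    rw [h1, hx]
  have hconj : IsConj (a⁻¹ * x * a) x := isConj_iff.mpr ⟨a, by group⟩
  by_cases hR : a⁻¹ * x * a ∈ Subgroup.zpowers σ
  · rw [← D.unique_invol _ hR ho]
    exact hconj
  · exact (conj_J_of_out g hc1 hc2 _ ha hR).trans hconj

/-- The retraction of `C(J)` onto `P`. -/
theorem exists_retraction_J [Finite G] (P : Sylow 2 G) {σ : G} {h : ℕ}
    (D : DihData (P : Subgroup G) σ h) :
    ∃ r : ↥(Subgroup.centralizer ({σ ^ h} : Set G)) →* G,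
      (∀ x, r x ∈ (P : Subgroup G)) ∧
      (∀ x : ↥(Subgroup.centralizer ({σ ^ h} : Set G)), (x : G) ∈ (P : Subgroup G) → r x = x) ∧
      (∀ x : ↥(Subgroup.centralizer ({σ ^ h} : Set G)), r x = 1 → Odd (orderOf (x : G))) := by
  haveI : Fact (Nat.Prime 2) := ⟨Nat.prime_two⟩
  have hPH := Cfsg.Agent.Lib.Helper77.DihG4.P_le_centralizer_J D
  have hidx := (Cfsg.Agent.Lib.Helper77.DihG4.J_centralizer_facts P D).1
  obtain ⟨r, hr1, hr2⟩ := exists_retraction 2 (P.subtype hPH) hidx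
  have hSmem : ∀ x : ↥(Subgroup.centralizer ({σ ^ h} : Set G)),
      x ∈ ((P.subtype hPH : Sylow 2 ↥(Subgroup.centralizer ({σ ^ h} : Set G))) :
        Subgroup ↥(Subgroup.centralizer ({σ ^ h} : Set G))) ↔ (x : G) ∈ (P : Subgroup G) := by
    intro x
    rw [Sylow.coe_subtype, Subgroup.mem_subgroupOf]
  refine ⟨(Subgroup.centralizer ({σ ^ h} : Set G)).subtype.comp ((Subgroup.subtype _).comp r),
    ?_, ?_, ?_⟩
  · intro x
    exact (hSmem _).mp (r x).2
  · intro x hx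
    have h1 : r x = ⟨x, (hSmem x).mpr hx⟩ := hr1 ⟨x, (hSmem x).mpr hx⟩
    rw [MonoidHom.comp_apply, MonoidHom.comp_apply, h1]
    rfl
  · intro x hx
    have h1 : r x = 1 := by
      apply Subtype.ext
      apply Subtype.ext
      exact hx
    have h2 := hr2 x h1
    have h3 : orderOf (⟨x, h2⟩ : ↥(pPrimeCore 2 ↥(Subgroup.centralizer ({σ ^ h} : Set G)))) ∣
        Nat.card ↥(pPrimeCore 2 ↥(Subgroup.centralizer ({σ ^ h} : Set G))) := orderOf_dvd_natCard _
    rw [Subgroup.orderOf_mk] at h3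
    have hcop := Cfsg.Agent.Lib.Helper76.PSolv.pPrimeCore_coprime
      (G := ↥(Subgroup.centralizer ({σ ^ h} : Set G))) 2
    rw [Subgroup.orderOf_coe]
    exact Nat.coprime_two_right.mp (Nat.Coprime.coprime_dvd_left h3 hcop)

/-- The retraction kills the elements of odd order. -/
theorem odd_retract [Finite G] (P : Sylow 2 G) {C : Subgroup G} (r : ↥C →* G)
    (hr2 : ∀ x, r x ∈ (P : Subgroup G)) (x : ↥C) (hx : Odd (orderOf (x : G))) : r x = 1 := by
  haveI : Fact (Nat.Prime 2) := ⟨Nat.prime_two⟩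
  obtain ⟨k, hk⟩ := Cfsg.Agent.Lib.CT.ColumnId.orderOf_coe_of_isPGroup P.2 ⟨r x, hr2 x⟩
  have hk' : orderOf (r x) = 2 ^ k := hk
  have h1 : orderOf (r x) ∣ orderOf x := orderOf_map_dvd r x
  rw [Subgroup.orderOf_coe] at hx
  by_contra hne
  have hk0 : k ≠ 0 := by
    rintro rfl
    rw [pow_zero, orderOf_eq_one_iff] at hk'
    exact hne hk'
  have h2 : 2 ∣ orderOf x := (dvd_pow_self 2 hk0).trans (hk' ▸ h1)
  exact (Nat.not_even_iff_odd.mpr hx) (even_iff_two_dvd.mpr h2)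

/-- Principal block characters factor through the retraction on the 2-singular elements of
`C(J)`. -/
theorem value_retract [Finite G] (M : Ideal AlgInt) (hM : IsPModular 2 M) (P : Sylow 2 G)
    {σ : G} {h : ℕ} (D : DihData (P : Subgroup G) σ h)
    (hnil : ∀ y ∈ (P : Subgroup G), y ≠ 1 →
      ∃ k : ℕ, (pPrimeCore 2 ↥(Subgroup.centralizer ({y} : Set G))).index = 2 ^ k)
    (r : ↥(Subgroup.centralizer ({σ ^ h} : Set G)) →* G) (hr2 : ∀ x, r x ∈ (P : Subgroup G))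
    (hr3 : ∀ x : ↥(Subgroup.centralizer ({σ ^ h} : Set G)), (x : G) ∈ (P : Subgroup G) → r x = x)
    (g : ↥(Subgroup.centralizer ({σ ^ h} : Set G))) (hg : r g ≠ 1) (χ : IrrCharacter G)
    (hχ : χ ∈ principalBlock M G) : (χ : G → ℂ) (g : G) = (χ : G → ℂ) (r g) := by
  haveI : Fact (Nat.Prime 2) := ⟨Nat.prime_two⟩
  have hPH := Cfsg.Agent.Lib.Helper77.DihG4.P_le_centralizer_J D
  obtain ⟨u, v, hguv, hcomm, hu, j, hj⟩ := Cfsg.Agent.Lib.Helper80.PNilGalois.exists_decomp 2 g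
  have hu' : Odd (orderOf (u : G)) := by
    rw [Subgroup.orderOf_coe]
    exact Nat.not_even_iff_odd.mp (fun he => hu (even_iff_two_dvd.mp he))
  have hru : r u = 1 := odd_retract P r hr2 u hu'
  have hrg : r g = r v := by rw [hguv, map_mul, hru, one_mul]
  obtain ⟨c, hc⟩ := Cfsg.Agent.Lib.Helper80.AbSylowGT.exists_conj_mem_sylow 2 (P.subtype hPH) v j
    hj
  have hcP : ((c⁻¹ * v * c : ↥(Subgroup.centralizer ({σ ^ h} : Set G))) : G) ∈
      (P : Subgroup G) := by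
    rw [Sylow.coe_subtype, Subgroup.mem_subgroupOf] at hc
    exact hc
  have h1 := hr3 _ hcP
  rw [map_mul, map_mul, map_inv, ← hrg] at h1
  have hy1 : (r c)⁻¹ * r g * r c ≠ 1 := by
    intro e
    apply hg
    calc r g = r c * ((r c)⁻¹ * r g * r c) * (r c)⁻¹ := by group
      _ = 1 := by rw [e]; group
  have hyP : (r c)⁻¹ * r g * r c ∈ (P : Subgroup G) := by
    rw [h1]
    exact hcP
  have hnil_y := hnil _ hyP hy1
  have hv : (v : G) = (c : G) * ((r c)⁻¹ * r g * r c) * (c : G)⁻¹ := by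
    rw [h1]
    simp only [Subgroup.coe_mul, Subgroup.coe_inv]
    group
  have hnil_v : ∃ k : ℕ,
      (pPrimeCore 2 ↥(Subgroup.centralizer ({(v : G)} : Set G))).index = 2 ^ k := by
    rw [hv]
    exact nil_conj 2 _ (c : G) hnil_y
  have huC : (u : G) ∈ Subgroup.centralizer ({(v : G)} : Set G) := by
    rw [Subgroup.mem_centralizer_iff]
    intro w hw
    rw [Set.mem_singleton_iff] at hw
    subst hw
    exact congrArg Subtype.val hcomm.eq.symm
  have hu2 : ¬ 2 ∣ orderOf (⟨(u : G), huC⟩ : ↥(Subgroup.centralizer ({(v : G)} : Set G))) := by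
    rw [Subgroup.orderOf_mk, Subgroup.orderOf_coe]
    exact hu
  have hmem : (u : G) ∈ centralizerPPrimeCore 2 (v : G) :=
    ⟨⟨(u : G), huC⟩, mem_pPrimeCore_of_index 2 hnil_v _ hu2, rfl⟩
  have hv2 : ∃ k : ℕ, orderOf (v : G) = 2 ^ k := ⟨j, by rw [Subgroup.orderOf_coe]; exact hj⟩
  have h942 := Cfsg.Agent.S0942.result 2 M hM (v : G) hv2 (u : G) hmem χ hχ
  have hg' : (g : G) = (v : G) * (u : G) := by
    rw [hguv, hcomm.eq]
    rfl
  rw [hg', h942, hv, char_isClassFunction (isCharacter_of_irr χ.2) _ (c : G)]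
  have h5 := char_isClassFunction (isCharacter_of_irr χ.2) (r g) (r c)⁻¹
  rw [inv_inv] at h5
  exact h5

/-- Numbers `⟨f, ψ - 1⟩` of a function constant on `⟨σ⟩ \ 1`. -/
theorem dc_of_const [Finite G] (σ : G) (f : G → ℂ) (c : ℂ)
    (hf : ∀ y : ↥(Subgroup.zpowers σ), y ≠ 1 → f (y : G) = c)
    (ψ : ↥(Subgroup.zpowers σ) →* ℂˣ) (hψ : ψ ≠ 1) :
    dc (Subgroup.zpowers σ) f ψ = -c := by
  classical
  let _ : Fintype ↥(Subgroup.zpowers σ) := Fintype.ofFinite _
  have h1 := dc_triv (Subgroup.zpowers σ) ψ hψ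
  have e : ∑ y : ↥(Subgroup.zpowers σ), f (y : G) * th (Subgroup.zpowers σ) ψ y⁻¹ =
      c * ∑ y : ↥(Subgroup.zpowers σ), (1 : ℂ) * th (Subgroup.zpowers σ) ψ y⁻¹ := by
    rw [Finset.mul_sum]
    refine Finset.sum_congr rfl fun y _ => ?_
    by_cases hy : y = 1
    · subst hy
      simp [th]
    · rw [hf y hy]
      ring
  unfold dc at h1 ⊢
  rw [finsum_eq_sum_of_fintype] at h1 ⊢
  rw [e, ← mul_assoc, mul_comm _ c, mul_assoc, h1]
  ring

end Cfsg.Agent.Lib.Helper77.DihOrd3
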