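import Cfsg.Agent.Lib.Helper77.DihOrd3

/-!
# Brauer's order formula for dihedral Sylow 2-subgroups: the generalized character `Φ`
-/

set_option autoImplicit false
set_option maxHeartbeats 400000

namespace Cfsg.Agent.Lib.Helper77.DihOrd4

open Cfsg Cfsg.Agent.Lib.CT.Wedderburn Cfsg.Agent.Lib.Helper77.DihG
  Cfsg.Agent.Lib.Helper80.AbSylowCh Cfsg.Agent.Lib.Helper77.DihHom
  Cfsg.Agent.Lib.Helper77.DihCol Cfsg.Agent.Lib.CT.ThirdMain Cfsg.Agent.Lib.Helper77.DihU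
  Cfsg.Agent.Lib.Helper77.DihVal Cfsg.Agent.Lib.Helper77.DihOrd1 Cfsg.Agent.Lib.Helper77.DihOrd2
  Cfsg.Agent.Lib.Helper77.DihOrd3

universe u
variable {G : Type u} [Group G]

/-- Given a principal block character `χ₁ ≠ 1` constant `δ₁` on `⟨σ⟩ \ 1`, there is a principal
block character `χ'` with `1 + δ₁ χ₁ - δ₁ χ'` vanishing on the elements of odd order, and
`χ' = δ₁ (ψ + ψ⁻¹)` on `⟨σ⟩ \ 1` for a linear character `ψ` with `ψ(σ)² ≠ 1`. -/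
theorem exists_phi [Finite G] (M : Ideal AlgInt) (hM : IsPModular 2 M) (P : Sylow 2 G) {σ : G}
    {h : ℕ} (D : DihData (P : Subgroup G) σ h) (hh : h = 2 ∨ 4 ≤ h) (χ₁ : IrrCharacter G)
    (hχ₁ : χ₁ ∈ principalBlock M G) (h1 : (χ₁ : G → ℂ) ≠ fun _ => 1) (δ₁ : ℤ)
    (hδ₁ : δ₁ = 1 ∨ δ₁ = -1)
    (hval : ∀ y : ↥(Subgroup.zpowers σ), y ≠ 1 → (χ₁ : G → ℂ) (y : G) = (δ₁ : ℂ)) :
    ∃ (χ' : IrrCharacter G) (ψ : ↥(Subgroup.zpowers σ) →* ℂˣ), χ' ∈ principalBlock M G ∧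
      ψ (gen σ) * ψ (gen σ) ≠ 1 ∧
      (∀ y : ↥(Subgroup.zpowers σ), y ≠ 1 →
        (χ' : G → ℂ) (y : G) = (δ₁ : ℂ) * (((ψ y : ℂˣ) : ℂ) + (((ψ y : ℂˣ) : ℂ))⁻¹)) ∧
      (∀ ρ : G, Odd (orderOf ρ) →
        1 + (δ₁ : ℂ) * (χ₁ : G → ℂ) ρ = (δ₁ : ℂ) * (χ' : G → ℂ) ρ) := by
  classical
  have hMp := Cfsg.Agent.Lib.Helper77.LocalRing.isPrime_of_isPModular hM
  have h2 : 2 ≤ h := D.two_le
  obtain ⟨ψ₀, h0⟩ := exists_hom (σ := σ) (-1 : ℂˣ) (by rw [D.ord, pow_mul, neg_one_sq, one_pow])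
  have hψ₀1 := psi0_ne_one ψ₀ h0
  have hψ₀inv := psi0_inv ψ₀ h0
  obtain ⟨χ₁', χ₂, χ₃, s, ε₂, ε₃, β, hs, hε₂, hε₃, m1, m2, m3, n1, n2, n3, d12, d13, d23, hβ,
    hβiff, hall, hc1, hc2, hc2', hc3, hc3', hcβ, hcβ'⟩ :=
    Cfsg.Agent.Lib.Helper77.DihProfile.profile M hM P D hh ψ₀ h0
  have hdc : ∀ ψ : ↥(Subgroup.zpowers σ) →* ℂˣ, ψ ≠ 1 →
      dc (Subgroup.zpowers σ) (χ₁ : G → ℂ) ψ = -(δ₁ : ℂ) :=
    fun ψ hψ => dc_of_const σ _ _ hval ψ hψ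
  have hδ0 : (δ₁ : ℂ) ≠ 0 := by
    rcases hδ₁ with rfl | rfl <;> norm_num
  obtain ⟨ψ', hψ'1, hψ'0⟩ := exists_ne σ (by rw [D.ord]; omega) ψ₀
  have hχeq : χ₁ = χ₁' := by
    rcases hall χ₁ hχ₁ with e | e | e | e | ⟨ψ, hψ1, hψ0, e⟩
    · exfalso
      apply h1
      rw [e]
      rfl
    · exact e
    · exfalso
      have h3 := hdc ψ' hψ'1
      rw [e, hc2' ψ' hψ'0] at h3
      exact hδ0 (neg_eq_zero.mp h3.symm)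
    · exfalso
      have h3 := hdc ψ' hψ'1
      rw [e, hc3' ψ' hψ'0] at h3
      exact hδ0 (neg_eq_zero.mp h3.symm)
    · exfalso
      have a1 : ψ₀ ≠ ψ := fun e' => hψ0 e'.symm
      have a2 : ψ₀ ≠ ψ⁻¹ := by
        intro e'
        apply hψ0
        rw [← inv_inv' ψ, ← e', hψ₀inv]
      have h3 := hdc ψ₀ hψ₀1
      rw [e, hcβ' ψ₀ ψ hψ1 hψ0 a1 a2] at h3
      exact hδ0 (neg_eq_zero.mp h3.symm)
  have hsδ : (s : ℂ) = (δ₁ : ℂ) := by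
    have h3 := hdc ψ' hψ'1
    rw [hχeq, hc1 ψ' hψ'1] at h3
    exact neg_injective h3
  refine ⟨β ψ', ψ', (hβ ψ' hψ'1 hψ'0).1, ?_, ?_, ?_⟩
  · intro e
    apply inv_ne_self ψ₀ h0 ψ' hψ'1 hψ'0
    apply hom_ext_gen
    rw [MonoidHom.inv_apply]
    exact inv_eq_of_mul_eq_one_left e
  · intro y hy
    have hne : ψ' ≠ ψ'⁻¹ := (inv_ne_self ψ₀ h0 ψ' hψ'1 hψ'0).symm
    have h3 := val_pair σ (β ψ' : G → ℂ) ψ' hne (fun ψ a b => hcβ' ψ ψ' hψ'1 hψ'0 a b) y hy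
    rw [(hcβ ψ' hψ'1 hψ'0).1, (hcβ ψ' hψ'1 hψ'0).2, hsδ] at h3
    rw [h3]
    ring
  · intro ρ hρ
    have mt : triv G ∈ B0 G M := (mem_B0 M _).mpr (triv_mem_principalBlock hMp)
    have mb1 : χ₁' ∈ B0 G M := (mem_B0 M _).mpr m1
    have key := Cfsg.Agent.Lib.Helper77.DihFinal.orth_odd M hM P D ψ' ρ hρ
    have mβ : β ψ' ∈ B0 G M := (mem_B0 M _).mpr (hβ ψ' hψ'1 hψ'0).1
    have hz : ∀ χ ∈ B0 G M, χ ≠ triv G → χ ≠ χ₁' → χ ≠ β ψ' →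
        (χ : G → ℂ) ρ * dc (Subgroup.zpowers σ) (χ : G → ℂ) ψ' = 0 := by
      intro χ hχ c0 c1 c2
      rcases hall χ ((mem_B0 M χ).mp hχ) with e | e | e | e | ⟨ψ, hψ1, hψ0, e⟩
      · exact absurd e c0
      · exact absurd e c1
      · rw [e, hc2' _ hψ'0, mul_zero]
      · rw [e, hc3' _ hψ'0, mul_zero]
      · have hnot : ¬ (ψ' = ψ ∨ ψ' = ψ⁻¹) := by
          intro hor
          apply c2
          rw [e]
          exact (hβiff ψ ψ' hψ1 hψ0 hψ'1 hψ'0).mpr hor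
        rw [not_or] at hnot
        rw [e, hcβ' ψ' ψ hψ1 hψ0 hnot.1 hnot.2, mul_zero]
    rw [sum_three' (B0 G M) _ (triv G) χ₁' (β ψ') mt mb1 mβ n1.symm
      (hβ ψ' hψ'1 hψ'0).2.1.symm (hβ ψ' hψ'1 hψ'0).2.2.1.symm hz, coe_triv,
      dc_triv _ ψ' hψ'1, hc1 _ hψ'1, (hcβ ψ' hψ'1 hψ'0).1] at key
    rw [hχeq, ← hsδ]
    linear_combination (-1 : ℂ) * key

end Cfsg.Agent.Lib.Helper77.DihOrd4
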