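import Cfsg.Agent.Lib.Helper77.DihOrd4

/-!
# Brauer's order formula for dihedral Sylow 2-subgroups: the local sum in `C(J)`
-/

set_option autoImplicit false
set_option maxHeartbeats 400000

namespace Cfsg.Agent.Lib.Helper77.DihOrd5

open Cfsg Cfsg.Agent.Lib.Helper77.DihG Cfsg.Agent.Lib.Helper77.DihHom
  Cfsg.Agent.Lib.Helper77.DihCol Cfsg.Agent.Lib.Helper77.DihOrd2

universe u
variable {G : Type u} [Group G]

open Classical in
/-- Extension by zero of a linear character of `⟨σ⟩`. -/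
noncomputable def ext (σ : G) (ψ : ↥(Subgroup.zpowers σ) →* ℂˣ) (z : G) : ℂ :=
  if hz : z ∈ Subgroup.zpowers σ then ((ψ ⟨z, hz⟩ : ℂˣ) : ℂ) else 0

theorem ext_apply (σ : G) (ψ : ↥(Subgroup.zpowers σ) →* ℂˣ) (z : G)
    (hz : z ∈ Subgroup.zpowers σ) : ext σ ψ z = ((ψ ⟨z, hz⟩ : ℂˣ) : ℂ) := by
  unfold ext
  exact dif_pos hz

theorem ext_ne_zero (σ : G) (ψ : ↥(Subgroup.zpowers σ) →* ℂˣ) (z : G)
    (hz : z ∈ Subgroup.zpowers σ) : ext σ ψ z ≠ 0 := by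
  rw [ext_apply σ ψ z hz]
  exact Units.ne_zero _

theorem ext_mul (σ : G) (ψ : ↥(Subgroup.zpowers σ) →* ℂˣ) (z w : G)
    (hz : z ∈ Subgroup.zpowers σ) (hw : w ∈ Subgroup.zpowers σ) :
    ext σ ψ (z * w) = ext σ ψ z * ext σ ψ w := by
  rw [ext_apply σ ψ z hz, ext_apply σ ψ w hw, ext_apply σ ψ (z * w) (Subgroup.mul_mem _ hz hw),
    ← Units.val_mul, ← map_mul]
  rfl

theorem ext_inv (σ : G) (ψ : ↥(Subgroup.zpowers σ) →* ℂˣ) (z : G)
    (hz : z ∈ Subgroup.zpowers σ) : ext σ ψ z⁻¹ = (ext σ ψ z)⁻¹ := by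
  rw [ext_apply σ ψ z hz, ext_apply σ ψ z⁻¹ (Subgroup.inv_mem _ hz), ← Units.val_inv_eq_inv_val,
    ← map_inv]
  rfl

theorem ext_gen (σ : G) (ψ : ↥(Subgroup.zpowers σ) →* ℂˣ) :
    ext σ ψ σ = ((ψ (gen σ) : ℂˣ) : ℂ) :=
  ext_apply σ ψ σ (Subgroup.mem_zpowers σ)

/-- The retraction maps the non-central involutions of `C(J)` outside `⟨σ⟩`. -/
theorem retract_out {P : Subgroup G} {σ : G} {h : ℕ} (D : DihData P σ h)
    (r : ↥(Subgroup.centralizer ({σ ^ h} : Set G)) →* G)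
    (hr3 : ∀ x : ↥(Subgroup.centralizer ({σ ^ h} : Set G)), (x : G) ∈ P → r x = x)
    (hr4 : ∀ x : ↥(Subgroup.centralizer ({σ ^ h} : Set G)), r x = 1 → Odd (orderOf (x : G)))
    (x : ↥(Subgroup.centralizer ({σ ^ h} : Set G))) (hx : orderOf (x : G) = 2)
    (hxJ : (x : G) ≠ σ ^ h) : r x ∉ Subgroup.zpowers σ := by
  intro hR
  have hxx : (x : G) * (x : G) = 1 := by
    rw [← pow_two, ← hx]
    exact pow_orderOf_eq_one _
  have hxx' : x * x = 1 := Subtype.ext hxx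
  have hsq : r x * r x = 1 := by rw [← map_mul, hxx', map_one]
  by_cases h1 : r x = 1
  · have h2 := hr4 x h1
    rw [hx] at h2
    exact absurd h2 (by decide)
  · have ho : orderOf (r x) = 2 := orderOf_eq_prime (by rw [pow_two]; exact hsq) h1
    have hrJ := D.unique_invol _ hR ho
    have hJC : σ ^ h ∈ Subgroup.centralizer ({σ ^ h} : Set G) := by
      rw [Subgroup.mem_centralizer_iff]
      intro w hw
      rw [Set.mem_singleton_iff.mp hw]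
    have hrJ' : r ⟨σ ^ h, hJC⟩ = σ ^ h := hr3 ⟨σ ^ h, hJC⟩ (D.R_le (DihData.J_mem σ h))
    have h3 : r (x * ⟨σ ^ h, hJC⟩) = 1 := by rw [map_mul, hrJ, hrJ', D.J_sq]
    have h4 := hr4 _ h3
    have hcomm : σ ^ h * (x : G) = (x : G) * σ ^ h :=
      Subgroup.mem_centralizer_iff.mp x.2 (σ ^ h) (Set.mem_singleton _)
    have h5 : ((x : G) * σ ^ h) ^ 2 = 1 := by
      rw [pow_two]
      calc (x : G) * σ ^ h * ((x : G) * σ ^ h) = (x : G) * (σ ^ h * (x : G)) * σ ^ h := by group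
        _ = (x : G) * ((x : G) * σ ^ h) * σ ^ h := by rw [hcomm]
        _ = (x : G) * (x : G) * (σ ^ h * σ ^ h) := by group
        _ = 1 := by rw [hxx, D.J_sq, mul_one]
    have h6 : orderOf ((x : G) * σ ^ h) ∣ 2 := orderOf_dvd_of_pow_eq_one h5
    have h7 : orderOf ((x : G) * σ ^ h) = 1 := by
      have h8 : ((x * ⟨σ ^ h, hJC⟩ : ↥(Subgroup.centralizer ({σ ^ h} : Set G))) : G) =
          (x : G) * σ ^ h := rfl
      rw [h8] at h4
      have h9 := Nat.le_of_dvd (by norm_num) h6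
      have h10 : orderOf ((x : G) * σ ^ h) ≠ 0 := by
        intro e
        rw [e] at h6
        exact absurd (Nat.eq_zero_of_zero_dvd h6) (by norm_num)
      rcases h4 with ⟨m, hm⟩
      omega
    rw [orderOf_eq_one_iff] at h7
    apply hxJ
    have h11 : (σ ^ h)⁻¹ = σ ^ h := inv_eq_of_mul_eq_one_left D.J_sq
    exact (eq_inv_of_mul_eq_one_left h7).trans h11

/-- The local sum. -/
theorem local_sum [Finite G] {P : Subgroup G} {σ τ : G} {h : ℕ} (g : Gens P σ τ h)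
    (r : ↥(Subgroup.centralizer ({σ ^ h} : Set G)) →* G)
    (hr2 : ∀ x, r x ∈ P)
    (hr3 : ∀ x : ↥(Subgroup.centralizer ({σ ^ h} : Set G)), (x : G) ∈ P → r x = x)
    (hr4 : ∀ x : ↥(Subgroup.centralizer ({σ ^ h} : Set G)), r x = 1 → Odd (orderOf (x : G)))
    (ψ : ↥(Subgroup.zpowers σ) →* ℂˣ) (hω : ψ (gen σ) * ψ (gen σ) ≠ 1) (Φ : G → ℂ)
    (hΦ : ∀ x : ↥(Subgroup.centralizer ({σ ^ h} : Set G)), r x ∈ Subgroup.zpowers σ →
      Φ (x : G) = 2 - ext σ ψ (r x) - (ext σ ψ (r x))⁻¹)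
    [Fintype ↥(Subgroup.centralizer ({σ ^ h} : Set G))]
    (IC : Finset ↥(Subgroup.centralizer ({σ ^ h} : Set G)))
    (hIC : ∀ x, x ∈ IC ↔ orderOf (x : G) = 2 ∧ (x : G) ≠ σ ^ h) :
    ∑ x ∈ IC, ∑ y ∈ IC, Φ ((x * y : ↥(Subgroup.centralizer ({σ ^ h} : Set G))) : G) =
      2 * (IC.card : ℂ) ^ 2 := by
  classical
  have D := g.dihData
  have hout : ∀ x ∈ IC, r x ∉ Subgroup.zpowers σ := fun x hx =>
    retract_out D r hr3 hr4 x ((hIC x).mp hx).1 ((hIC x).mp hx).2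
  have hmemR : ∀ x ∈ IC, r x * τ ∈ Subgroup.zpowers σ := fun x hx =>
    g.mul_tau_mem (r x) (hr2 x) (hout x hx)
  have hlam0 : ∀ x ∈ IC, ext σ ψ (r x * τ) ≠ 0 := fun x hx => ext_ne_zero σ ψ _ (hmemR x hx)
  have hlam : ∀ x ∈ IC, ∀ y ∈ IC,
      Φ ((x * y : ↥(Subgroup.centralizer ({σ ^ h} : Set G))) : G) =
        2 - ext σ ψ (r x * τ) * (ext σ ψ (r y * τ))⁻¹ -
          (ext σ ψ (r x * τ))⁻¹ * ext σ ψ (r y * τ) := by
    intro x hx y hy
    have e1 : r (x * y) = (r x * τ) * (r y * τ)⁻¹ := by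
      rw [map_mul]
      exact g.mul_eq (r x) (r y) (hr2 y) (hout y hy)
    have hR : r (x * y) ∈ Subgroup.zpowers σ := by
      rw [e1]
      exact Subgroup.mul_mem _ (hmemR x hx) (Subgroup.inv_mem _ (hmemR y hy))
    rw [hΦ (x * y) hR, e1, ext_mul σ ψ _ _ (hmemR x hx) (Subgroup.inv_mem _ (hmemR y hy)),
      ext_inv σ ψ _ (hmemR y hy), mul_inv, inv_inv]
  have hσP : σ ∈ P := g.hσ
  have hσC : σ ∈ Subgroup.centralizer ({σ ^ h} : Set G) :=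
    Cfsg.Agent.Lib.Helper77.DihG4.P_le_centralizer_J D hσP
  have hrσ : r ⟨σ, hσC⟩ = σ := hr3 ⟨σ, hσC⟩ hσP
  have hτσ : τ⁻¹ * σ⁻¹ * τ = σ := by
    rw [← g.rel]
    group
  have hmem : ∀ x : ↥(Subgroup.centralizer ({σ ^ h} : Set G)),
      x ∈ IC ↔ (MulAut.conj (⟨σ, hσC⟩ : ↥(Subgroup.centralizer ({σ ^ h} : Set G)))).toEquiv x ∈
        IC := by
    intro x
    rw [hIC, hIC]
    have e1 : (((MulAut.conj (⟨σ, hσC⟩ : ↥(Subgroup.centralizer ({σ ^ h} : Set G)))).toEquiv x :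
        ↥(Subgroup.centralizer ({σ ^ h} : Set G))) : G) = σ * (x : G) * σ⁻¹ := rfl
    rw [e1, orderOf_conj']
    have hcomm : σ * σ ^ h = σ ^ h * σ := ((Commute.refl σ).pow_right h).eq
    constructor
    · rintro ⟨h1, h2⟩
      refine ⟨h1, fun e => h2 ?_⟩
      calc (x : G) = σ⁻¹ * (σ * (x : G) * σ⁻¹) * σ := by group
        _ = σ⁻¹ * (σ ^ h * σ) := by rw [e, mul_assoc]
        _ = σ⁻¹ * (σ * σ ^ h) := by rw [hcomm]
        _ = σ ^ h := by group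
    · rintro ⟨h1, h2⟩
      refine ⟨h1, fun e => h2 ?_⟩
      rw [e, hcomm, mul_inv_cancel_right]
  have hconj : ∀ x ∈ IC,
      ext σ ψ (r ((MulAut.conj (⟨σ, hσC⟩ : ↥(Subgroup.centralizer ({σ ^ h} : Set G)))).toEquiv
        x) * τ) = ext σ ψ σ * ext σ ψ σ * ext σ ψ (r x * τ) := by
    intro x hx
    have e1 : (MulAut.conj (⟨σ, hσC⟩ : ↥(Subgroup.centralizer ({σ ^ h} : Set G)))).toEquiv x =
        ⟨σ, hσC⟩ * x * (⟨σ, hσC⟩ : ↥(Subgroup.centralizer ({σ ^ h} : Set G)))⁻¹ := rfl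
    have e2 : r (⟨σ, hσC⟩ * x * (⟨σ, hσC⟩ : ↥(Subgroup.centralizer ({σ ^ h} : Set G)))⁻¹) * τ =
        σ * (r x * τ) * σ := by
      rw [map_mul, map_mul, map_inv, hrσ]
      calc σ * r x * σ⁻¹ * τ = σ * (r x * τ) * (τ⁻¹ * σ⁻¹ * τ) := by group
        _ = σ * (r x * τ) * σ := by rw [hτσ]
    rw [e1, e2, ext_mul σ ψ _ _ (Subgroup.mul_mem _ (Subgroup.mem_zpowers σ) (hmemR x hx))
      (Subgroup.mem_zpowers σ), ext_mul σ ψ _ _ (Subgroup.mem_zpowers σ) (hmemR x hx)]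
    ring
  have hω' : ext σ ψ σ * ext σ ψ σ ≠ 1 := by
    rw [ext_gen, ← Units.val_mul]
    intro e
    exact hω (Units.ext e)
  have hS : ∑ x ∈ IC, ext σ ψ (r x * τ) = 0 := by
    have h1 : ∑ x ∈ IC, ext σ ψ (r ((MulAut.conj
        (⟨σ, hσC⟩ : ↥(Subgroup.centralizer ({σ ^ h} : Set G)))).toEquiv x) * τ) =
        ∑ x ∈ IC, ext σ ψ (r x * τ) :=
      Finset.sum_equiv (MulAut.conj (⟨σ, hσC⟩ : ↥(Subgroup.centralizer ({σ ^ h} : Set G)))).toEquiv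
        hmem (fun x _ => rfl)
    rw [Finset.sum_congr rfl hconj, ← Finset.mul_sum] at h1
    have h2 : (ext σ ψ σ * ext σ ψ σ - 1) * ∑ x ∈ IC, ext σ ψ (r x * τ) = 0 := by
      rw [sub_mul, h1, one_mul, sub_self]
    rcases mul_eq_zero.mp h2 with h3 | h3
    · exact absurd (sub_eq_zero.mp h3) hω'
    · exact h3
  have hinner : ∀ x ∈ IC,
      ∑ y ∈ IC, Φ ((x * y : ↥(Subgroup.centralizer ({σ ^ h} : Set G))) : G) =
        2 * (IC.card : ℂ) - ext σ ψ (r x * τ) * ∑ y ∈ IC, (ext σ ψ (r y * τ))⁻¹ := by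
    intro x hx
    rw [Finset.sum_congr rfl (fun y hy => hlam x hx y hy), Finset.sum_sub_distrib,
      Finset.sum_sub_distrib, Finset.sum_const, ← Finset.mul_sum, ← Finset.mul_sum, hS, mul_zero,
      sub_zero, nsmul_eq_mul]
    ring
  rw [Finset.sum_congr rfl hinner, Finset.sum_sub_distrib, Finset.sum_const, ← Finset.sum_mul, hS,
    zero_mul, sub_zero, nsmul_eq_mul]
  ring

end Cfsg.Agent.Lib.Helper77.DihOrd5
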