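import Cfsg.Agent.Lib.Helper77.DihOrd5
import Cfsg.Agent.Lib.Helper77.ClassSum

/-!
# Brauer's order formula for dihedral Sylow 2-subgroups: counting in `C(J)`, the section sum
-/

set_option autoImplicit false
set_option maxHeartbeats 400000

namespace Cfsg.Agent.Lib.Helper77.DihOrd6

open Cfsg Cfsg.Agent.Lib.Helper77.DihG Cfsg.Agent.Lib.Helper77.DihHom
  Cfsg.Agent.Lib.Helper77.DihCol Cfsg.Agent.Lib.Helper77.DihOrd2 Cfsg.Agent.Lib.Helper77.DihOrd3
  Cfsg.Agent.Lib.Helper77.DihOrd5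

universe u
variable {G : Type u} [Group G]

/-- The centralizer of `t` inside `C(J)` is `C(J, t)`. -/
theorem card_centralizer_sub (J t : G) (ht : t ∈ Subgroup.centralizer ({J} : Set G)) :
    Nat.card ↥(Subgroup.centralizer
      ({(⟨t, ht⟩ : ↥(Subgroup.centralizer ({J} : Set G)))} :
        Set ↥(Subgroup.centralizer ({J} : Set G)))) =
      Nat.card ↥(Subgroup.centralizer ({J, t} : Set G)) := by
  apply Nat.card_congr
  refine ⟨fun x => ⟨((x : ↥(Subgroup.centralizer ({J} : Set G))) : G), ?_⟩,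
    fun y => ⟨⟨(y : G), ?_⟩, ?_⟩, ?_, ?_⟩
  · rw [Subgroup.mem_centralizer_iff]
    intro w hw
    rcases hw with hw | hw
    · rw [hw]
      exact Subgroup.mem_centralizer_iff.mp
        (x : ↥(Subgroup.centralizer ({J} : Set G))).2 J (Set.mem_singleton _)
    · rw [Set.mem_singleton_iff] at hw
      rw [hw]
      have h1 := Subgroup.mem_centralizer_iff.mp x.2 ⟨t, ht⟩ (Set.mem_singleton _)
      exact congrArg Subtype.val h1
  · rw [Subgroup.mem_centralizer_iff]
    intro w hw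
    rw [Set.mem_singleton_iff] at hw
    rw [hw]
    exact Subgroup.mem_centralizer_iff.mp y.2 J (Set.mem_insert _ _)
  · rw [Subgroup.mem_centralizer_iff]
    intro w hw
    rw [Set.mem_singleton_iff] at hw
    rw [hw]
    apply Subtype.ext
    exact Subgroup.mem_centralizer_iff.mp y.2 t (Set.mem_insert_of_mem _ (Set.mem_singleton _))
  · intro x
    rfl
  · intro y
    rfl

/-- The power `w ^ (N / 2)` of an element of even order `N` is an involution. -/
theorem orderOf_half [Finite G] (w : G) (hev : Even (orderOf w)) :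
    orderOf (w ^ (orderOf w / 2)) = 2 := by
  have hN : 0 < orderOf w := orderOf_pos w
  obtain ⟨m, hm⟩ := hev
  have e : orderOf w / 2 = m := by omega
  have hm0 : m ≠ 0 := by omega
  rw [e, orderOf_pow_of_dvd hm0 ⟨2, by omega⟩]
  exact Nat.div_eq_of_eq_mul_left (Nat.pos_of_ne_zero hm0) (by omega)

/-- The sum over pairs of involutions of a class function vanishing on elements of odd order,
grouped according to the involution in the cyclic group generated by the product. -/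
theorem global_sum [Finite G] [DecidableEq G] (J : G) (Inv : Finset G)
    (hInv : ∀ x, x ∈ Inv ↔ IsConj J x)
    (hall : ∀ x : G, orderOf x = 2 → IsConj J x) (Φ : G → ℂ)
    (hcl : ∀ a x : G, Φ (a * x * a⁻¹) = Φ x) (hodd : ∀ x : G, Odd (orderOf x) → Φ x = 0) :
    ∑ x ∈ Inv, ∑ y ∈ Inv, Φ (x * y) =
      (Inv.card : ℂ) *
        ∑ p ∈ ((Inv ×ˢ Inv).filter (fun p : G × G => Even (orderOf (p.1 * p.2)))).filter
          (fun p : G × G => (p.1 * p.2) ^ (orderOf (p.1 * p.2) / 2) = J), Φ (p.1 * p.2) := by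
  have h1 : ∑ x ∈ Inv, ∑ y ∈ Inv, Φ (x * y) = ∑ p ∈ Inv ×ˢ Inv, Φ (p.1 * p.2) :=
    (Finset.sum_product' Inv Inv (fun x y => Φ (x * y))).symm
  have h2 : ∑ p ∈ (Inv ×ˢ Inv).filter (fun p : G × G => Even (orderOf (p.1 * p.2))),
      Φ (p.1 * p.2) = ∑ p ∈ Inv ×ˢ Inv, Φ (p.1 * p.2) := by
    apply Finset.sum_filter_of_ne
    intro p _ hp
    rw [← Nat.not_odd_iff_even]
    intro ho
    exact hp (hodd _ ho)
  have hmaps : ∀ p ∈ (Inv ×ˢ Inv).filter (fun p : G × G => Even (orderOf (p.1 * p.2))),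
      (p.1 * p.2) ^ (orderOf (p.1 * p.2) / 2) ∈ Inv := by
    intro p hp
    rw [hInv]
    exact hall _ (orderOf_half _ (Finset.mem_filter.mp hp).2)
  have h3 := Finset.sum_fiberwise_of_maps_to hmaps (fun p : G × G => Φ (p.1 * p.2))
  have key : ∀ z ∈ Inv,
      ∑ p ∈ ((Inv ×ˢ Inv).filter (fun p : G × G => Even (orderOf (p.1 * p.2)))).filter
        (fun p : G × G => (p.1 * p.2) ^ (orderOf (p.1 * p.2) / 2) = z), Φ (p.1 * p.2) =
      ∑ p ∈ ((Inv ×ˢ Inv).filter (fun p : G × G => Even (orderOf (p.1 * p.2)))).filter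
        (fun p : G × G => (p.1 * p.2) ^ (orderOf (p.1 * p.2) / 2) = J), Φ (p.1 * p.2) := by
    intro z hz
    obtain ⟨a, ha⟩ := isConj_iff.mp ((hInv z).mp hz)
    have e2 : ∀ p : G × G, a * p.1 * a⁻¹ * (a * p.2 * a⁻¹) = a * (p.1 * p.2) * a⁻¹ := by
      intro p
      group
    have hc : ∀ x : G, IsConj J x ↔ IsConj J (a * x * a⁻¹) := by
      intro x
      constructor
      · intro hx
        exact hx.trans (isConj_iff.mpr ⟨a, rfl⟩)
      · intro hx
        exact hx.trans (isConj_iff.mpr ⟨a⁻¹, by group⟩)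
    symm
    refine Finset.sum_equiv (Equiv.prodCongr (MulAut.conj a).toEquiv (MulAut.conj a).toEquiv)
      ?_ ?_
    · intro p
      have e1 : (Equiv.prodCongr (MulAut.conj a).toEquiv (MulAut.conj a).toEquiv) p =
          (a * p.1 * a⁻¹, a * p.2 * a⁻¹) := rfl
      rw [e1, Finset.mem_filter, Finset.mem_filter, Finset.mem_product, Finset.mem_filter,
        Finset.mem_filter, Finset.mem_product]
      simp only []
      rw [e2, orderOf_conj', conj_pow, ← ha, hInv, hInv, hInv, hInv, ← hc, ← hc]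
      constructor
      · rintro ⟨h4, h5⟩
        exact ⟨h4, by rw [h5]⟩
      · rintro ⟨h4, h5⟩
        refine ⟨h4, ?_⟩
        exact mul_left_cancel (mul_right_cancel h5)
    · intro p _
      have e1 : (Equiv.prodCongr (MulAut.conj a).toEquiv (MulAut.conj a).toEquiv) p =
          (a * p.1 * a⁻¹, a * p.2 * a⁻¹) := rfl
      rw [e1]
      simp only []
      rw [e2, hcl]
  rw [h1, ← h2, ← h3, Finset.sum_congr rfl key, Finset.sum_const, nsmul_eq_mul]

/-- The coordinatewise inclusion. -/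
def valEmb (C : Subgroup G) : ↥C × ↥C ↪ G × G :=
  ⟨fun p => ((p.1 : G), (p.2 : G)), fun _ _ hpq =>
    Prod.ext (Subtype.ext (congrArg Prod.fst hpq)) (Subtype.ext (congrArg Prod.snd hpq))⟩

/-- The fibre over `J`: pairs of involutions of `C(J)` other than `J`. -/
theorem local_eq [Finite G] [DecidableEq G] (P : Sylow 2 G) {σ τ : G} {h : ℕ}
    (g : Gens (P : Subgroup G) σ τ h) (Inv : Finset G)
    (hInv : ∀ x, x ∈ Inv ↔ IsConj (σ ^ h) x)
    (hall : ∀ x : G, orderOf x = 2 → IsConj (σ ^ h) x)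
    (r : ↥(Subgroup.centralizer ({σ ^ h} : Set G)) →* G)
    (hr2 : ∀ x, r x ∈ (P : Subgroup G))
    (hr3 : ∀ x : ↥(Subgroup.centralizer ({σ ^ h} : Set G)), (x : G) ∈ (P : Subgroup G) → r x = x)
    (hr4 : ∀ x : ↥(Subgroup.centralizer ({σ ^ h} : Set G)), r x = 1 → Odd (orderOf (x : G)))
    (Φ : G → ℂ) (hodd : ∀ x : G, Odd (orderOf x) → Φ x = 0)
    (IC : Finset ↥(Subgroup.centralizer ({σ ^ h} : Set G)))
    (hIC : ∀ x, x ∈ IC ↔ orderOf (x : G) = 2 ∧ (x : G) ≠ σ ^ h) :
    ∑ p ∈ ((Inv ×ˢ Inv).filter (fun p : G × G => Even (orderOf (p.1 * p.2)))).filter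
        (fun p : G × G => (p.1 * p.2) ^ (orderOf (p.1 * p.2) / 2) = σ ^ h), Φ (p.1 * p.2) =
      ∑ x ∈ IC, ∑ y ∈ IC, Φ ((x * y : ↥(Subgroup.centralizer ({σ ^ h} : Set G))) : G) := by
  have D := g.dihData
  have hJ2 := D.orderOf_J
  have hJsq := D.J_sq
  have hJinv : (σ ^ h)⁻¹ = σ ^ h := inv_eq_of_mul_eq_one_left D.J_sq
  have hord : ∀ x ∈ Inv, orderOf x = 2 := by
    intro x hx
    obtain ⟨a, ha⟩ := isConj_iff.mp ((hInv x).mp hx)
    rw [← ha, orderOf_conj', hJ2]
  have hsq : ∀ x : G, orderOf x = 2 → x * x = 1 := by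
    intro x hx
    rw [← pow_two, ← hx]
    exact pow_orderOf_eq_one x
  have hsub : ((Inv ×ˢ Inv).filter (fun p : G × G => Even (orderOf (p.1 * p.2)))).filter
      (fun p : G × G => (p.1 * p.2) ^ (orderOf (p.1 * p.2) / 2) = σ ^ h) ⊆
      (IC ×ˢ IC).map (valEmb (Subgroup.centralizer ({σ ^ h} : Set G))) := by
    intro p hp
    rw [Finset.mem_filter, Finset.mem_filter, Finset.mem_product] at hp
    obtain ⟨⟨⟨hx, hy⟩, hev⟩, hι⟩ := hp
    obtain ⟨x, y⟩ := p
    simp only [] at hx hy hev hι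
    have hxo := hord x hx
    have hyo := hord y hy
    have hxx := hsq x hxo
    have hyy := hsq y hyo
    have hxi : x⁻¹ = x := inv_eq_of_mul_eq_one_left hxx
    have hyi : y⁻¹ = y := inv_eq_of_mul_eq_one_left hyy
    have key1 : x * (x * y) * x⁻¹ = (x * y)⁻¹ := by
      calc x * (x * y) * x⁻¹ = (x * x) * y * x⁻¹ := by group
        _ = y⁻¹ * x⁻¹ := by rw [hxx, one_mul, hyi]
        _ = (x * y)⁻¹ := by rw [mul_inv_rev]
    have key2 : y * (x * y) * y⁻¹ = (x * y)⁻¹ := by
      calc y * (x * y) * y⁻¹ = y * x * (y * y⁻¹) := by group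
        _ = y⁻¹ * x⁻¹ := by rw [mul_inv_cancel, mul_one, hyi, hxi]
        _ = (x * y)⁻¹ := by rw [mul_inv_rev]
    have hcent : ∀ c : G, c * (x * y) * c⁻¹ = (x * y)⁻¹ →
        c ∈ Subgroup.centralizer ({σ ^ h} : Set G) := by
      intro c hc
      rw [Subgroup.mem_centralizer_iff]
      intro w hw
      rw [Set.mem_singleton_iff] at hw
      rw [hw]
      have e : c * σ ^ h * c⁻¹ = σ ^ h := by
        rw [← hι, ← conj_pow, hc, inv_pow, hι, hJinv]
      calc σ ^ h * c = c * σ ^ h * c⁻¹ * c := by rw [e]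
        _ = c * σ ^ h := by group
    have hxC := hcent x key1
    have hyC := hcent y key2
    have hcomm : ∀ c : G, c ∈ Subgroup.centralizer ({σ ^ h} : Set G) → σ ^ h * c = c * σ ^ h :=
      fun c hc => Subgroup.mem_centralizer_iff.mp hc (σ ^ h) (Set.mem_singleton _)
    have hN2 : ∀ w : G, w * w = 1 → Even (orderOf w) → orderOf w = 2 := by
      intro w hw hev
      have h1 : orderOf w ∣ 2 := orderOf_dvd_of_pow_eq_one (by rw [pow_two]; exact hw)
      have h2 := Nat.le_of_dvd (by norm_num) h1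
      have h3 : 0 < orderOf w := orderOf_pos w
      obtain ⟨m, hm⟩ := hev
      omega
    have hxJ : x ≠ σ ^ h := by
      intro e
      have hw : x * y * (x * y) = 1 := by
        rw [e]
        calc σ ^ h * y * (σ ^ h * y) = σ ^ h * (y * σ ^ h) * y := by group
          _ = σ ^ h * (σ ^ h * y) * y := by rw [hcomm y hyC]
          _ = σ ^ h * σ ^ h * (y * y) := by group
          _ = 1 := by rw [hJsq, hyy, mul_one]
      have hN := hN2 _ hw hev
      rw [hN, Nat.div_self (by norm_num), pow_one, e] at hι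
      have hy1 : y = 1 := mul_left_cancel (hι.trans (mul_one _).symm)
      rw [hy1, orderOf_one] at hyo
      exact absurd hyo (by norm_num)
    have hyJ : y ≠ σ ^ h := by
      intro e
      have hw : x * y * (x * y) = 1 := by
        rw [e]
        calc x * σ ^ h * (x * σ ^ h) = x * (σ ^ h * x) * σ ^ h := by group
          _ = x * (x * σ ^ h) * σ ^ h := by rw [hcomm x hxC]
          _ = x * x * (σ ^ h * σ ^ h) := by group
          _ = 1 := by rw [hJsq, hxx, mul_one]
      have hN := hN2 _ hw hev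
      rw [hN, Nat.div_self (by norm_num), pow_one, e] at hι
      have hx1 : x = 1 := mul_right_cancel (hι.trans (one_mul _).symm)
      rw [hx1, orderOf_one] at hxo
      exact absurd hxo (by norm_num)
    exact Finset.mem_map.mpr ⟨(⟨x, hxC⟩, ⟨y, hyC⟩),
      Finset.mem_product.mpr ⟨(hIC _).mpr ⟨hxo, hxJ⟩, (hIC _).mpr ⟨hyo, hyJ⟩⟩, rfl⟩
  have hvan : ∀ q ∈ (IC ×ˢ IC).map (valEmb (Subgroup.centralizer ({σ ^ h} : Set G))),
      q ∉ ((Inv ×ˢ Inv).filter (fun p : G × G => Even (orderOf (p.1 * p.2)))).filter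
        (fun p : G × G => (p.1 * p.2) ^ (orderOf (p.1 * p.2) / 2) = σ ^ h) →
      Φ (q.1 * q.2) = 0 := by
    intro q hq hqF
    obtain ⟨⟨x, y⟩, hxy, rfl⟩ := Finset.mem_map.mp hq
    rw [Finset.mem_product] at hxy
    obtain ⟨hx, hy⟩ := hxy
    simp only [] at hx hy
    have hx2 := (hIC x).mp hx
    have hy2 := (hIC y).mp hy
    show Φ ((x : G) * (y : G)) = 0
    by_cases h1 : r (x * y) = 1
    · exact hodd _ (hr4 (x * y) h1)
    · exfalso
      apply hqF
      rw [Finset.mem_filter, Finset.mem_filter, Finset.mem_product]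
      have hev : Even (orderOf ((x : G) * (y : G))) := by
        rw [← Nat.not_odd_iff_even]
        intro ho
        exact h1 (odd_retract P r hr2 (x * y) ho)
      refine ⟨⟨⟨(hInv _).mpr (hall _ hx2.1), (hInv _).mpr (hall _ hy2.1)⟩, hev⟩, ?_⟩
      show ((x : G) * (y : G)) ^ (orderOf ((x : G) * (y : G)) / 2) = σ ^ h
      by_contra hne
      have hu := orderOf_half _ hev
      have houtx := retract_out D r hr3 hr4 x hx2.1 hx2.2
      have houty := retract_out D r hr3 hr4 y hy2.1 hy2.2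
      have hR : r (x * y) ∈ Subgroup.zpowers σ := by
        rw [map_mul, g.mul_eq (r x) (r y) (hr2 y) houty]
        exact Subgroup.mul_mem _ (g.mul_tau_mem (r x) (hr2 x) houtx)
          (Subgroup.inv_mem _ (g.mul_tau_mem (r y) (hr2 y) houty))
      have h3 := retract_out D r hr3 hr4 ((x * y) ^ (orderOf ((x : G) * (y : G)) / 2)) hu hne
      apply h3
      rw [map_pow]
      exact Subgroup.pow_mem _ hR _
  rw [Finset.sum_subset hsub hvan, Finset.sum_map, Finset.sum_product]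
  rfl

/-- The section sum. -/
theorem section_sum [Finite G] [DecidableEq G] (P : Sylow 2 G) {σ τ : G} {h : ℕ}
    (g : Gens (P : Subgroup G) σ τ h) (Inv : Finset G)
    (hInv : ∀ x, x ∈ Inv ↔ IsConj (σ ^ h) x)
    (hall : ∀ x : G, orderOf x = 2 → IsConj (σ ^ h) x)
    (r : ↥(Subgroup.centralizer ({σ ^ h} : Set G)) →* G)
    (hr2 : ∀ x, r x ∈ (P : Subgroup G))
    (hr3 : ∀ x : ↥(Subgroup.centralizer ({σ ^ h} : Set G)), (x : G) ∈ (P : Subgroup G) → r x = x)
    (hr4 : ∀ x : ↥(Subgroup.centralizer ({σ ^ h} : Set G)), r x = 1 → Odd (orderOf (x : G)))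
    (Φ : G → ℂ) (hcl : ∀ a x : G, Φ (a * x * a⁻¹) = Φ x)
    (hodd : ∀ x : G, Odd (orderOf x) → Φ x = 0)
    (IC : Finset ↥(Subgroup.centralizer ({σ ^ h} : Set G)))
    (hIC : ∀ x, x ∈ IC ↔ orderOf (x : G) = 2 ∧ (x : G) ≠ σ ^ h) :
    ∑ x ∈ Inv, ∑ y ∈ Inv, Φ (x * y) =
      (Inv.card : ℂ) *
        ∑ x ∈ IC, ∑ y ∈ IC, Φ ((x * y : ↥(Subgroup.centralizer ({σ ^ h} : Set G))) : G) := by
  rw [global_sum (σ ^ h) Inv hInv hall Φ hcl hodd,
    local_eq P g Inv hInv hall r hr2 hr3 hr4 Φ hodd IC hIC]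

/-- The number of involutions of `C(J)` other than `J`. -/
theorem card_IC [Finite G] (P : Sylow 2 G) {σ τ : G} {h : ℕ} (g : Gens (P : Subgroup G) σ τ h)
    (r : ↥(Subgroup.centralizer ({σ ^ h} : Set G)) →* G)
    (hr2 : ∀ x, r x ∈ (P : Subgroup G))
    (hr3 : ∀ x : ↥(Subgroup.centralizer ({σ ^ h} : Set G)), (x : G) ∈ (P : Subgroup G) → r x = x)
    (IC : Finset ↥(Subgroup.centralizer ({σ ^ h} : Set G)))
    (hIC : ∀ x, x ∈ IC ↔ orderOf (x : G) = 2 ∧ (x : G) ≠ σ ^ h) :
    (IC.card : ℂ) = (Nat.card ↥(Subgroup.centralizer ({σ ^ h} : Set G)) : ℂ) /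
        (Nat.card ↥(Subgroup.centralizer ({σ ^ h, τ} : Set G)) : ℂ) +
      (Nat.card ↥(Subgroup.centralizer ({σ ^ h} : Set G)) : ℂ) /
        (Nat.card ↥(Subgroup.centralizer ({σ ^ h, σ * τ} : Set G)) : ℂ) := by
  classical
  haveI : Fact (Nat.Prime 2) := ⟨Nat.prime_two⟩
  let _ : Fintype ↥(Subgroup.centralizer ({σ ^ h} : Set G)) := Fintype.ofFinite _
  have D := g.dihData
  have hPH := Cfsg.Agent.Lib.Helper77.DihG4.P_le_centralizer_J D
  have hτC : τ ∈ Subgroup.centralizer ({σ ^ h} : Set G) := hPH g.hτ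
  have hστP : σ * τ ∈ (P : Subgroup G) := Subgroup.mul_mem _ g.hσ g.hτ
  have hστC : σ * τ ∈ Subgroup.centralizer ({σ ^ h} : Set G) := hPH hστP
  have hστR : σ * τ ∉ Subgroup.zpowers σ := by
    intro hmem
    apply g.tau_notMem
    have e : τ = σ⁻¹ * (σ * τ) := by group
    rw [e]
    exact Subgroup.mul_mem _ (Subgroup.inv_mem _ (Subgroup.mem_zpowers σ)) hmem
  have hcomm : ∀ c : ↥(Subgroup.centralizer ({σ ^ h} : Set G)),
      σ ^ h * (c : G) = (c : G) * σ ^ h :=
    fun c => Subgroup.mem_centralizer_iff.mp c.2 (σ ^ h) (Set.mem_singleton _)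
  have hcl : ∀ (t : G) (ht : t ∈ Subgroup.centralizer ({σ ^ h} : Set G)),
      ((Finset.univ.filter (fun x : ↥(Subgroup.centralizer ({σ ^ h} : Set G)) =>
        IsConj (⟨t, ht⟩ : ↥(Subgroup.centralizer ({σ ^ h} : Set G))) x)).card : ℂ) =
      (Nat.card ↥(Subgroup.centralizer ({σ ^ h} : Set G)) : ℂ) /
        (Nat.card ↥(Subgroup.centralizer ({σ ^ h, t} : Set G)) : ℂ) := by
    intro t ht
    rw [Cfsg.Agent.Lib.Helper77.ClassSum.card_conj_eq_index, ← card_centralizer_sub (σ ^ h) t ht,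
      eq_div_iff (Nat.cast_ne_zero.mpr Nat.card_pos.ne'), ← Nat.cast_mul, mul_comm,
      Subgroup.card_mul_index]
  have hback : ∀ (t : G) (ht : t ∈ Subgroup.centralizer ({σ ^ h} : Set G)),
      t ∈ (P : Subgroup G) → t ∉ Subgroup.zpowers σ →
      ∀ x : ↥(Subgroup.centralizer ({σ ^ h} : Set G)),
        IsConj (⟨t, ht⟩ : ↥(Subgroup.centralizer ({σ ^ h} : Set G))) x →
        orderOf (x : G) = 2 ∧ (x : G) ≠ σ ^ h := by
    intro t ht htP htR x hc
    obtain ⟨c, hc⟩ := isConj_iff.mp hc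
    have hx : (x : G) = (c : G) * t * (c : G)⁻¹ := by
      rw [← hc]
      rfl
    have ht1 : t ≠ 1 := by
      intro e
      rw [e] at htR
      exact htR (Subgroup.one_mem _)
    have hto : orderOf t = 2 :=
      orderOf_eq_prime (by rw [pow_two]; exact (g.out t htP htR).1) ht1
    refine ⟨by rw [hx, orderOf_conj', hto], ?_⟩
    intro e
    rw [hx] at e
    apply htR
    have e2 : t = σ ^ h := by
      calc t = (c : G)⁻¹ * ((c : G) * t * (c : G)⁻¹) * (c : G) := by group
        _ = (c : G)⁻¹ * (σ ^ h * (c : G)) := by rw [e, mul_assoc]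
        _ = (c : G)⁻¹ * ((c : G) * σ ^ h) := by rw [hcomm c]
        _ = σ ^ h := by group
    rw [e2]
    exact DihData.J_mem σ h
  have hunion : IC = Finset.univ.filter (fun x : ↥(Subgroup.centralizer ({σ ^ h} : Set G)) =>
      IsConj (⟨τ, hτC⟩ : ↥(Subgroup.centralizer ({σ ^ h} : Set G))) x) ∪
      Finset.univ.filter (fun x : ↥(Subgroup.centralizer ({σ ^ h} : Set G)) =>
        IsConj (⟨σ * τ, hστC⟩ : ↥(Subgroup.centralizer ({σ ^ h} : Set G))) x) := by
    ext x
    rw [hIC, Finset.mem_union, Finset.mem_filter, Finset.mem_filter]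
    simp only [Finset.mem_univ, true_and]
    constructor
    · rintro ⟨ho, hne⟩
      have ho' : orderOf x = 2 := by
        rw [← Subgroup.orderOf_coe]
        exact ho
      obtain ⟨a, ha⟩ := Cfsg.Agent.Lib.Helper80.AbSylowGT.exists_conj_mem_sylow 2
        (P.subtype hPH) x 1 (by rw [ho', pow_one])
      rw [Sylow.coe_subtype, Subgroup.mem_subgroupOf] at ha
      obtain ⟨y, hy⟩ : ∃ y : G, y = (a : G)⁻¹ * (x : G) * (a : G) := ⟨_, rfl⟩
      have hyP : y ∈ (P : Subgroup G) := by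
        rw [hy]
        exact ha
      have hyo : orderOf y = 2 := by
        have h1 := orderOf_conj' (a : G)⁻¹ (x : G)
        rw [inv_inv] at h1
        rw [hy, h1, ho]
      have hxy : (x : G) = (a : G) * y * (a : G)⁻¹ := by
        rw [hy]
        group
      have hyR : y ∉ Subgroup.zpowers σ := by
        intro hR
        have e := D.unique_invol y hR hyo
        apply hne
        rw [hxy, e, ← hcomm a, mul_inv_cancel_right]
      obtain ⟨p, hp, e | e⟩ := g.conj_cases y hyP hyR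
      · left
        rw [isConj_iff]
        refine ⟨a * ⟨p, hPH hp⟩, ?_⟩
        apply Subtype.ext
        show (a : G) * p * τ * ((a : G) * p)⁻¹ = (x : G)
        rw [hxy, e]
        group
      · right
        rw [isConj_iff]
        refine ⟨a * ⟨p, hPH hp⟩, ?_⟩
        apply Subtype.ext
        show (a : G) * p * (σ * τ) * ((a : G) * p)⁻¹ = (x : G)
        rw [hxy, e]
        group
    · rintro (hc | hc)
      · exact hback τ hτC g.hτ g.tau_notMem x hc
      · exact hback (σ * τ) hστC hστP hστR x hc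
  have hdisj : Disjoint
      (Finset.univ.filter (fun x : ↥(Subgroup.centralizer ({σ ^ h} : Set G)) =>
        IsConj (⟨τ, hτC⟩ : ↥(Subgroup.centralizer ({σ ^ h} : Set G))) x))
      (Finset.univ.filter (fun x : ↥(Subgroup.centralizer ({σ ^ h} : Set G)) =>
        IsConj (⟨σ * τ, hστC⟩ : ↥(Subgroup.centralizer ({σ ^ h} : Set G))) x)) := by
    rw [Finset.disjoint_left]
    intro x hx1 hx2
    rw [Finset.mem_filter] at hx1 hx2
    obtain ⟨c, hc⟩ := isConj_iff.mp (hx1.2.trans hx2.2.symm)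
    have h1 := congrArg r hc
    rw [map_mul, map_mul, map_inv, hr3 ⟨τ, hτC⟩ g.hτ, hr3 ⟨σ * τ, hστC⟩ hστP] at h1
    exact g.not_conj (r c) (hr2 c) h1
  rw [hunion, Finset.card_union_of_disjoint hdisj, Nat.cast_add, hcl τ hτC, hcl (σ * τ) hστC]

end Cfsg.Agent.Lib.Helper77.DihOrd6
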