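import Cfsg.Agent.Lib.Helper77.DihU

/-!
# Dihedral Sylow 2-subgroups: the profile of the principal block on the cyclic maximal subgroup
-/

set_option autoImplicit false

namespace Cfsg.Agent.Lib.Helper77.DihProfile

open Cfsg Cfsg.Agent.Lib.CT.Wedderburn Cfsg.Agent.Lib.Helper77.DihG
  Cfsg.Agent.Lib.Helper80.AbSylowCh Cfsg.Agent.Lib.Helper77.DihHom
  Cfsg.Agent.Lib.Helper77.DihCol Cfsg.Agent.Lib.CT.ThirdMain Cfsg.Agent.Lib.Helper77.DihU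

universe u
variable {G : Type u} [Group G]

theorem profile [Finite G] (M : Ideal AlgInt) (hM : IsPModular 2 M) (P : Sylow 2 G) {σ : G}
    {h : ℕ} (D : DihData (P : Subgroup G) σ h) (hh : h = 2 ∨ 4 ≤ h)
    (ψ₀ : ↥(Subgroup.zpowers σ) →* ℂˣ) (h0 : ψ₀ (gen σ) = -1) :
    ∃ (χ₁ χ₂ χ₃ : IrrCharacter G) (s ε₂ ε₃ : ℤ)
      (β : (↥(Subgroup.zpowers σ) →* ℂˣ) → IrrCharacter G),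
      (s = 1 ∨ s = -1) ∧ (ε₂ = 1 ∨ ε₂ = -1) ∧ (ε₃ = 1 ∨ ε₃ = -1) ∧
      χ₁ ∈ principalBlock M G ∧ χ₂ ∈ principalBlock M G ∧ χ₃ ∈ principalBlock M G ∧
      χ₁ ≠ triv G ∧ χ₂ ≠ triv G ∧ χ₃ ≠ triv G ∧ χ₁ ≠ χ₂ ∧ χ₁ ≠ χ₃ ∧ χ₂ ≠ χ₃ ∧
      (∀ ψ, ψ ≠ 1 → ψ ≠ ψ₀ →
        β ψ ∈ principalBlock M G ∧ β ψ ≠ triv G ∧ β ψ ≠ χ₁ ∧ β ψ ≠ χ₂ ∧ β ψ ≠ χ₃) ∧
      (∀ ψ ψ', ψ ≠ 1 → ψ ≠ ψ₀ → ψ' ≠ 1 → ψ' ≠ ψ₀ → (β ψ = β ψ' ↔ ψ' = ψ ∨ ψ' = ψ⁻¹)) ∧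
      (∀ χ ∈ principalBlock M G, χ = triv G ∨ χ = χ₁ ∨ χ = χ₂ ∨ χ = χ₃ ∨
        ∃ ψ, ψ ≠ 1 ∧ ψ ≠ ψ₀ ∧ χ = β ψ) ∧
      (∀ ψ, ψ ≠ 1 → dc (Subgroup.zpowers σ) (χ₁ : G → ℂ) ψ = -(s : ℂ)) ∧
      dc (Subgroup.zpowers σ) (χ₂ : G → ℂ) ψ₀ = -(ε₂ : ℂ) ∧
      (∀ ψ, ψ ≠ ψ₀ → dc (Subgroup.zpowers σ) (χ₂ : G → ℂ) ψ = 0) ∧
      dc (Subgroup.zpowers σ) (χ₃ : G → ℂ) ψ₀ = -(ε₃ : ℂ) ∧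
      (∀ ψ, ψ ≠ ψ₀ → dc (Subgroup.zpowers σ) (χ₃ : G → ℂ) ψ = 0) ∧
      (∀ ψ', ψ' ≠ 1 → ψ' ≠ ψ₀ →
        dc (Subgroup.zpowers σ) (β ψ' : G → ℂ) ψ' = (s : ℂ) ∧
          dc (Subgroup.zpowers σ) (β ψ' : G → ℂ) ψ'⁻¹ = (s : ℂ)) ∧
      (∀ ψ ψ', ψ' ≠ 1 → ψ' ≠ ψ₀ → ψ ≠ ψ' → ψ ≠ ψ'⁻¹ →
        dc (Subgroup.zpowers σ) (β ψ' : G → ℂ) ψ = 0) := by
  classical
  have H := hyp M hM P D hh ψ₀ h0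
  obtain ⟨χ₁, χ₂, χ₃, s, ε₂, ε₃, β, hs, hε₂, hε₃, m1, m2, m3, n1, n2, n3, d12, d13, d23, hβ,
    hβiff, hall, hu1, hu2, hu2', hu3, hu3', huβ⟩ := Cfsg.Agent.Lib.Helper77.DihLat4.main H
  have hψ₀ := psi0_ne_one ψ₀ h0
  have hdc : ∀ (ψ : ↥(Subgroup.zpowers σ) →* ℂˣ) (hψ : ψ ≠ 1) (χ : IrrCharacter G),
      dc (Subgroup.zpowers σ) (χ : G → ℂ) ψ = -((uInt σ ⟨ψ, hψ⟩ χ : ℤ) : ℂ) := by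
    intro ψ hψ χ
    rw [uInt_spec, neg_neg]
  obtain ⟨β', hβ'⟩ : ∃ β' : (↥(Subgroup.zpowers σ) →* ℂˣ) → IrrCharacter G,
      ∀ (ψ : ↥(Subgroup.zpowers σ) →* ℂˣ) (hψ : ψ ≠ 1), β' ψ = β ⟨ψ, hψ⟩ :=
    ⟨fun ψ => if hψ : ψ ≠ 1 then β ⟨ψ, hψ⟩ else triv G, fun ψ hψ => dif_pos hψ⟩
  have hsub : ∀ (ψ : ↥(Subgroup.zpowers σ) →* ℂˣ) (hψ : ψ ≠ 1), ψ ≠ ψ₀ →
      (⟨ψ, hψ⟩ : Psi σ) ≠ ⟨ψ₀, hψ₀⟩ := fun ψ hψ hne e => hne (congrArg Subtype.val e)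
  refine ⟨χ₁, χ₂, χ₃, s, ε₂, ε₃, β', hs, hε₂, hε₃, (mem_B0 M _).mp m1, (mem_B0 M _).mp m2,
    (mem_B0 M _).mp m3, n1, n2, n3, d12, d13, d23, ?_, ?_, ?_, ?_, ?_, ?_, ?_, ?_, ?_, ?_⟩
  · intro ψ h1 h2
    rw [hβ' ψ h1]
    have h3 := hβ ⟨ψ, h1⟩ (hsub ψ h1 h2)
    exact ⟨(mem_B0 M _).mp h3.1, h3.2⟩
  · intro ψ ψ' h1 h2 h1' h2'
    rw [hβ' ψ h1, hβ' ψ' h1', hβiff ⟨ψ, h1⟩ ⟨ψ', h1'⟩ (hsub ψ h1 h2) (hsub ψ' h1' h2')]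
    constructor
    · rintro (e | e)
      · exact Or.inl (congrArg Subtype.val e)
      · exact Or.inr (congrArg Subtype.val e)
    · rintro (e | e)
      · exact Or.inl (Subtype.ext e)
      · exact Or.inr (Subtype.ext e)
  · intro χ hχ
    rcases hall χ ((mem_B0 M χ).mpr hχ) with e | e | e | e | ⟨ψ, hψ, e⟩
    · exact Or.inl e
    · exact Or.inr (Or.inl e)
    · exact Or.inr (Or.inr (Or.inl e))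
    · exact Or.inr (Or.inr (Or.inr (Or.inl e)))
    · refine Or.inr (Or.inr (Or.inr (Or.inr ⟨ψ.1, ψ.2, fun e' => hψ (Subtype.ext e'), ?_⟩)))
      rw [hβ' ψ.1 ψ.2]
      exact e
  · intro ψ hψ
    rw [hdc ψ hψ, hu1]
  · rw [hdc ψ₀ hψ₀, hu2]
  · intro ψ hψ
    by_cases h1 : ψ = 1
    · rw [h1, dc_one]
    · rw [hdc ψ h1, hu2' ⟨ψ, h1⟩ (hsub ψ h1 hψ), Int.cast_zero, neg_zero]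
  · rw [hdc ψ₀ hψ₀, hu3]
  · intro ψ hψ
    by_cases h1 : ψ = 1
    · rw [h1, dc_one]
    · rw [hdc ψ h1, hu3' ⟨ψ, h1⟩ (hsub ψ h1 hψ), Int.cast_zero, neg_zero]
  · intro ψ' h1 h2
    rw [hβ' ψ' h1]
    constructor
    · rw [hdc ψ' h1, huβ ⟨ψ', h1⟩ ⟨ψ', h1⟩ (hsub ψ' h1 h2), if_pos (Or.inl rfl), Int.cast_neg,
        neg_neg]
    · have e : (⟨ψ'⁻¹, inv_ne_one' ψ' h1⟩ : Psi σ) = pinv σ ⟨ψ', h1⟩ := rfl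
      rw [hdc ψ'⁻¹ (inv_ne_one' ψ' h1), huβ ⟨ψ'⁻¹, inv_ne_one' ψ' h1⟩ ⟨ψ', h1⟩ (hsub ψ' h1 h2),
        if_pos (Or.inr e), Int.cast_neg, neg_neg]
  · intro ψ ψ' h1 h2 h3 h4
    rw [hβ' ψ' h1]
    by_cases hψ : ψ = 1
    · rw [hψ, dc_one]
    · rw [hdc ψ hψ, huβ ⟨ψ, hψ⟩ ⟨ψ', h1⟩ (hsub ψ' h1 h2),
        if_neg (not_or.mpr ⟨fun e => h3 (congrArg Subtype.val e),
          fun e => h4 (congrArg Subtype.val e)⟩), Int.cast_zero, neg_zero]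

end Cfsg.Agent.Lib.Helper77.DihProfile
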