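import Cfsg.Agent.Lib.Helper77.DihCol
import Cfsg.Agent.Lib.Helper77.DihHom
import Cfsg.Agent.Lib.Helper77.DihLat4

/-!
# Dihedral Sylow 2-subgroups: the integral columns and the lattice hypotheses
-/

set_option autoImplicit false

namespace Cfsg.Agent.Lib.Helper77.DihU

open Cfsg Cfsg.Agent.Lib.CT.Wedderburn Cfsg.Agent.Lib.Helper77.DihG
  Cfsg.Agent.Lib.Helper80.AbSylowCh Cfsg.Agent.Lib.Helper77.DihHom
  Cfsg.Agent.Lib.Helper77.DihCol Cfsg.Agent.Lib.CT.ThirdMain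

open scoped ComplexConjugate

universe u
variable {G : Type u} [Group G]

theorem conj_dc [Finite G] (R : Subgroup G) (χ : IrrCharacter G) (ψ : ↥R →* ℂˣ) :
    conj (dc R (χ : G → ℂ) ψ) = dc R (χ : G → ℂ) ψ := by
  obtain ⟨D, hD⟩ := dc_int R (isCharacter_of_irr χ.2) ψ
  rw [hD, map_intCast]

/-- The principal block as a finset. -/
noncomputable def B0 (G : Type u) [Group G] [Finite G] (M : Ideal AlgInt) :
    Finset (IrrCharacter G) :=
  haveI := finite_irrCharacter G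
  (Set.toFinite (principalBlock M G)).toFinset

theorem mem_B0 [Finite G] (M : Ideal AlgInt) (χ : IrrCharacter G) :
    χ ∈ B0 G M ↔ χ ∈ principalBlock M G := by
  unfold B0
  exact Set.Finite.mem_toFinset _

theorem sum_B0 [Finite G] (M : Ideal AlgInt) {A : Type*} [AddCommMonoid A]
    (f : IrrCharacter G → A) :
    ∑ χ ∈ B0 G M, f χ = ∑ᶠ χ ∈ principalBlock M G, f χ := by
  unfold B0
  exact (finsum_mem_eq_finite_toFinset_sum f _).symm

/-- The non-principal linear characters of `⟨σ⟩`. -/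
abbrev Psi (σ : G) : Type u := {ψ : ↥(Subgroup.zpowers σ) →* ℂˣ // ψ ≠ 1}

/-- Inversion on `Psi σ`. -/
noncomputable def pinv (σ : G) (ψ : Psi σ) : Psi σ := ⟨ψ.1⁻¹, inv_ne_one' ψ.1 ψ.2⟩

/-- The integers `-⟨χ|_R, ψ - 1⟩`. -/
noncomputable def uInt [Finite G] (σ : G) (ψ : Psi σ) (χ : IrrCharacter G) : ℤ :=
  -(Classical.choose (dc_int (Subgroup.zpowers σ) (isCharacter_of_irr χ.2) ψ.1))

theorem uInt_spec [Finite G] (σ : G) (ψ : Psi σ) (χ : IrrCharacter G) :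
    ((uInt σ ψ χ : ℤ) : ℂ) = -dc (Subgroup.zpowers σ) (χ : G → ℂ) ψ.1 := by
  unfold uInt
  rw [Int.cast_neg,
    ← Classical.choose_spec (dc_int (Subgroup.zpowers σ) (isCharacter_of_irr χ.2) ψ.1)]

theorem uInt_inv [Finite G] {P : Subgroup G} {σ : G} {h : ℕ} (D : DihData P σ h) (ψ : Psi σ)
    (χ : IrrCharacter G) : uInt σ (pinv σ ψ) χ = uInt σ ψ χ := by
  apply Int.cast_injective (α := ℂ)
  rw [uInt_spec, uInt_spec]
  show -dc (Subgroup.zpowers σ) (χ : G → ℂ) ψ.1⁻¹ = _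
  rw [dc_inv D χ ψ.1]

theorem uInt_one [Finite G] (σ : G) (ψ : Psi σ) : uInt σ ψ (triv G) = 1 := by
  apply Int.cast_injective (α := ℂ)
  rw [uInt_spec, coe_triv, dc_triv (Subgroup.zpowers σ) ψ.1 ψ.2, neg_neg, Int.cast_one]

theorem uInt_gram [Finite G] (M : Ideal AlgInt) (hM : IsPModular 2 M) (P : Sylow 2 G) {σ : G}
    {h : ℕ} (D : DihData (P : Subgroup G) σ h) [DecidableEq (Psi σ)] (ψ ψ' : Psi σ) :
    ∑ χ ∈ B0 G M, uInt σ ψ χ * uInt σ ψ' χ =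
      2 + (if ψ = ψ' then 1 else 0) + (if ψ' = pinv σ ψ then 1 else 0) := by
  classical
  have key := gram M hM P D ψ.1 ψ'.1 ψ.2 ψ'.2
  have e : ∀ χ : IrrCharacter G, ((uInt σ ψ χ * uInt σ ψ' χ : ℤ) : ℂ) =
      dc (Subgroup.zpowers σ) (χ : G → ℂ) ψ.1 *
        conj (dc (Subgroup.zpowers σ) (χ : G → ℂ) ψ'.1) := by
    intro χ
    rw [Int.cast_mul, uInt_spec, uInt_spec, conj_dc]
    ring
  apply Int.cast_injective (α := ℂ)
  rw [Int.cast_sum, Finset.sum_congr rfl (fun χ _ => e χ), sum_B0, key]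
  have c1 : ψ.1 = ψ'.1 ↔ ψ = ψ' := Subtype.ext_iff.symm
  have c2 : ψ'.1 = ψ.1⁻¹ ↔ ψ' = pinv σ ψ :=
    ⟨fun e => Subtype.ext e, fun e => congrArg Subtype.val e⟩
  by_cases h1 : ψ = ψ'
  · by_cases h2 : ψ' = pinv σ ψ
    · rw [if_pos h1, if_pos h2, if_pos (c1.mpr h1), if_pos (c2.mpr h2)]
      norm_num
    · rw [if_pos h1, if_neg h2, if_pos (c1.mpr h1), if_neg (fun e => h2 (c2.mp e))]
      norm_num
  · by_cases h2 : ψ' = pinv σ ψ
    · rw [if_neg h1, if_pos h2, if_neg (fun e => h1 (c1.mp e)), if_pos (c2.mpr h2)]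
      norm_num
    · rw [if_neg h1, if_neg h2, if_neg (fun e => h1 (c1.mp e)), if_neg (fun e => h2 (c2.mp e))]
      norm_num

/-- The integral columns are orthogonal to the columns of the elements of odd order. -/
theorem uInt_orth [Finite G] (M : Ideal AlgInt) (hM : IsPModular 2 M) (P : Sylow 2 G) {σ : G}
    {h : ℕ} (D : DihData (P : Subgroup G) σ h) (ψ : Psi σ) (ρ : G) (hρ : ¬ 2 ∣ orderOf ρ) :
    ∑ χ ∈ B0 G M, ((uInt σ ψ χ : ℤ) : ℂ) * (χ : G → ℂ) ρ = 0 := by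
  haveI : Fact (Nat.Prime 2) := ⟨Nat.prime_two⟩
  have hR2 : IsPGroup 2 ↥(Subgroup.zpowers σ) := P.2.to_le D.R_le
  have key := orth_reg 2 M hM (Subgroup.zpowers σ) hR2 ψ.1 ρ hρ
  rw [← sum_B0] at key
  have e : ∀ χ : IrrCharacter G, ((uInt σ ψ χ : ℤ) : ℂ) * (χ : G → ℂ) ρ =
      -((χ : G → ℂ) ρ * conj (dc (Subgroup.zpowers σ) (χ : G → ℂ) ψ.1)) := by
    intro χ
    rw [uInt_spec, conj_dc]
    ring
  rw [Finset.sum_congr rfl (fun χ _ => e χ), Finset.sum_neg_distrib, key, neg_zero]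

theorem uInt_deg [Finite G] (M : Ideal AlgInt) (hM : IsPModular 2 M) (P : Sylow 2 G) {σ : G}
    {h : ℕ} (D : DihData (P : Subgroup G) σ h) (ψ : Psi σ) :
    ∑ χ ∈ B0 G M, uInt σ ψ χ * (charDegree (χ : G → ℂ) : ℤ) = 0 := by
  have key := uInt_orth M hM P D ψ 1 (by rw [orderOf_one]; norm_num)
  apply Int.cast_injective (α := ℂ)
  rw [Int.cast_sum, Int.cast_zero, ← key]
  refine Finset.sum_congr rfl fun χ _ => ?_
  rw [Int.cast_mul, Int.cast_natCast, char_natCast_charDegree (isCharacter_of_irr χ.2)]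

theorem J_ne_one {P : Subgroup G} {σ : G} {h : ℕ} (D : DihData P σ h) : σ ^ h ≠ 1 := by
  intro e
  have h1 := D.orderOf_J
  rw [e, orderOf_one] at h1
  norm_num at h1

theorem uInt_nz [Finite G] (M : Ideal AlgInt) (hM : IsPModular 2 M) (P : Sylow 2 G) {σ : G}
    {h : ℕ} (D : DihData (P : Subgroup G) σ h) (χ : IrrCharacter G) (hχ : χ ∈ B0 G M) :
    ∃ ψ : Psi σ, uInt σ ψ χ ≠ 0 := by
  classical
  by_contra hc
  have hall : ∀ ψ : Psi σ, uInt σ ψ χ = 0 := fun ψ => by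
    by_contra h1
    exact hc ⟨ψ, h1⟩
  have hdc : ∀ ψ : ↥(Subgroup.zpowers σ) →* ℂˣ,
      dc (Subgroup.zpowers σ) (χ : G → ℂ) ψ = 0 := by
    intro ψ
    by_cases hψ : ψ = 1
    · rw [hψ, dc_one]
    · have h1 := uInt_spec σ ⟨ψ, hψ⟩ χ
      rw [hall, Int.cast_zero] at h1
      exact neg_eq_zero.mp h1.symm
  haveI := finite_hom' σ
  let _ : Fintype (↥(Subgroup.zpowers σ) →* ℂˣ) := Fintype.ofFinite _
  have hJ1 : (⟨σ ^ h, DihData.J_mem σ h⟩ : ↥(Subgroup.zpowers σ)) ≠ 1 := fun e =>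
    J_ne_one D (congrArg Subtype.val e)
  have h2 := sum_dc_mul (Subgroup.zpowers σ) (comm_zpowers σ) (χ : G → ℂ) _ hJ1
  have h3 : (χ : G → ℂ) (σ ^ h) = 0 := by
    rw [← h2]
    exact Finset.sum_eq_zero fun ψ _ => by rw [hdc ψ, zero_mul]
  exact Cfsg.Agent.Lib.Helper75.KleinFour2.value_ne_zero M hM P (σ ^ h)
    (Cfsg.Agent.Lib.Helper77.DihG4.P_le_centralizer_J D) χ ((mem_B0 M χ).mp hχ) h3

open Classical in
/-- The hypotheses of the lattice lemma. -/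
theorem hyp [Finite G] (M : Ideal AlgInt) (hM : IsPModular 2 M) (P : Sylow 2 G) {σ : G}
    {h : ℕ} (D : DihData (P : Subgroup G) σ h) (hh : h = 2 ∨ 4 ≤ h)
    (ψ₀ : ↥(Subgroup.zpowers σ) →* ℂˣ) (h0 : ψ₀ (gen σ) = -1) :
    Cfsg.Agent.Lib.Helper77.DihLat2.Hyp (B0 G M) (triv G) (pinv σ)
      (⟨ψ₀, psi0_ne_one ψ₀ h0⟩ : Psi σ) (uInt σ)
      (fun χ : IrrCharacter G => (charDegree (χ : G → ℂ) : ℤ)) := by
  have hMp := Cfsg.Agent.Lib.Helper77.LocalRing.isPrime_of_isPModular hM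
  have ho1 : 2 < orderOf σ := by
    rw [D.ord]
    have := D.two_le
    omega
  have ho2 : orderOf σ = 4 ∨ 6 < orderOf σ := by
    rw [D.ord]
    rcases hh with hh | hh
    · left; omega
    · right; omega
  refine
    { one_mem := (mem_B0 M _).mpr (triv_mem_principalBlock hMp)
      inv_inv := fun ψ => Subtype.ext (inv_inv' ψ.1)
      inv_zero := Subtype.ext (psi0_inv ψ₀ h0)
      u_inv := fun ψ χ => uInt_inv D ψ χ
      u_one := fun ψ => uInt_one σ ψ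
      gram := fun ψ ψ' => uInt_gram M hM P D ψ ψ'
      deg := fun ψ => uInt_deg M hM P D ψ
      dpos := fun χ _ => Int.natCast_pos.mpr (irr_charDegree_pos χ.2)
      done := ?_
      nz := fun χ hχ => uInt_nz M hM P D χ hχ
      ex := ?_
      inv_ne := ?_
      three := ?_ }
  · have h1 := char_natCast_charDegree (isCharacter_of_irr (triv G).2)
    rw [coe_triv] at h1
    have h1' : ((charDegree (fun _ : G => (1 : ℂ)) : ℕ) : ℂ) = 1 := h1
    have h2 : charDegree (fun _ : G => (1 : ℂ)) = 1 := by exact_mod_cast h1'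
    show ((charDegree (fun _ : G => (1 : ℂ)) : ℕ) : ℤ) = 1
    rw [h2]
    rfl
  · obtain ⟨ψ, h1, h2⟩ := exists_ne σ ho1 ψ₀
    exact ⟨⟨ψ, h1⟩, fun e => h2 (congrArg Subtype.val e)⟩
  · intro ψ hψ e
    exact inv_ne_self ψ₀ h0 ψ.1 ψ.2 (fun e' => hψ (Subtype.ext e')) (congrArg Subtype.val e)
  · intro ψ ψ' h1 h2 h3 h4
    obtain ⟨ψ'', a1, a2, a3, a4, a5, a6⟩ := exists_third σ ho2 ψ₀ h0 ψ.1 ψ'.1 ψ.2
      (fun e' => h1 (Subtype.ext e')) ψ'.2 (fun e' => h2 (Subtype.ext e'))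
      (fun e' => h3 (Subtype.ext e')) (fun e' => h4 (Subtype.ext e'))
    exact ⟨⟨ψ'', a1⟩, fun e => a2 (congrArg Subtype.val e), fun e => a3 (congrArg Subtype.val e),
      fun e => a4 (congrArg Subtype.val e), fun e => a5 (congrArg Subtype.val e),
      fun e => a6 (congrArg Subtype.val e)⟩

end Cfsg.Agent.Lib.Helper77.DihU
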