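import Cfsg.Agent.Lib.Helper77.DihProfile

/-!
# Dihedral Sylow 2-subgroups: values from the profile
-/

set_option autoImplicit false

namespace Cfsg.Agent.Lib.Helper77.DihVal

open Cfsg Cfsg.Agent.Lib.CT.Wedderburn Cfsg.Agent.Lib.Helper77.DihG
  Cfsg.Agent.Lib.Helper80.AbSylowCh Cfsg.Agent.Lib.Helper77.DihHom
  Cfsg.Agent.Lib.Helper77.DihCol Cfsg.Agent.Lib.CT.ThirdMain Cfsg.Agent.Lib.Helper77.DihU

open scoped ComplexConjugate

universe u
variable {G : Type u} [Group G]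

/-- A function whose numbers `⟨f, ψ - 1⟩` are all equal to `c` is constant `-c` on `⟨σ⟩ \ 1`. -/
theorem val_const [Finite G] (σ : G) (f : G → ℂ) (c : ℂ)
    (hf : ∀ ψ : ↥(Subgroup.zpowers σ) →* ℂˣ, ψ ≠ 1 → dc (Subgroup.zpowers σ) f ψ = c)
    (y : ↥(Subgroup.zpowers σ)) (hy : y ≠ 1) : f (y : G) = -c := by
  classical
  haveI := finite_hom' σ
  let _ : Fintype (↥(Subgroup.zpowers σ) →* ℂˣ) := Fintype.ofFinite _
  rw [← sum_dc_mul (Subgroup.zpowers σ) (comm_zpowers σ) f y hy]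
  have e : ∀ ψ : ↥(Subgroup.zpowers σ) →* ℂˣ,
      dc (Subgroup.zpowers σ) f ψ * ((ψ y : ℂˣ) : ℂ) =
        c * ((ψ y : ℂˣ) : ℂ) + (if ψ = 1 then -c else 0) := by
    intro ψ
    by_cases hψ : ψ = 1
    · rw [if_pos hψ, hψ, dc_one, MonoidHom.one_apply, Units.val_one]
      ring
    · rw [if_neg hψ, hf ψ hψ, add_zero]
  rw [Finset.sum_congr rfl (fun ψ _ => e ψ), Finset.sum_add_distrib, ← Finset.mul_sum,
    Cfsg.Agent.Lib.Helper25.CyclicTI.sum_hom_sub (Subgroup.zpowers σ) (comm_zpowers σ) y,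
    if_neg hy, mul_zero, zero_add, Finset.sum_ite_eq' Finset.univ (1 : ↥(Subgroup.zpowers σ) →* ℂˣ),
    if_pos (Finset.mem_univ _)]

/-- A function with a single non-zero number `⟨f, ψ₀ - 1⟩`. -/
theorem val_single [Finite G] (σ : G) (f : G → ℂ) (ψ₀ : ↥(Subgroup.zpowers σ) →* ℂˣ)
    (hf : ∀ ψ : ↥(Subgroup.zpowers σ) →* ℂˣ, ψ ≠ ψ₀ → dc (Subgroup.zpowers σ) f ψ = 0)
    (y : ↥(Subgroup.zpowers σ)) (hy : y ≠ 1) :
    f (y : G) = dc (Subgroup.zpowers σ) f ψ₀ * ((ψ₀ y : ℂˣ) : ℂ) := by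
  classical
  haveI := finite_hom' σ
  let _ : Fintype (↥(Subgroup.zpowers σ) →* ℂˣ) := Fintype.ofFinite _
  rw [← sum_dc_mul (Subgroup.zpowers σ) (comm_zpowers σ) f y hy]
  exact Finset.sum_eq_single ψ₀ (fun ψ _ hne => by rw [hf ψ hne, zero_mul])
    (fun hn => absurd (Finset.mem_univ _) hn)

/-- A function with two non-zero numbers `⟨f, ψ' - 1⟩`, `⟨f, ψ'⁻¹ - 1⟩`. -/
theorem val_pair [Finite G] (σ : G) (f : G → ℂ) (ψ' : ↥(Subgroup.zpowers σ) →* ℂˣ)
    (hne : ψ' ≠ ψ'⁻¹)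
    (hf : ∀ ψ : ↥(Subgroup.zpowers σ) →* ℂˣ, ψ ≠ ψ' → ψ ≠ ψ'⁻¹ →
      dc (Subgroup.zpowers σ) f ψ = 0)
    (y : ↥(Subgroup.zpowers σ)) (hy : y ≠ 1) :
    f (y : G) = dc (Subgroup.zpowers σ) f ψ' * ((ψ' y : ℂˣ) : ℂ) +
      dc (Subgroup.zpowers σ) f ψ'⁻¹ * (((ψ' y : ℂˣ) : ℂ))⁻¹ := by
  classical
  haveI := finite_hom' σ
  let _ : Fintype (↥(Subgroup.zpowers σ) →* ℂˣ) := Fintype.ofFinite _
  rw [← sum_dc_mul (Subgroup.zpowers σ) (comm_zpowers σ) f y hy]
  rw [Finset.sum_eq_add ψ' ψ'⁻¹ hne (fun ψ _ hψ => by rw [hf ψ hψ.1 hψ.2, zero_mul])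
    (fun hn => absurd (Finset.mem_univ _) hn) (fun hn => absurd (Finset.mem_univ _) hn),
    MonoidHom.inv_apply, Units.val_inv_eq_inv_val]

/-- A sum over a finset supported on three elements. -/
theorem sum_three' {X : Type*} [DecidableEq X] (B : Finset X) (F : X → ℂ) (a b c : X)
    (ha : a ∈ B) (hb : b ∈ B) (hc : c ∈ B) (hab : a ≠ b) (hac : a ≠ c) (hbc : b ≠ c)
    (h0 : ∀ χ ∈ B, χ ≠ a → χ ≠ b → χ ≠ c → F χ = 0) :
    ∑ χ ∈ B, F χ = F a + F b + F c := by
  have hsub : ({a, b, c} : Finset X) ⊆ B := by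
    intro x hx
    simp only [Finset.mem_insert, Finset.mem_singleton] at hx
    rcases hx with rfl | rfl | rfl
    · exact ha
    · exact hb
    · exact hc
  rw [← Finset.sum_subset hsub (fun χ hχ hn => by
    simp only [Finset.mem_insert, Finset.mem_singleton, not_or] at hn
    exact h0 χ hχ hn.1 hn.2.1 hn.2.2)]
  rw [Finset.sum_insert (by
    simp only [Finset.mem_insert, Finset.mem_singleton, not_or]
    exact ⟨hab, hac⟩), Finset.sum_pair hbc]
  ring

/-- A sum over a finset supported on four elements. -/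
theorem sum_four' {X : Type*} [DecidableEq X] (B : Finset X) (F : X → ℂ) (a b c d : X)
    (ha : a ∈ B) (hb : b ∈ B) (hc : c ∈ B) (hd : d ∈ B) (hab : a ≠ b) (hac : a ≠ c)
    (had : a ≠ d) (hbc : b ≠ c) (hbd : b ≠ d) (hcd : c ≠ d)
    (h0 : ∀ χ ∈ B, χ ≠ a → χ ≠ b → χ ≠ c → χ ≠ d → F χ = 0) :
    ∑ χ ∈ B, F χ = F a + F b + F c + F d := by
  have hsub : ({a, b, c, d} : Finset X) ⊆ B := by
    intro x hx
    simp only [Finset.mem_insert, Finset.mem_singleton] at hx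
    rcases hx with rfl | rfl | rfl | rfl
    · exact ha
    · exact hb
    · exact hc
    · exact hd
  rw [← Finset.sum_subset hsub (fun χ hχ hn => by
    simp only [Finset.mem_insert, Finset.mem_singleton, not_or] at hn
    exact h0 χ hχ hn.1 hn.2.1 hn.2.2.1 hn.2.2.2)]
  rw [Finset.sum_insert (by
    simp only [Finset.mem_insert, Finset.mem_singleton, not_or]
    exact ⟨hab, hac, had⟩), Finset.sum_insert (by
    simp only [Finset.mem_insert, Finset.mem_singleton, not_or]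
    exact ⟨hbc, hbd⟩), Finset.sum_pair hcd]
  ring

/-- Counting a set given by four elements and an injective family. -/
theorem card_five {X : Type*} (a b c d : X) (m : ℕ) (f : Fin m → X)
    (hf : Function.Injective f) (hab : a ≠ b) (hac : a ≠ c) (had : a ≠ d) (hbc : b ≠ c)
    (hbd : b ≠ d) (hcd : c ≠ d) (hfa : ∀ j, f j ≠ a) (hfb : ∀ j, f j ≠ b) (hfc : ∀ j, f j ≠ c)
    (hfd : ∀ j, f j ≠ d) :
    Nat.card ↥{x : X | x = a ∨ x = b ∨ x = c ∨ x = d ∨ ∃ j, x = f j} = 4 + m := by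
  have hset : {x : X | x = a ∨ x = b ∨ x = c ∨ x = d ∨ ∃ j, x = f j} =
      insert a (insert b (insert c (insert d (f '' Set.univ)))) := by
    ext x
    simp only [Set.mem_setOf_eq, Set.mem_insert_iff, Set.mem_image, Set.mem_univ, true_and]
    constructor
    · rintro (h | h | h | h | ⟨j, h⟩)
      · exact Or.inl h
      · exact Or.inr (Or.inl h)
      · exact Or.inr (Or.inr (Or.inl h))
      · exact Or.inr (Or.inr (Or.inr (Or.inl h)))
      · exact Or.inr (Or.inr (Or.inr (Or.inr ⟨j, h.symm⟩)))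
    · rintro (h | h | h | h | ⟨j, h⟩)
      · exact Or.inl h
      · exact Or.inr (Or.inl h)
      · exact Or.inr (Or.inr (Or.inl h))
      · exact Or.inr (Or.inr (Or.inr (Or.inl h)))
      · exact Or.inr (Or.inr (Or.inr (Or.inr ⟨j, h.symm⟩)))
  have hfin0 : (f '' Set.univ).Finite := Set.toFinite _
  have hfin1 : (insert d (f '' Set.univ)).Finite := hfin0.insert d
  have hfin2 : (insert c (insert d (f '' Set.univ))).Finite := hfin1.insert c
  have hfin3 : (insert b (insert c (insert d (f '' Set.univ)))).Finite := hfin2.insert b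
  have hd : d ∉ f '' Set.univ := by
    rintro ⟨j, -, e⟩
    exact hfd j e
  have hc : c ∉ insert d (f '' Set.univ) := by
    rintro (e | ⟨j, -, e⟩)
    · exact hcd e
    · exact hfc j e
  have hb : b ∉ insert c (insert d (f '' Set.univ)) := by
    rintro (e | e | ⟨j, -, e⟩)
    · exact hbc e
    · exact hbd e
    · exact hfb j e
  have ha : a ∉ insert b (insert c (insert d (f '' Set.univ))) := by
    rintro (e | e | e | ⟨j, -, e⟩)
    · exact hab e
    · exact hac e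
    · exact had e
    · exact hfa j e
  rw [hset, Nat.card_coe_set_eq, Set.ncard_insert_of_notMem ha hfin3,
    Set.ncard_insert_of_notMem hb hfin2, Set.ncard_insert_of_notMem hc hfin1,
    Set.ncard_insert_of_notMem hd hfin0, Set.ncard_image_of_injective _ hf, Set.ncard_univ,
    Nat.card_fin]
  omega

end Cfsg.Agent.Lib.Helper77.DihVal
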