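import Mathlib
import Cfsg.Agent.Lib.Helper68.FixStmt

set_option maxHeartbeats 400000

namespace Cfsg.Agent.Lib.Helper77.FixINDEP

universe u v

/-- Nonzero common eigenvectors of a family of operators with pairwise different characters are
linearly independent. -/
theorem indep_core {k : Type*} [Field k] {S : Type*} [Group S] {M : Type*} [AddCommGroup M]
    [Module k M] (ρ : Representation k S M) (V : Subgroup S) {ι : Type*} (f : ι → M)
    (χ : ι → S → k) (hne : ∀ i, f i ≠ 0) (heig : ∀ i, ∀ v ∈ V, ρ v (f i) = χ i v • f i)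
    (hdist : ∀ i j, i ≠ j → ∃ v ∈ V, χ i v ≠ χ j v) : LinearIndependent k f := by
  classical
  rw [linearIndependent_iff']
  intro s
  induction s using Finset.induction_on with
  | empty => intro g _ i hi; simp at hi
  | insert a t hat ih =>
    intro g hg
    rw [Finset.sum_insert hat] at hg
    have key : ∀ i ∈ t, g i = 0 := by
      intro i hi
      have hia : i ≠ a := fun h => hat (h ▸ hi)
      obtain ⟨v, hv, hvne⟩ := hdist i a hia
      have h1 : ρ v (g a • f a + ∑ j ∈ t, g j • f j) = 0 := by rw [hg, map_zero]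
      rw [map_add, map_smul, map_sum, heig a v hv] at h1
      have h2 : ∑ j ∈ t, (g j * (χ j v - χ a v)) • f j = 0 := by
        have h3 : ∑ j ∈ t, (g j * (χ j v - χ a v)) • f j
            = (g a • χ a v • f a + ∑ j ∈ t, ρ v (g j • f j))
              - χ a v • (g a • f a + ∑ j ∈ t, g j • f j) := by
          rw [smul_add, Finset.smul_sum, add_sub_add_comm, smul_comm (g a) (χ a v) (f a),
            sub_self, zero_add, ← Finset.sum_sub_distrib]
          apply Finset.sum_congr rfl
          intro j hj
          rw [map_smul, heig j v hv, smul_smul, smul_smul, ← sub_smul]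
          congr 1
          ring
        rw [h3, h1, hg, smul_zero, sub_zero]
      have h4 := ih _ h2 i hi
      rcases mul_eq_zero.mp h4 with h | h
      · exact h
      · exact absurd (sub_eq_zero.mp h) hvne
    intro i hi
    rcases Finset.mem_insert.mp hi with rfl | hi
    · have h5 : ∑ j ∈ t, g j • f j = 0 :=
        Finset.sum_eq_zero (fun j hj => by rw [key j hj, zero_smul])
      rw [h5, add_zero] at hg
      exact (smul_eq_zero.mp hg).resolve_right (hne _)
    · exact key i hi

theorem main : Cfsg.Agent.Lib.Helper68.FixStmt.INDEP.{u, v} := by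
  intro k _ S _ _ M _ _ ρ V H lam w0 hVn hw0 heig hfix
  classical
  let hh : {m : M // ∃ h ∈ H, ρ h w0 = m} → S := fun b => b.2.choose
  have hhH : ∀ b, hh b ∈ H := fun b => b.2.choose_spec.1
  have hhb : ∀ b : {m : M // ∃ h ∈ H, ρ h w0 = m}, ρ (hh b) w0 = (b : M) :=
    fun b => b.2.choose_spec.2
  apply indep_core ρ V (fun b : {m : M // ∃ h ∈ H, ρ h w0 = m} => (b : M))
    (fun b v => lam ((hh b)⁻¹ * v * hh b))
  · intro b hb
    apply hw0
    have h1 : ρ (hh b)⁻¹ (ρ (hh b) w0) = w0 := by
      rw [← Module.End.mul_apply, ← map_mul, inv_mul_cancel, map_one, Module.End.one_apply]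
    rw [← h1, hhb b, hb, map_zero]
  · intro b v hv
    have hc : (hh b)⁻¹ * v * hh b ∈ V := by
      have h1 := hVn.conj_mem v hv (hh b)⁻¹
      simpa using h1
    show ρ v (b : M) = lam ((hh b)⁻¹ * v * hh b) • (b : M)
    rw [← hhb b, ← map_smul, ← heig _ hc, ← Module.End.mul_apply, ← Module.End.mul_apply,
      ← map_mul, ← map_mul]
    congr 2
    group
  · intro b b' hbb'
    by_contra hcon
    push_neg at hcon
    apply hbb'
    have hg : ρ ((hh b)⁻¹ * hh b') w0 = w0 := by
      apply hfix _ (H.mul_mem (H.inv_mem (hhH b)) (hhH b'))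
      intro v hv
      have hc : hh b * v * (hh b)⁻¹ ∈ V := hVn.conj_mem v hv (hh b)
      have h1 := hcon _ hc
      have e1 : (hh b)⁻¹ * (hh b * v * (hh b)⁻¹) * hh b = v := by group
      have e2 : (hh b')⁻¹ * (hh b * v * (hh b)⁻¹) * hh b'
          = ((hh b)⁻¹ * hh b')⁻¹ * v * ((hh b)⁻¹ * hh b') := by group
      rw [e1, e2] at h1
      exact h1.symm
    apply Subtype.ext
    rw [← hhb b, ← hhb b']
    conv_lhs => rw [← hg]
    rw [← Module.End.mul_apply, ← map_mul]
    congr 2
    group

end Cfsg.Agent.Lib.Helper77.FixINDEP
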