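import Mathlib
import Cfsg.Agent.Lib.Helper45.GMStmt
import Cfsg.Agent.Lib.Helper77.GMCharpoly

set_option autoImplicit false

namespace Cfsg.Agent.Lib.Helper77.GML4

universe u

theorem main : Cfsg.Agent.Lib.Helper45.GMStmt.DetAnti.{u} := by
  intro F _ ι _ _ M N n h2 hcard hM hN hNM
  exact Cfsg.Agent.Lib.Helper77.GMCharpoly.det_of_anticommute M N n h2 hcard hM hN hNM

end Cfsg.Agent.Lib.Helper77.GML4
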