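import Mathlib
import Cfsg.Agent.Lib.Helper60.HJStmt

set_option autoImplicit false
set_option maxHeartbeats 400000

namespace Cfsg.Agent.Lib.Helper77.HJESA

universe u

open Cfsg.Agent.Lib.Helper60.HJStmt

section
variable {E : Type u} [Group E] [Fintype E] [DecidableEq E]

/-- the sign of the square -/
def sg (q : E) : ℤ := if q * q = 1 then 1 else -1

/-- the sign of the commutator -/
def ch (a c : E) : ℤ := if a * c = c * a then 1 else -1

theorem sg_eq_one_iff (q : E) : sg q = 1 ↔ q * q = 1 := by
  unfold sg; split_ifs with h <;> simp [h]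

theorem ch_of_ne {a c : E} (h : ¬ a * c = c * a) : ch a c = -1 := by
  unfold ch; rw [if_neg h]

theorem sg_mul (z : E) (hz1 : z ≠ 1) (hzz : z * z = 1) (hzc : ∀ q : E, z * q = q * z)
    (hsq : ∀ q : E, q * q = 1 ∨ q * q = z) (hcomm : ∀ a b : E, a * b = b * a ∨ a * b = z * (b * a))
    (a c : E) : sg (a * c) = sg a * sg c * ch a c := by
  unfold sg ch
  by_cases hac : a * c = c * a
  · have h1 : (a * c) * (a * c) = (a * a) * (c * c) := by
      calc (a * c) * (a * c) = a * (c * a) * c := by group
        _ = a * (a * c) * c := by rw [hac]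
        _ = (a * a) * (c * c) := by group
    rw [h1, if_pos hac]
    rcases hsq a with ha | ha <;> rcases hsq c with hc | hc <;> simp [ha, hc, hz1, hzz]
  · have hac' : a * c = z * (c * a) := (hcomm a c).resolve_left hac
    have hca : c * a = z * (a * c) := by
      rw [hac', ← mul_assoc, hzz, one_mul]
    have h1 : (a * c) * (a * c) = z * ((a * a) * (c * c)) := by
      calc (a * c) * (a * c) = a * (c * a) * c := by group
        _ = a * (z * (a * c)) * c := by rw [← hca]
        _ = (a * z) * a * c * c := by group
        _ = (z * a) * a * c * c := by rw [hzc a]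
        _ = z * ((a * a) * (c * c)) := by group
    rw [h1, if_neg hac]
    rcases hsq a with ha | ha <;> rcases hsq c with hc | hc <;> simp [ha, hc, hz1, hzz]

theorem sum_ch_of_noncentral (z : E) (hzz : z * z = 1) (hzc : ∀ q : E, z * q = q * z)
    (hcomm : ∀ a b : E, a * b = b * a ∨ a * b = z * (b * a)) (c q0 : E)
    (hq0 : q0 * c ≠ c * q0) : ∑ a : E, ch a c = 0 := by
  have key : ∀ a : E, ch (a * q0) c = - ch a c := by
    intro a
    unfold ch
    by_cases hac : a * c = c * a
    · have hn : ¬ (a * q0 * c = c * (a * q0)) := by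
        intro h
        apply hq0
        have h' : a * (q0 * c) = a * (c * q0) := by
          calc a * (q0 * c) = a * q0 * c := by group
            _ = c * (a * q0) := h
            _ = (c * a) * q0 := by group
            _ = (a * c) * q0 := by rw [hac]
            _ = a * (c * q0) := by group
        exact mul_left_cancel h'
      rw [if_neg hn, if_pos hac]
    · have h1 : a * c = z * (c * a) := (hcomm a c).resolve_left hac
      have h2 : q0 * c = z * (c * q0) := (hcomm q0 c).resolve_left hq0
      have hy : a * q0 * c = c * (a * q0) := by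
        calc a * q0 * c = a * (q0 * c) := by group
          _ = a * (z * (c * q0)) := by rw [h2]
          _ = (a * z) * c * q0 := by group
          _ = (z * a) * c * q0 := by rw [hzc a]
          _ = z * (a * c) * q0 := by group
          _ = z * (z * (c * a)) * q0 := by rw [← h1]
          _ = (z * z) * (c * a) * q0 := by group
          _ = c * (a * q0) := by rw [hzz]; group
      rw [if_pos hy, if_neg hac]; simp
  have h2 : ∑ a : E, ch (a * q0) c = ∑ a : E, ch a c :=
    Equiv.sum_comp (Equiv.mulRight q0) (fun a => ch a c)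
  have h3 : ∑ a : E, ch (a * q0) c = - ∑ a : E, ch a c := by
    rw [← Finset.sum_neg_distrib]
    exact Finset.sum_congr rfl (fun a _ => key a)
  linarith

theorem sum_sg (hE : Fintype.card E = 32) :
    ∑ q : E, sg q = 2 * ((Finset.univ.filter (fun q : E => q * q = 1)).card : ℤ) - 32 := by
  unfold sg
  rw [Finset.sum_ite, Finset.sum_const, Finset.sum_const]
  have h2 := Finset.card_filter_add_card_filter_not (s := (Finset.univ : Finset E))
    (fun q : E => q * q = 1)
  rw [Finset.card_univ, hE] at h2
  simp only [nsmul_eq_mul, mul_one, mul_neg]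
  omega

theorem sum_sg_sq (z : E) (hE : Fintype.card E = 32) (hz1 : z ≠ 1) (hzz : z * z = 1)
    (hzc : ∀ q : E, z * q = q * z)
    (hsq : ∀ q : E, q * q = 1 ∨ q * q = z) (hcomm : ∀ a b : E, a * b = b * a ∨ a * b = z * (b * a))
    (hcen : ∀ c : E, (∀ q : E, c * q = q * c) → c = 1 ∨ c = z) :
    (∑ q : E, sg q) * (∑ q : E, sg q) = 64 := by
  have h1 : (∑ a : E, sg a) * (∑ b : E, sg b) = ∑ a : E, ∑ c : E, sg a * sg (a * c) := by
    rw [Finset.sum_mul]
    refine Finset.sum_congr rfl (fun a _ => ?_)
    rw [Finset.mul_sum]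
    exact (Equiv.sum_comp (Equiv.mulLeft a) (fun b => sg a * sg b)).symm
  have h2 : ∀ a c : E, sg a * sg (a * c) = sg c * ch a c := by
    intro a c
    rw [sg_mul z hz1 hzz hzc hsq hcomm]
    have hsa : sg a * sg a = 1 := by unfold sg; split_ifs <;> simp
    calc sg a * (sg a * sg c * ch a c) = (sg a * sg a) * (sg c * ch a c) := by ring
      _ = sg c * ch a c := by rw [hsa, one_mul]
  have h3 : ∑ a : E, ∑ c : E, sg a * sg (a * c) = ∑ c : E, sg c * ∑ a : E, ch a c := by
    rw [Finset.sum_comm]
    refine Finset.sum_congr rfl (fun c _ => ?_)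
    rw [Finset.mul_sum]
    exact Finset.sum_congr rfl (fun a _ => h2 a c)
  have h4 : ∀ c : E, sg c * ∑ a : E, ch a c = if c = 1 ∨ c = z then 32 else 0 := by
    intro c
    by_cases hc : c = 1 ∨ c = z
    · rw [if_pos hc]
      have hcc : ∀ a : E, a * c = c * a := by
        rcases hc with rfl | rfl
        · intro a; simp
        · intro a; exact (hzc a).symm
      have hs : sg c = 1 := by
        rw [sg_eq_one_iff]
        rcases hc with rfl | rfl
        · simp
        · exact hzz
      have hsum : ∑ a : E, ch a c = 32 := by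
        have : ∀ a : E, ch a c = 1 := fun a => by unfold ch; rw [if_pos (hcc a)]
        rw [Finset.sum_congr rfl (fun a _ => this a), Finset.sum_const, Finset.card_univ, hE]
        simp
      rw [hs, hsum]; norm_num
    · rw [if_neg hc]
      have hnc : ¬ ∀ q : E, c * q = q * c := fun h => hc (hcen c h)
      push_neg at hnc
      obtain ⟨q0, hq0⟩ := hnc
      rw [sum_ch_of_noncentral z hzz hzc hcomm c q0 (fun h => hq0 h.symm), mul_zero]
  rw [h1, h3, Finset.sum_congr rfl (fun c _ => h4 c)]
  have h5 : (Finset.univ.filter (fun c : E => c = 1 ∨ c = z)) = {1, z} := by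
    ext c; simp
  rw [Finset.sum_ite, Finset.sum_const, Finset.sum_const_zero, h5, Finset.card_pair (Ne.symm hz1)]
  norm_num

theorem card_noncomm (z : E) (hE : Fintype.card E = 32) (hzz : z * z = 1)
    (hzc : ∀ q : E, z * q = q * z)
    (hcomm : ∀ a b : E, a * b = b * a ∨ a * b = z * (b * a)) (c q0 : E)
    (hq0 : q0 * c ≠ c * q0) :
    (Finset.univ.filter (fun q : E => ¬ q * c = c * q)).card = 16 := by
  have h := sum_ch_of_noncentral z hzz hzc hcomm c q0 hq0
  unfold ch at h
  rw [Finset.sum_ite, Finset.sum_const, Finset.sum_const] at h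
  have h2 := Finset.card_filter_add_card_filter_not (s := (Finset.univ : Finset E))
    (fun q : E => q * c = c * q)
  rw [Finset.card_univ, hE] at h2
  simp only [nsmul_eq_mul, mul_one, mul_neg] at h
  omega

theorem card_swap (z : E) (hz1 : z ≠ 1) (hzz : z * z = 1) (hzc : ∀ q : E, z * q = q * z)
    (hsq : ∀ q : E, q * q = 1 ∨ q * q = z) (hcomm : ∀ a b : E, a * b = b * a ∨ a * b = z * (b * a))
    (x : E) (hx : x * x = 1) :
    (Finset.univ.filter (fun q : E => ¬ q * x = x * q ∧ q * q = 1)).card =
    (Finset.univ.filter (fun q : E => ¬ q * x = x * q ∧ ¬ q * q = 1)).card := by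
  have hnc : ∀ q : E, ¬ q * x = x * q → ¬ (q * x) * x = x * (q * x) := by
    intro q hq h
    apply hq
    have h1 : q * x * x = q := by rw [mul_assoc, hx, mul_one]
    rw [h1] at h
    calc q * x = x * (q * x) * x := by rw [← h]
      _ = x * q * (x * x) := by group
      _ = x * q := by rw [hx, mul_one]
  have hsx : sg x = 1 := (sg_eq_one_iff x).2 hx
  refine Finset.card_nbij' (fun q => q * x) (fun q => q * x) ?_ ?_ ?_ ?_
  · intro q hq
    simp only [Finset.mem_coe, Finset.mem_filter, Finset.mem_univ, true_and] at hq ⊢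
    refine ⟨hnc q hq.1, ?_⟩
    rw [← sg_eq_one_iff, sg_mul z hz1 hzz hzc hsq hcomm, hsx, ch_of_ne hq.1,
      (sg_eq_one_iff q).2 hq.2]
    norm_num
  · intro q hq
    simp only [Finset.mem_coe, Finset.mem_filter, Finset.mem_univ, true_and] at hq ⊢
    refine ⟨hnc q hq.1, ?_⟩
    rw [← sg_eq_one_iff, sg_mul z hz1 hzz hzc hsq hcomm, hsx, ch_of_ne hq.1]
    have hq2 : sg q = -1 := by unfold sg; rw [if_neg hq.2]
    rw [hq2]; norm_num
  · intro q _; show q * x * x = q; rw [mul_assoc, hx, mul_one]
  · intro q _; show q * x * x = q; rw [mul_assoc, hx, mul_one]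

omit [Group E] in
theorem card_filter_and_add (P Q : E → Prop) [DecidablePred P] [DecidablePred Q] :
    (Finset.univ.filter (fun a : E => P a ∧ Q a)).card +
      (Finset.univ.filter (fun a : E => P a ∧ ¬ Q a)).card = (Finset.univ.filter P).card := by
  rw [← Finset.filter_filter, ← Finset.filter_filter]
  exact Finset.card_filter_add_card_filter_not _

end

theorem main : ESA.{u} := by
  intro E _ _ z hE hz1 hzz hzc hsq hcomm hcen
  classical
  haveI : Fintype E := Fintype.ofFinite E
  have hE' : Fintype.card E = 32 := by rw [← Nat.card_eq_fintype_card]; exact hE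
  have hN : Nat.card {q : E // q * q = 1} = (Finset.univ.filter (fun q : E => q * q = 1)).card := by
    rw [Nat.card_eq_fintype_card, Fintype.card_subtype]
  rw [hN]
  have hS := sum_sg (E := E) hE'
  have hSS := sum_sg_sq z hE' hz1 hzz hzc hsq hcomm hcen
  rw [hS] at hSS
  have hN12 : (Finset.univ.filter (fun q : E => q * q = 1)).card = 12 ∨
      (Finset.univ.filter (fun q : E => q * q = 1)).card = 20 := by
    obtain ⟨N, hNdef⟩ : ∃ N : ℕ, N = (Finset.univ.filter (fun q : E => q * q = 1)).card := ⟨_, rfl⟩
    rw [← hNdef] at hSS ⊢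
    have h4 : 4 * (((N : ℤ) - 20) * ((N : ℤ) - 12)) = 0 := by linear_combination hSS
    have h5 := (mul_eq_zero.mp h4).resolve_left (by norm_num)
    rcases mul_eq_zero.mp h5 with h | h
    · right; omega
    · left; omega
  refine ⟨hN12, ?_⟩
  intro hN12' x w hx hw hxw
  by_contra hcon
  push_neg at hcon
  obtain ⟨hx1, hw1, hxz, hwz, hwx, hwxz⟩ := hcon
  have hxnc : ∃ q0 : E, q0 * x ≠ x * q0 := by
    by_contra h
    push_neg at h
    rcases hcen x (fun q => (h q).symm) with h1 | h1
    · exact hx1 h1
    · exact hxz h1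
  obtain ⟨q0, hq0⟩ := hxnc
  have h16 := card_noncomm z hE' hzz hzc hcomm x q0 hq0
  have hsw := card_swap z hz1 hzz hzc hsq hcomm x hx
  have hsplit1 := card_filter_and_add (fun q : E => ¬ q * x = x * q) (fun q : E => q * q = 1)
  have hsplit2 := card_filter_and_add (fun q : E => q * q = 1) (fun q : E => q * x = x * q)
  have heq : (Finset.univ.filter (fun q : E => q * q = 1 ∧ ¬ q * x = x * q)) =
      (Finset.univ.filter (fun q : E => ¬ q * x = x * q ∧ q * q = 1)) := by
    ext q; simp [and_comm]
  have e1 : x * z ≠ 1 := fun h => hxz (by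
    calc x = x * (z * z) := by rw [hzz, mul_one]
      _ = (x * z) * z := by group
      _ = z := by rw [h, one_mul])
  have e2 : x * z ≠ z := fun h => hx1 (by simpa using h)
  have e3 : x * z ≠ x := fun h => hz1 (by simpa using h)
  have hsub : ({1, z, x, x * z, w} : Finset E) ⊆
      Finset.univ.filter (fun q : E => q * q = 1 ∧ q * x = x * q) := by
    intro q hq
    simp only [Finset.mem_insert, Finset.mem_singleton] at hq
    rw [Finset.mem_filter]
    refine ⟨Finset.mem_univ _, ?_⟩
    rcases hq with rfl | rfl | rfl | rfl | rfl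
    · simp
    · exact ⟨hzz, hzc x⟩
    · exact ⟨hx, rfl⟩
    · constructor
      · calc x * z * (x * z) = x * (z * x) * z := by group
          _ = x * (x * z) * z := by rw [hzc x]
          _ = (x * x) * (z * z) := by group
          _ = 1 := by rw [hx, hzz, one_mul]
      · calc x * z * x = x * (z * x) := by group
          _ = x * (x * z) := by rw [hzc x]
    · exact ⟨hw, hxw.symm⟩
  have hc5 : ({1, z, x, x * z, w} : Finset E).card = 5 := by
    rw [Finset.card_insert_of_notMem, Finset.card_insert_of_notMem, Finset.card_insert_of_notMem,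
      Finset.card_insert_of_notMem, Finset.card_singleton]
    · simp only [Finset.mem_singleton]; exact fun h => hwxz h.symm
    · simp only [Finset.mem_insert, Finset.mem_singleton]
      rintro (h | h)
      · exact e3 h.symm
      · exact hwx h.symm
    · simp only [Finset.mem_insert, Finset.mem_singleton]
      rintro (h | h | h)
      · exact hxz h.symm
      · exact e2 h.symm
      · exact hwz h.symm
    · simp only [Finset.mem_insert, Finset.mem_singleton]
      rintro (h | h | h | h)
      · exact hz1 h.symm
      · exact hx1 h.symm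
      · exact e1 h.symm
      · exact hw1 h.symm
  have h5 := Finset.card_le_card hsub
  rw [hc5] at h5
  rw [heq] at hsplit2
  omega

end Cfsg.Agent.Lib.Helper77.HJESA
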