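import Mathlib
import Cfsg.Agent.Lib.Helper26.J3Stmt

set_option autoImplicit false
set_option maxHeartbeats 400000

namespace Cfsg.Agent.Lib.Helper77.J3ECONJ

open Cfsg.Agent.Lib.Helper26.J3Stmt

universe u

set_option maxRecDepth 1000000 in
theorem D3 : ∀ a b : SL, a ≠ 1 → b ≠ 1 → a * a * a = 1 → b * b * b = 1 →
    ∃ g : SL, g * a * g⁻¹ = b ∨ g * a * g⁻¹ = b⁻¹ := by decide +kernel

theorem main : ECONJ.{u} := by
  intro X _ hH d hdR hd3
  obtain ⟨hfin, hES, hR27, hexp, ⟨e⟩, -, E0, hE0c, hE0e, hE0card⟩ := hH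
  haveI := hfin
  have hRn : (R X).Normal := Cfsg.pCore_normal 3 X
  have h27 : Nat.card (R X) = 27 := hR27
  obtain ⟨e0, he0, he0R⟩ : ∃ e0 ∈ E0, e0 ∉ R X := by
    by_contra hcon
    push Not at hcon
    have hle : E0 ≤ R X := hcon
    have heq : E0 = R X := Subgroup.eq_of_le_of_card_ge hle (by rw [hE0card, h27])
    have hcen : Subgroup.center (R X) = ⊤ := by
      rw [eq_top_iff]
      intro r _
      rw [Subgroup.mem_center_iff]
      intro s
      apply Subtype.ext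
      have hs : (s : X) ∈ E0 := by rw [heq]; exact s.2
      have hr : (r : X) ∈ E0 := by rw [heq]; exact r.2
      have h0 := hE0c.is_comm.comm (⟨s, hs⟩ : E0) ⟨r, hr⟩
      have h1 : (s : X) * (r : X) = (r : X) * (s : X) := congrArg Subtype.val h0
      exact h1
    have h3 : Nat.card (Subgroup.center (R X)) = 3 := hES.2
    rw [hcen, Subgroup.card_top] at h3
    omega
  let π : X →* SL := e.toMonoidHom.comp (QuotientGroup.mk' (R X))
  have hπ1 : ∀ y : X, π y = 1 ↔ y ∈ R X := by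
    intro y
    show e (QuotientGroup.mk' (R X) y) = 1 ↔ _
    rw [MulEquiv.map_eq_one_iff]
    exact QuotientGroup.eq_one_iff y
  have hπs : Function.Surjective π := by
    intro g
    obtain ⟨q, rfl⟩ := e.surjective g
    obtain ⟨y, rfl⟩ := QuotientGroup.mk'_surjective (R X) q
    exact ⟨y, rfl⟩
  have ha1 : π e0 ≠ 1 := fun h => he0R ((hπ1 e0).mp h)
  have hb1 : π d ≠ 1 := fun h => hdR ((hπ1 d).mp h)
  have ha3 : π e0 * π e0 * π e0 = 1 := by
    rw [← map_mul, ← map_mul]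
    have h1 := hE0e e0 he0
    have e' : e0 * e0 * e0 = 1 := by rw [← h1, pow_succ, pow_two]
    rw [e', map_one]
  have hb3 : π d * π d * π d = 1 := by
    rw [← map_mul, ← map_mul, hπ1]
    have e' : d * d * d = d ^ 3 := by rw [pow_succ, pow_two]
    rw [e']; exact hd3
  obtain ⟨g, hg⟩ := D3 _ _ ha1 hb1 ha3 hb3
  obtain ⟨x, rfl⟩ := hπs g
  refine ⟨E0.map (MulAut.conj x).toMonoidHom, ?_, ?_, ?_, ?_⟩
  · refine ⟨⟨fun a b => Subtype.ext ?_⟩⟩
    obtain ⟨a', ha', haa⟩ := Subgroup.mem_map.mp a.2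
    obtain ⟨b', hb', hbb⟩ := Subgroup.mem_map.mp b.2
    show (a : X) * (b : X) = (b : X) * (a : X)
    rw [← haa, ← hbb]
    have h1 : a' * b' = b' * a' :=
      congrArg Subtype.val (hE0c.is_comm.comm (⟨a', ha'⟩ : E0) ⟨b', hb'⟩)
    rw [← map_mul, ← map_mul, h1]
  · intro a ha
    obtain ⟨a', ha', rfl⟩ := Subgroup.mem_map.mp ha
    rw [← map_pow, hE0e a' ha', map_one]
  · rw [Subgroup.card_map_of_injective (MulAut.conj x).injective]
    exact hE0card
  · have hmem : x * e0 * x⁻¹ ∈ E0.map (MulAut.conj x).toMonoidHom := ⟨e0, he0, rfl⟩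
    rcases hg with hg | hg
    · refine ⟨x * e0 * x⁻¹ * d⁻¹, ?_, Or.inl ?_⟩
      · rw [← hπ1, map_mul, map_mul, map_mul, map_inv, map_inv, hg]
        exact mul_inv_cancel _
      · rw [inv_mul_cancel_right]; exact hmem
    · refine ⟨x * e0 * x⁻¹ * d, ?_, Or.inr ?_⟩
      · rw [← hπ1, map_mul, map_mul, map_mul, map_inv, hg]
        exact inv_mul_cancel _
      · rw [mul_inv_cancel_right]; exact hmem

end Cfsg.Agent.Lib.Helper77.J3ECONJ
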