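import Mathlib
import Cfsg.Agent.Lib.Helper26.J3Stmt

set_option autoImplicit false
set_option maxHeartbeats 400000

namespace Cfsg.Agent.Lib.Helper77.J3FAITH

open Cfsg.Agent.Lib.Helper26.J3Stmt

universe u

set_option maxRecDepth 100000 in
theorem D1 : ∀ g : SL, g * g = 1 → g = 1 ∨ g = -1 := by decide +kernel

set_option maxRecDepth 100000 in
theorem D2 : ∀ g : SL, g ≠ 1 → g = -1 ∨ g * g = -1 ∨ ∃ h : SL, g⁻¹ * (h * g * h⁻¹) = -1 ∨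
    (g⁻¹ * (h * g * h⁻¹)) * (g⁻¹ * (h * g * h⁻¹)) = -1 := by decide +kernel

theorem main : FAITH.{u} := by
  intro X _ hH hZ t ht x hx
  obtain ⟨hfin, -, hR27, hexp, ⟨e⟩, -, -⟩ := hH
  haveI := hfin
  obtain ⟨hZ3, hZR, hcomm, -, hZcent⟩ := hZ
  obtain ⟨htt, htR, htc, htinv⟩ := ht
  have hRn : (R X).Normal := Cfsg.pCore_normal 3 X
  by_contra hxR
  have Pmul : ∀ a b : X, (∀ r ∈ R X, a * r * a⁻¹ * r⁻¹ ∈ Zc X) →
      (∀ r ∈ R X, b * r * b⁻¹ * r⁻¹ ∈ Zc X) →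
      ∀ r ∈ R X, (a * b) * r * (a * b)⁻¹ * r⁻¹ ∈ Zc X := by
    intro a b ha hb r hr
    have h1 := hb r hr
    have h2 := ha r hr
    have hc := hZcent _ h1 a
    have e1 : (a * b) * r * (a * b)⁻¹ * r⁻¹ = (b * r * b⁻¹ * r⁻¹) * (a * r * a⁻¹ * r⁻¹) := by
      calc (a * b) * r * (a * b)⁻¹ * r⁻¹
          = a * (b * r * b⁻¹ * r⁻¹) * (r * a⁻¹ * r⁻¹) := by group
        _ = (b * r * b⁻¹ * r⁻¹) * a * (r * a⁻¹ * r⁻¹) := by rw [hc]
        _ = _ := by group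
    rw [e1]
    exact (Zc X).mul_mem h1 h2
  have Pinv : ∀ a : X, (∀ r ∈ R X, a * r * a⁻¹ * r⁻¹ ∈ Zc X) →
      ∀ r ∈ R X, a⁻¹ * r * a⁻¹⁻¹ * r⁻¹ ∈ Zc X := by
    intro a ha r hr
    have hr' : a⁻¹ * r * a⁻¹⁻¹ ∈ R X := hRn.conj_mem r hr a⁻¹
    have h1 := ha _ hr'
    have e1 : a⁻¹ * r * a⁻¹⁻¹ * r⁻¹
        = (a * (a⁻¹ * r * a⁻¹⁻¹) * a⁻¹ * (a⁻¹ * r * a⁻¹⁻¹)⁻¹)⁻¹ := by group
    rw [e1]
    exact (Zc X).inv_mem h1
  have Pconj : ∀ a y : X, (∀ r ∈ R X, a * r * a⁻¹ * r⁻¹ ∈ Zc X) →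
      ∀ r ∈ R X, (y * a * y⁻¹) * r * (y * a * y⁻¹)⁻¹ * r⁻¹ ∈ Zc X := by
    intro a y ha r hr
    have hr' : y⁻¹ * r * y⁻¹⁻¹ ∈ R X := hRn.conj_mem r hr y⁻¹
    have h1 := ha _ hr'
    have hc := hZcent _ h1 y
    have e1 : (y * a * y⁻¹) * r * (y * a * y⁻¹)⁻¹ * r⁻¹
        = y * (a * (y⁻¹ * r * y⁻¹⁻¹) * a⁻¹ * (y⁻¹ * r * y⁻¹⁻¹)⁻¹) * y⁻¹ := by group
    rw [e1, hc, mul_inv_cancel_right]
    exact h1
  have Pt : ¬ (∀ r ∈ R X, t * r * t⁻¹ * r⁻¹ ∈ Zc X) := by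
    intro hPt
    have hRZ : R X ≤ Zc X := by
      intro r hr
      have h1 := hPt r hr
      have h2 := htinv r hr
      have hc := hZcent _ h1 r
      have h3 : r * (t * r * t⁻¹) = (t * r * t⁻¹ * r⁻¹) * (r * r) := by
        calc r * (t * r * t⁻¹) = r * (t * r * t⁻¹ * r⁻¹) * r := by group
          _ = (t * r * t⁻¹ * r⁻¹) * r * r := by rw [hc]
          _ = _ := by group
      have h4 : r * r ∈ Zc X := by
        have e2 : r * r = (t * r * t⁻¹ * r⁻¹)⁻¹ * (r * (t * r * t⁻¹)) := by rw [h3]; group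
        rw [e2]
        exact (Zc X).mul_mem ((Zc X).inv_mem h1) h2
      have h5 : r = (r * r)⁻¹ := by
        have h6 := hexp r hr
        rw [eq_inv_iff_mul_eq_one]
        calc r * (r * r) = r ^ 3 := by rw [pow_succ, pow_two, mul_assoc]
          _ = 1 := h6
      rw [h5]
      exact (Zc X).inv_mem h4
    have h27 : Nat.card (R X) = 27 := hR27
    have hle : Nat.card (R X) ≤ Nat.card (Zc X) := Subgroup.card_le_of_le hRZ
    omega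
  let π : X →* SL := e.toMonoidHom.comp (QuotientGroup.mk' (R X))
  have hπ1 : ∀ y : X, π y = 1 ↔ y ∈ R X := by
    intro y
    show e (QuotientGroup.mk' (R X) y) = 1 ↔ _
    rw [MulEquiv.map_eq_one_iff]
    exact QuotientGroup.eq_one_iff y
  have hπs : Function.Surjective π := by
    intro g
    obtain ⟨q, rfl⟩ := e.surjective g
    obtain ⟨y, rfl⟩ := QuotientGroup.mk'_surjective (R X) q
    exact ⟨y, rfl⟩
  have hπt : π t = -1 := by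
    have h1 : π t * π t = 1 := by rw [← map_mul, htt, map_one]
    rcases D1 _ h1 with h | h
    · exact absurd ((hπ1 t).mp h) htR
    · exact h
  have hπx : π x ≠ 1 := fun h => hxR ((hπ1 x).mp h)
  have hex : ∃ c : X, (∀ r ∈ R X, c * r * c⁻¹ * r⁻¹ ∈ Zc X) ∧ π c = -1 := by
    rcases D2 _ hπx with h | h | ⟨h', h | h⟩
    · exact ⟨x, hx, h⟩
    · exact ⟨x * x, Pmul x x hx hx, by rw [map_mul]; exact h⟩
    · obtain ⟨y, rfl⟩ := hπs h'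
      refine ⟨x⁻¹ * (y * x * y⁻¹), Pmul _ _ (Pinv x hx) (Pconj x y hx), ?_⟩
      rw [map_mul, map_inv, map_mul, map_mul, map_inv]
      exact h
    · obtain ⟨y, rfl⟩ := hπs h'
      have hP := Pmul _ _ (Pinv x hx) (Pconj x y hx)
      refine ⟨(x⁻¹ * (y * x * y⁻¹)) * (x⁻¹ * (y * x * y⁻¹)), Pmul _ _ hP hP, ?_⟩
      rw [map_mul, map_mul, map_inv, map_mul, map_mul, map_inv]
      exact h
  obtain ⟨c, hPc, hπc⟩ := hex
  apply Pt
  have hct : c⁻¹ * t ∈ R X := by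
    rw [← hπ1, map_mul, map_inv, hπc, hπt]
    exact inv_mul_cancel _
  have e3 : t = c * (c⁻¹ * t) := by group
  rw [e3]
  exact Pmul _ _ hPc (fun r hr => hcomm _ hct r hr)

end Cfsg.Agent.Lib.Helper77.J3FAITH
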