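import Mathlib
import Cfsg.Agent.Lib.Helper89.NCStmt

set_option autoImplicit false
set_option maxHeartbeats 400000

namespace Cfsg.Agent.Lib.Helper77.NCZZAS

universe u

open Cfsg.Agent.Lib.Helper89.NCStmt

theorem main : ZZas.{u} := by
  intro G _ _ _ hna Q D hB h8 hReg
  obtain ⟨hcard, hC, hD, hQD, hN⟩ := hB
  obtain ⟨hΩ, hreg⟩ := hReg
  have hstab : MulAction.stabilizer G
      ((QuotientGroup.mk (1 : G)) : G ⧸ Subgroup.normalizer (Q : Set G)) =
      Subgroup.normalizer (Q : Set G) := MulAction.stabilizer_quotient _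
  have hQN : Q ≤ Subgroup.normalizer (Q : Set G) := Subgroup.le_normalizer
  have hNfix_iff : ∀ g : G, g • ((QuotientGroup.mk (1 : G)) : G ⧸ Subgroup.normalizer (Q : Set G)) =
      QuotientGroup.mk (1 : G) ↔ g ∈ Subgroup.normalizer (Q : Set G) := by
    intro g
    rw [← MulAction.mem_stabilizer_iff, hstab]
  have hQfix : ∀ u ∈ Q, u • ((QuotientGroup.mk (1 : G)) : G ⧸ Subgroup.normalizer (Q : Set G)) =
      QuotientGroup.mk (1 : G) := fun u hu => (hNfix_iff u).2 (hQN hu)
  -- `q ≥ 5`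
  have hGpos : 0 < Nat.card G := Nat.card_pos
  have hDpos : 0 < Nat.card ↥D := Nat.card_pos
  have hq5 : 5 ≤ Nat.card ↥Q := by
    by_contra hlt
    push_neg at hlt
    have h3 : Nat.card ↥Q = 3 := by omega
    rw [h3] at hcard
    norm_num at hcard
    have h12 : Nat.card G = 12 := by omega
    rw [h12] at h8
    omega
  have hΩnt : Nontrivial (G ⧸ Subgroup.normalizer (Q : Set G)) :=
    (Finite.one_lt_card_iff_nontrivial).1 (by omega)
  obtain ⟨b0, hb0⟩ : ∃ b : G ⧸ Subgroup.normalizer (Q : Set G), b ≠ QuotientGroup.mk (1 : G) :=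
    exists_ne _
  have hQnt : Nontrivial ↥Q := (Finite.one_lt_card_iff_nontrivial).1 (by omega)
  obtain ⟨x0, hx0⟩ : ∃ x : ↥Q, x ≠ 1 := exists_ne 1
  -- faithful
  have hfaith : FaithfulSMul G (G ⧸ Subgroup.normalizer (Q : Set G)) := by
    refine ⟨fun {g1 g2} h => ?_⟩
    have hker : (Subgroup.normalizer (Q : Set G)).normalCore = ⊥ := by
      have hnorm : ((Subgroup.normalizer (Q : Set G)).normalCore).Normal :=
        Subgroup.normalCore_normal _
      rcases hnorm.eq_bot_or_eq_top with h | h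
      · exact h
      · exfalso
        have hNtop : Subgroup.normalizer (Q : Set G) = ⊤ :=
          top_le_iff.mp (h ▸ Subgroup.normalCore_le _)
        have h1 : Nat.card (G ⧸ Subgroup.normalizer (Q : Set G)) = 1 := by
          rw [← Subgroup.index_eq_card, hNtop, Subgroup.index_top]
        omega
    rw [Subgroup.normalCore_eq_ker] at hker
    have hinj : Function.Injective
        (MulAction.toPermHom G (G ⧸ Subgroup.normalizer (Q : Set G))) :=
      (MonoidHom.ker_eq_bot_iff _).1 hker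
    apply hinj
    exact Equiv.ext fun a => h a
  -- doubly transitive
  have h2t : MulAction.IsMultiplyPretransitive G (G ⧸ Subgroup.normalizer (Q : Set G)) 2 := by
    rw [MulAction.is_two_pretransitive_iff]
    intro a b c d hab hcd
    obtain ⟨g1, hg1⟩ := MulAction.exists_smul_eq G a
      (QuotientGroup.mk (1 : G) : G ⧸ Subgroup.normalizer (Q : Set G))
    obtain ⟨g2, hg2⟩ := MulAction.exists_smul_eq G c
      (QuotientGroup.mk (1 : G) : G ⧸ Subgroup.normalizer (Q : Set G))
    have hb : g1 • b ≠ QuotientGroup.mk (1 : G) := by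
      intro h
      rw [← hg1] at h
      exact hab (MulAction.injective g1 h).symm
    have hd : g2 • d ≠ QuotientGroup.mk (1 : G) := by
      intro h
      rw [← hg2] at h
      exact hcd (MulAction.injective g2 h).symm
    obtain ⟨⟨u, huQ⟩, hu, -⟩ := hreg (g1 • b) (g2 • d) hb hd
    have hu' : u • (g1 • b) = g2 • d := hu
    refine ⟨g2⁻¹ * u * g1, ?_, ?_⟩
    · rw [mul_smul, mul_smul, hg1, hQfix u huQ, ← hg2, inv_smul_smul]
    · rw [mul_smul, mul_smul, hu', inv_smul_smul]
  -- three fixed points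
  have h3 : ∀ g : G, ∀ a b c : G ⧸ Subgroup.normalizer (Q : Set G), a ≠ b → b ≠ c → a ≠ c →
      g • a = a → g • b = b → g • c = c → g = 1 := by
    intro g a b c hab hbc hac ha hb hc
    obtain ⟨h, hh⟩ := MulAction.exists_smul_eq G a
      (QuotientGroup.mk (1 : G) : G ⧸ Subgroup.normalizer (Q : Set G))
    have ho : (h * g * h⁻¹) • (QuotientGroup.mk (1 : G) : G ⧸ Subgroup.normalizer (Q : Set G)) =
        QuotientGroup.mk (1 : G) := by
      rw [← hh, mul_smul, mul_smul, inv_smul_smul, ha]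
    have hb' : (h * g * h⁻¹) • (h • b) = h • b := by
      rw [mul_smul, mul_smul, inv_smul_smul, hb]
    have hc' : (h * g * h⁻¹) • (h • c) = h • c := by
      rw [mul_smul, mul_smul, inv_smul_smul, hc]
    have hbo : h • b ≠ QuotientGroup.mk (1 : G) := by
      intro e
      rw [← hh] at e
      exact hab (MulAction.injective h e).symm
    have hco : h • c ≠ QuotientGroup.mk (1 : G) := by
      intro e
      rw [← hh] at e
      exact hac (MulAction.injective h e).symm
    have hbc' : h • b ≠ h • c := fun e => hbc (MulAction.injective h e)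
    have hgN : h * g * h⁻¹ ∈ Subgroup.normalizer (Q : Set G) := (hNfix_iff _).1 ho
    obtain ⟨⟨y, hyQ⟩, hy, hyuniq⟩ := hreg (h • b) (h • c) hbo hco
    have hy' : y • (h • b) = h • c := hy
    have hy1 : y ≠ 1 := by
      intro e
      rw [e, one_smul] at hy'
      exact hbc' hy'
    have hconj_mem : (h * g * h⁻¹) * y * (h * g * h⁻¹)⁻¹ ∈ Q :=
      (Subgroup.mem_normalizer_iff.1 hgN y).1 hyQ
    have hconj_act : ((h * g * h⁻¹) * y * (h * g * h⁻¹)⁻¹) • (h • b) = h • c := by
      have e1 : (h * g * h⁻¹)⁻¹ • (h • b) = h • b := by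
        rw [inv_smul_eq_iff]
        exact hb'.symm
      rw [mul_smul, mul_smul, e1, hy', hc']
    have hyeq : (⟨_, hconj_mem⟩ : ↥Q) = ⟨y, hyQ⟩ := hyuniq ⟨_, hconj_mem⟩ hconj_act
    have hcomm : (h * g * h⁻¹) * y = y * (h * g * h⁻¹) := by
      have e : (h * g * h⁻¹) * y * (h * g * h⁻¹)⁻¹ = y := congrArg Subtype.val hyeq
      calc (h * g * h⁻¹) * y = ((h * g * h⁻¹) * y * (h * g * h⁻¹)⁻¹) * (h * g * h⁻¹) := by group
        _ = y * (h * g * h⁻¹) := by rw [e]
    have hgQ : h * g * h⁻¹ ∈ Q := by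
      have hcen : h * g * h⁻¹ ∈ Subgroup.centralizer ({y} : Set G) :=
        Subgroup.mem_centralizer_singleton_iff.2 hcomm
      rw [hC y hyQ hy1] at hcen
      exact hcen
    obtain ⟨w, hw, hwuniq⟩ := hreg (h • b) (h • b) hbo hbo
    have e1 : (⟨_, hgQ⟩ : ↥Q) = w := hwuniq ⟨_, hgQ⟩ hb'
    have e2 : (1 : ↥Q) = w := hwuniq 1 (by simp)
    have e3 : h * g * h⁻¹ = 1 := congrArg Subtype.val (e1.trans e2.symm)
    calc g = h⁻¹ * (h * g * h⁻¹) * h := by group
      _ = 1 := by rw [e3]; group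
  -- a nontrivial two point stabilizer
  have h4 : ∃ g : G, g ≠ 1 ∧ ∃ a b : G ⧸ Subgroup.normalizer (Q : Set G),
      a ≠ b ∧ g • a = a ∧ g • b = b := by
    have hDnt : Nontrivial ↥D := (Finite.one_lt_card_iff_nontrivial).1 (by omega)
    obtain ⟨⟨d, hdD⟩, hd1⟩ : ∃ d : ↥D, d ≠ 1 := exists_ne 1
    have hd1' : d ≠ 1 := fun e => hd1 (Subtype.ext e)
    have hdN : d ∈ Subgroup.normalizer (Q : Set G) := by
      rw [hN]
      exact (le_sup_right : D ≤ Q ⊔ D) hdD
    have hdo : d • (QuotientGroup.mk (1 : G) : G ⧸ Subgroup.normalizer (Q : Set G)) =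
        QuotientGroup.mk (1 : G) := (hNfix_iff _).2 hdN
    have hdb : d • b0 ≠ QuotientGroup.mk (1 : G) := by
      intro e
      rw [← hdo] at e
      exact hb0 (MulAction.injective _ e)
    obtain ⟨⟨u, huQ⟩, hu, -⟩ := hreg (d • b0) b0 hdb hb0
    have hu' : u • (d • b0) = b0 := hu
    refine ⟨u * d, ?_, QuotientGroup.mk (1 : G), b0, hb0.symm, ?_, ?_⟩
    · intro e
      have hdQ : d ∈ Q ⊓ D := by
        refine ⟨?_, hdD⟩
        have e' : d = u⁻¹ := eq_inv_of_mul_eq_one_right e
        rw [e']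
        exact Q.inv_mem huQ
      rw [hQD, Subgroup.mem_bot] at hdQ
      exact hd1' hdQ
    · rw [mul_smul, hdo, hQfix u huQ]
    · rw [mul_smul, hu']
  -- no regular normal subgroup
  have h5 : ∀ N' : Subgroup G, N'.Normal →
      MulAction.IsPretransitive N' (G ⧸ Subgroup.normalizer (Q : Set G)) →
      ∃ a : G ⧸ Subgroup.normalizer (Q : Set G), MulAction.stabilizer N' a ≠ ⊥ := by
    intro N' hN' htr
    rcases hN'.eq_bot_or_eq_top with h | h
    · exfalso
      obtain ⟨⟨g, hgN'⟩, hg⟩ := MulAction.exists_smul_eq (↥N')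
        (QuotientGroup.mk (1 : G) : G ⧸ Subgroup.normalizer (Q : Set G)) b0
      have hg1 : g = 1 := by
        rw [h, Subgroup.mem_bot] at hgN'
        exact hgN'
      have hg' : g • (QuotientGroup.mk (1 : G) : G ⧸ Subgroup.normalizer (Q : Set G)) = b0 := hg
      rw [hg1, one_smul] at hg'
      exact hb0 hg'.symm
    · refine ⟨QuotientGroup.mk (1 : G), ?_⟩
      intro hbot
      obtain ⟨x, hxQ⟩ := x0
      have hxN' : x ∈ N' := by rw [h]; trivial
      have hxmem : (⟨x, hxN'⟩ : ↥N') ∈ MulAction.stabilizer N'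
          (QuotientGroup.mk (1 : G) : G ⧸ Subgroup.normalizer (Q : Set G)) := by
        rw [MulAction.mem_stabilizer_iff]
        exact hQfix x hxQ
      rw [hbot, Subgroup.mem_bot] at hxmem
      apply hx0
      have hx1 : x = 1 := congrArg Subtype.val hxmem
      exact Subtype.ext hx1
  refine ⟨⟨hfaith, h2t, h3, h4, h5⟩, ?_, ?_, ?_⟩
  · rw [hstab]
    exact hQN
  · rw [hstab]
    exact Subgroup.normal_in_normalizer
  · refine ⟨⟨fun a b => ?_⟩⟩
    by_cases ha : a = 1
    · rw [ha, one_mul, mul_one]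
    · obtain ⟨a, haQ⟩ := a
      obtain ⟨b, hbQ⟩ := b
      have ha1 : a ≠ 1 := fun e => ha (Subtype.ext e)
      have hbc : b ∈ Subgroup.centralizer ({a} : Set G) := by
        rw [hC a haQ ha1]
        exact hbQ
      have := Subgroup.mem_centralizer_singleton_iff.1 hbc
      exact Subtype.ext this.symm

end Cfsg.Agent.Lib.Helper77.NCZZAS
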