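import Mathlib
import Cfsg.Agent.Lib.Helper44.PGStmt
import Cfsg.Agent.Lib.Helper42.SpOrdB
import Cfsg.Agent.Lib.Helper40.RecipPoly

set_option autoImplicit false
set_option maxHeartbeats 400000

namespace Cfsg.Agent.Lib.Helper77.PGFO2

open Matrix Polynomial
open Cfsg.Agent.Lib.Helper44.PGStmt
open Cfsg.Agent.Lib.Helper40.RecipPoly

universe u

theorem main (hRO : RootOrd.{u}) : RootDvd.{u} := by
  intro F _ _ κ _ _ Z K hK hZ hfix f hf hdvd
  have hord := hRO F κ Z K hK hZ hfix f hf hdvd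
  haveI : Fact (Irreducible f) := ⟨hf⟩
  obtain ⟨p, hpc⟩ := CharP.exists F
  haveI := hpc
  haveI : Fact p.Prime := ⟨CharP.char_is_prime F p⟩
  haveI : CharP (AdjoinRoot f) p :=
    charP_of_injective_algebraMap (algebraMap F (AdjoinRoot f)).injective p
  obtain ⟨hfin, hcard⟩ := Cfsg.Agent.Lib.Helper42.SpOrdB.card_adjoinRoot f hf
  haveI := hfin
  letI : Fintype (AdjoinRoot f) := Fintype.ofFinite _
  have hcard' : Fintype.card (AdjoinRoot f) = Fintype.card F ^ f.natDegree := by
    rw [← Nat.card_eq_fintype_card]; exact hcard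
  obtain ⟨ω, hω⟩ : ∃ ω : AdjoinRoot f, ω = AdjoinRoot.root f := ⟨_, rfl⟩
  rw [← hω] at hord
  have hωK : ω ^ K = 1 := (hord K).2 dvd_rfl
  have hω0 : ω ≠ 0 := by
    intro h
    rw [h, zero_pow hK.ne'] at hωK
    exact zero_ne_one hωK
  have hωf : aeval ω f = 0 := by rw [hω, AdjoinRoot.aeval_eq, AdjoinRoot.mk_self]
  have h1 : ω ^ (Fintype.card F ^ f.natDegree - 1) = 1 := by
    rw [← hcard']; exact FiniteField.pow_card_sub_one_eq_one ω hω0
  refine ⟨(hord _).1 h1, ?_⟩
  intro hK2 hself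
  have hper : ∀ (y : AdjoinRoot f) (a b : ℕ),
      y ^ (Fintype.card F ^ (f.natDegree * a + b)) = y ^ (Fintype.card F ^ b) := by
    intro y a b
    have e : Fintype.card F ^ (f.natDegree * a + b)
        = (Fintype.card (AdjoinRoot f)) ^ a * Fintype.card F ^ b := by
      rw [hcard', pow_add, pow_mul]
    rw [e, pow_mul, FiniteField.pow_card_pow]
  have hN : ∀ t : ℕ, ω ^ (Fintype.card F ^ t) = ω →
      ∀ y : AdjoinRoot f, y ^ (Fintype.card F ^ t) = y := by
    intro t ht y
    obtain ⟨P, rfl⟩ := AdjoinRoot.mk_surjective y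
    rw [← AdjoinRoot.aeval_eq, ← hω, ← aeval_pow_card (p := p), ht]
  have hc0 : f.coeff 0 ≠ 0 := by
    intro h0
    have hX : (X : F[X]) ∣ f := X_dvd_iff.mpr h0
    have hass := (irreducible_X).associated_of_dvd hf hX
    have h2 : aeval ω (X : F[X]) = 0 :=
      Polynomial.aeval_eq_zero_of_dvd_aeval_eq_zero hass.symm.dvd hωf
    rw [aeval_X] at h2
    exact hω0 h2
  have hrev : aeval ω f.reverse = 0 := by
    have h2 : aeval ω (rstar (RingHom.id F) f) = 0 :=
      Polynomial.aeval_eq_zero_of_dvd_aeval_eq_zero hself hωf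
    unfold rstar at h2
    rw [Polynomial.map_id, map_mul, aeval_C] at h2
    rcases mul_eq_zero.mp h2 with h | h
    · exfalso
      rw [map_eq_zero] at h
      simp only [RingHom.id_apply] at h
      exact inv_ne_zero hc0 h
    · exact h
  have hinv : aeval ω⁻¹ f = 0 := by
    letI : Invertible ω⁻¹ := invertibleOfNonzero (inv_ne_zero hω0)
    have h3 := (eval₂_reverse_eq_zero_iff (algebraMap F (AdjoinRoot f)) ω⁻¹ f).mp (by
      rw [invOf_eq_inv, inv_inv]; exact hrev)
    exact h3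
  obtain ⟨k, hk⟩ := root_eq_pow f ω⁻¹ hinv
  rw [← hω] at hk
  have hdpos : 0 < f.natDegree := hf.natDegree_pos
  have hk' : ω⁻¹ = ω ^ (Fintype.card F ^ (k % f.natDegree)) := by
    rw [hk]
    conv_lhs => rw [← Nat.div_add_mod k f.natDegree]
    exact hper ω _ _
  generalize hk0 : k % f.natDegree = k0 at hk'
  have hk0lt : k0 < f.natDegree := by rw [← hk0]; exact Nat.mod_lt _ hdpos
  have hk0ne : k0 ≠ 0 := by
    intro h
    rw [h, pow_zero, pow_one] at hk'
    have h2 : ω ^ 2 = 1 := by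
      rw [pow_two]
      nth_rewrite 1 [← hk']
      exact inv_mul_cancel₀ hω0
    have := Nat.le_of_dvd (by norm_num) ((hord 2).1 h2)
    omega
  have h2k : ω ^ (Fintype.card F ^ (2 * k0)) = ω := by
    have e : Fintype.card F ^ (2 * k0) = Fintype.card F ^ k0 * Fintype.card F ^ k0 := by
      rw [two_mul, pow_add]
    rw [e, pow_mul, ← hk', inv_pow, ← hk', inv_inv]
  have hq : 1 < Fintype.card F := Fintype.one_lt_card
  have hle := Cfsg.Agent.Lib.Helper42.SpOrdB.card_le_of_frob (Fintype.card F) hq (AdjoinRoot f)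
    f.natDegree (2 * k0) (by omega) hcard' (hN _ h2k)
  have heq : 2 * k0 = f.natDegree := by
    by_contra hne
    have hlt : f.natDegree < 2 * k0 := lt_of_le_of_ne hle (Ne.symm hne)
    have h3 : ω ^ (Fintype.card F ^ (2 * k0 - f.natDegree)) = ω := by
      have e : 2 * k0 = f.natDegree * 1 + (2 * k0 - f.natDegree) := by omega
      have h4 := hper ω 1 (2 * k0 - f.natDegree)
      rw [← e] at h4
      rw [← h4]; exact h2k
    have := Cfsg.Agent.Lib.Helper42.SpOrdB.card_le_of_frob (Fintype.card F) hq (AdjoinRoot f)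
      f.natDegree (2 * k0 - f.natDegree) (by omega) hcard' (hN _ h3)
    omega
  refine ⟨⟨k0, by omega⟩, ?_⟩
  have hhalf : f.natDegree / 2 = k0 := by omega
  rw [hhalf]
  apply (hord _).1
  rw [pow_succ, ← hk', inv_mul_cancel₀ hω0]

end Cfsg.Agent.Lib.Helper77.PGFO2
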