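import Mathlib
import Cfsg.Agent.Lib.Helper16.SNStmt

/-!
# S3641, piece DTRIV: the Sylow 17-subgroups have order 17
-/

set_option autoImplicit false
set_option maxHeartbeats 400000

namespace Cfsg.Agent.Lib.Helper77.SNDTRIV

open Cfsg.Agent.Lib.Helper16.SNStmt

universe u

/-- A nontrivial normal subgroup of a finite `p`-group meets the centre nontrivially. -/
theorem exists_mem_center_of_normal {G : Type*} [Group G] [Finite G] {p : ℕ} [Fact p.Prime]
    (hG : IsPGroup p G) (N : Subgroup G) [N.Normal] (hN : N ≠ ⊥) :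
    ∃ x ∈ N, x ≠ 1 ∧ x ∈ Subgroup.center G := by
  classical
  have hG' : IsPGroup p (ConjAct G) := hG
  have hNp : IsPGroup p N := hG.to_subgroup N
  have hcard : p ∣ Nat.card N := by
    rcases hNp.card_eq_or_dvd with h | h
    · exfalso
      apply hN
      exact Subgroup.card_eq_one.mp h
    · exact h
  have h1 : (1 : N) ∈ MulAction.fixedPoints (ConjAct G) N := by
    intro g
    exact smul_one g
  obtain ⟨b, hb, hb1⟩ := hG'.exists_fixed_point_of_prime_dvd_card_of_fixed_point N hcard h1
  refine ⟨b, b.2, ?_, ?_⟩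
  · intro h
    apply hb1
    exact Subtype.ext h.symm
  · rw [Subgroup.mem_center_iff]
    intro g
    have := hb (ConjAct.toConjAct g)
    have h2 := congrArg Subtype.val this
    rw [ConjAct.Subgroup.val_conj_smul, ConjAct.toConjAct_smul] at h2
    rw [mul_inv_eq_iff_eq_mul] at h2
    exact h2

/-- A subgroup containing a Sylow `p`-subgroup for every prime divisor `p` of `|G|` is `G`. -/
theorem eq_top_of_sylow_le {G : Type*} [Group G] [Finite G] (H : Subgroup G)
    (h : ∀ p : ℕ, p.Prime → p ∣ Nat.card G → ∃ S : Sylow p G, (S : Subgroup G) ≤ H) :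
    H = ⊤ := by
  apply Subgroup.eq_top_of_card_eq
  apply Nat.dvd_antisymm (Subgroup.card_subgroup_dvd_card H)
  rw [← Nat.factorization_prime_le_iff_dvd Nat.card_pos.ne' Nat.card_pos.ne']
  intro p hp
  by_cases hd : p ∣ Nat.card G
  · obtain ⟨S, hS⟩ := h p hp hd
    haveI : Fact p.Prime := ⟨hp⟩
    have h1 : Nat.card (S : Subgroup G) ∣ Nat.card H := Subgroup.card_dvd_of_le hS
    rw [S.card_eq_multiplicity] at h1
    exact (hp.pow_dvd_iff_le_factorization Nat.card_pos.ne').1 h1
  · rw [Nat.factorization_eq_zero_of_not_dvd hd]; exact Nat.zero_le _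

theorem mem_ker_iff {G : Type u} [Group G] (g : G) :
    g ∈ (act G).ker ↔ ∀ Q : Sylow 17 G, g ∈ Subgroup.normalizer ((Q : Subgroup G) : Set G) := by
  rw [MonoidHom.mem_ker]
  constructor
  · intro h Q
    have h1 : g • Q = Q := congrArg (fun σ : Equiv.Perm (Sylow 17 G) => σ Q) h
    exact Sylow.smul_eq_iff_mem_normalizer.1 h1
  · intro h
    refine Equiv.ext fun Q => ?_
    have h1 : g • Q = Q := Sylow.smul_eq_iff_mem_normalizer.2 (h Q)
    exact h1

theorem main : DTriv.{u} := by
  intro hImg G _ _ hZ h17 h2 h3 hprimes d hd hcard P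
  haveI : Fact (Nat.Prime 17) := ⟨by norm_num⟩
  obtain ⟨K, hKdef⟩ : ∃ K : Subgroup G, K = (act G).ker := ⟨_, rfl⟩
  have hKn : K.Normal := by rw [hKdef]; infer_instance
  have hKN : ∀ Q : Sylow 17 G, K ≤ Subgroup.normalizer ((Q : Subgroup G) : Set G) := by
    intro Q g hg
    rw [hKdef] at hg
    exact (mem_ker_iff g).1 hg Q
  -- a 17-subgroup of `K` lies in every Sylow 17-subgroup
  have hsub : ∀ (Q : Subgroup G), IsPGroup 17 Q → Q ≤ K → ∀ P' : Sylow 17 G,
      Q ≤ (P' : Subgroup G) := by
    intro Q hQ hQK P'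
    have h0 : Q ⊓ Subgroup.normalizer ((P' : Subgroup G) : Set G) = Q ⊓ (P' : Subgroup G) :=
      hQ.inf_normalizer_sylow P'
    have h1 : Q ⊓ Subgroup.normalizer ((P' : Subgroup G) : Set G) = Q :=
      inf_eq_left.2 (hQK.trans (hKN P'))
    rw [h1] at h0
    exact inf_eq_left.1 h0.symm
  have hPK : ¬ (P : Subgroup G) ≤ K := by
    intro hle
    have hall : ∀ P' : Sylow 17 G, P' = P := by
      intro P'
      have h1 := hsub P P.isPGroup' hle P'
      exact Sylow.ext (P.is_maximal' P'.isPGroup' h1)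
    have : Nat.card (Sylow 17 G) ≤ 1 := by
      haveI : Subsingleton (Sylow 17 G) := ⟨fun a b => (hall a).trans (hall b).symm⟩
      exact Finite.card_le_one_iff_subsingleton.2 inferInstance
    omega
  obtain ⟨D, hDdef⟩ : ∃ D : Subgroup G, D = (P : Subgroup G) ⊓ K := ⟨_, rfl⟩
  have hDP : D ≤ P := by rw [hDdef]; exact inf_le_left
  have hDK : D ≤ K := by rw [hDdef]; exact inf_le_right
  have hDp : IsPGroup 17 D := P.isPGroup'.to_le hDP
  have hDn : D.Normal := by
    constructor
    intro n hn g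
    have hz : IsPGroup 17 (D.map (MulAut.conj g).toMonoidHom) := hDp.map _
    have hle : D.map (MulAut.conj g).toMonoidHom ≤ K := by
      rintro _ ⟨x, hx, rfl⟩
      exact hKn.conj_mem x (hDK hx) g
    rw [hDdef]
    exact ⟨hsub _ hz hle P ⟨n, hn, rfl⟩, hKn.conj_mem n (hDK hn) g⟩
  have hPc : Nat.card (P : Subgroup G) = 17 ^ (Nat.card G).factorization 17 :=
    P.card_eq_multiplicity
  have key : ∀ (r : ℕ) [Fact r.Prime], (r = 2 ∨ r = 3) → ∀ (m : ℕ),
      Nat.card (Sylow r G) = 17 * m → ¬ 17 ∣ m → ∀ R : Sylow r G,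
      D ≤ Subgroup.normalizer ((R : Subgroup G) : Set G) ∧
        Nat.card (P : Subgroup G) = 17 * Nat.card D := by
    intro r _ hr m hm hm17 R
    obtain ⟨N, hNdef⟩ : ∃ N : Subgroup G, N = Subgroup.normalizer ((R : Subgroup G) : Set G) :=
      ⟨_, rfl⟩
    have hm0 : m ≠ 0 := by
      rintro rfl
      exact hm17 (dvd_zero _)
    have hidx : N.index = 17 * m := by
      have h0 : Nat.card (Sylow r G) =
          (Subgroup.normalizer ((R : Subgroup G) : Set G)).index := R.card_eq_index_normalizer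
      rw [hNdef, ← h0, hm]
    have hGN : Nat.card G = Nat.card N * (17 * m) := by
      rw [← hidx]; exact (Subgroup.card_mul_index N).symm
    obtain ⟨Q'⟩ : Nonempty (Sylow 17 N) := inferInstance
    obtain ⟨Q, hQdef⟩ : ∃ Q : Subgroup G, Q = (Q' : Subgroup N).map N.subtype := ⟨_, rfl⟩
    have hQc : Nat.card Q = 17 ^ (Nat.card N).factorization 17 := by
      rw [hQdef, Subgroup.card_map_of_injective N.subtype_injective]
      exact Q'.card_eq_multiplicity
    have hQp : IsPGroup 17 Q := by rw [hQdef]; exact Q'.isPGroup'.map _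
    have hQN : Q ≤ N := by rw [hQdef]; exact Subgroup.map_subtype_le _
    have hQK : Q ≤ K := by
      rw [hKdef]
      exact hImg G h17 d hd hcard r hr R Q hQp (hNdef ▸ hQN)
    have hQD : Q ≤ D := by rw [hDdef]; exact le_inf (hsub Q hQp hQK P) hQK
    have hfac : (Nat.card G).factorization 17 = (Nat.card N).factorization 17 + 1 := by
      rw [hGN, Nat.factorization_mul Nat.card_pos.ne' (by positivity),
        Nat.factorization_mul (by norm_num) hm0]
      simp [Nat.Prime.factorization_self (by norm_num : Nat.Prime 17),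
        Nat.factorization_eq_zero_of_not_dvd hm17]
    have hPQ : Nat.card (P : Subgroup G) = 17 * Nat.card Q := by
      rw [hPc, hQc, hfac, pow_succ, mul_comm]
    have hDle : Nat.card D ≤ Nat.card Q := by
      have h1 : Nat.card D ∣ Nat.card (P : Subgroup G) := Subgroup.card_dvd_of_le hDP
      rw [hPc] at h1
      obtain ⟨j, hj, hDj⟩ := (Nat.dvd_prime_pow (by norm_num : Nat.Prime 17)).1 h1
      have hjne : j ≠ (Nat.card G).factorization 17 := by
        intro h
        apply hPK
        have : D = P := Subgroup.eq_of_le_of_card_ge hDP (by rw [hPc, hDj, h])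
        rw [← this]; exact hDK
      have hj' : j ≤ (Nat.card N).factorization 17 := by omega
      rw [hDj, hQc]
      exact Nat.pow_le_pow_right (by norm_num) hj'
    have hQeq : Q = D := Subgroup.eq_of_le_of_card_ge hQD hDle
    refine ⟨?_, ?_⟩
    · rw [← hQeq, ← hNdef]; exact hQN
    · rw [← hQeq]; exact hPQ
  obtain ⟨R2⟩ : Nonempty (Sylow 2 G) := inferInstance
  obtain ⟨R3⟩ : Nonempty (Sylow 3 G) := inferInstance
  have k2 := key 2 (Or.inl rfl) 9 (by rw [h2]) (by norm_num) R2
  have k3 := key 3 (Or.inr rfl) 8 (by rw [h3]) (by norm_num) R3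
  have hcent : ∀ (r : ℕ) [Fact r.Prime], r ≠ 17 → ∀ R : Sylow r G,
      D ≤ Subgroup.normalizer ((R : Subgroup G) : Set G) →
      ∀ x ∈ D, ∀ y ∈ (R : Subgroup G), x * y = y * x := by
    intro r _ hr R hDN x hx y hy
    have h1 : x * y * x⁻¹ * y⁻¹ ∈ D := by
      have h := D.mul_mem hx (hDn.conj_mem x⁻¹ (D.inv_mem hx) y)
      simpa [mul_assoc] using h
    have h2 : x * y * x⁻¹ * y⁻¹ ∈ (R : Subgroup G) := by
      have h : x * y * x⁻¹ ∈ (R : Subgroup G) := by
        have h' := hDN hx
        rw [Subgroup.mem_normalizer_iff] at h'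
        exact (h' y).1 hy
      exact (R : Subgroup G).mul_mem h ((R : Subgroup G).inv_mem hy)
    have hdisj : D ⊓ (R : Subgroup G) = ⊥ :=
      (IsPGroup.disjoint_of_ne 17 r (Ne.symm hr) D R hDp R.isPGroup').eq_bot
    have h3 : x * y * x⁻¹ * y⁻¹ ∈ D ⊓ (R : Subgroup G) := ⟨h1, h2⟩
    rw [hdisj, Subgroup.mem_bot] at h3
    calc x * y = (x * y * x⁻¹ * y⁻¹) * (y * x) := by group
      _ = y * x := by rw [h3, one_mul]
  have hDbot : D = ⊥ := by
    by_contra hne
    haveI : (K.subgroupOf (P : Subgroup G)).Normal := inferInstance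
    have hNne : K.subgroupOf (P : Subgroup G) ≠ ⊥ := by
      intro h
      apply hne
      rw [Subgroup.subgroupOf_eq_bot] at h
      rw [hDdef]; exact h.symm.eq_bot
    obtain ⟨x, hxN, hx1, hxZ⟩ :=
      exists_mem_center_of_normal (p := 17) P.isPGroup' (K.subgroupOf (P : Subgroup G)) hNne
    have hzD : (x : G) ∈ D := by rw [hDdef]; exact ⟨x.2, Subgroup.mem_subgroupOf.1 hxN⟩
    have hzc : Subgroup.centralizer {(x : G)} = ⊤ := by
      apply eq_top_of_sylow_le
      intro p hp hpd
      rcases hprimes p hp hpd with rfl | rfl | rfl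
      · refine ⟨R2, fun y hy => ?_⟩
        rw [Subgroup.mem_centralizer_singleton_iff]
        exact (hcent 2 (by norm_num) R2 k2.1 x hzD y hy).symm
      · refine ⟨R3, fun y hy => ?_⟩
        rw [Subgroup.mem_centralizer_singleton_iff]
        exact (hcent 3 (by norm_num) R3 k3.1 x hzD y hy).symm
      · refine ⟨P, fun y hy => ?_⟩
        rw [Subgroup.mem_centralizer_singleton_iff]
        have := Subgroup.mem_center_iff.1 hxZ ⟨y, hy⟩
        exact congrArg Subtype.val this
    have hzZ : (x : G) ∈ Subgroup.center G := by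
      rw [Subgroup.mem_center_iff]
      intro g
      have : g ∈ Subgroup.centralizer {(x : G)} := by rw [hzc]; trivial
      rw [Subgroup.mem_centralizer_singleton_iff] at this
      exact this
    rw [hZ, Subgroup.mem_bot] at hzZ
    exact hx1 (Subtype.ext hzZ)
  rw [k2.2, hDbot, Subgroup.card_bot]

end Cfsg.Agent.Lib.Helper77.SNDTRIV
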