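import Mathlib
import Cfsg.Agent.Lib.Helper39.TLStmt

set_option autoImplicit false
set_option maxHeartbeats 400000

namespace Cfsg.Agent.Lib.Helper77.TLCOP

open Cfsg Cfsg.Agent.Lib.Helper39.TLStmt

universe u

/-- conjugation by `g` on the normal subgroup `M` -/
def cj {S : Type u} [Group S] (M : Subgroup S) [hn : M.Normal] (g : S) : ↥M →* ↥M where
  toFun m := ⟨g * m * g⁻¹, hn.conj_mem m m.2 g⟩
  map_one' := by
    apply Subtype.ext
    simp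
  map_mul' a b := by
    apply Subtype.ext
    simp [mul_assoc]

theorem cj_val {S : Type u} [Group S] (M : Subgroup S) [M.Normal] (g : S) (m : ↥M) :
    ((cj M g m : ↥M) : S) = g * m * g⁻¹ := rfl

open scoped IsMulCommutative in
theorem main : Cop.{u} := by
  intro S _ _ M _ hM L hL u huM hfix hu
  classical
  haveI : IsMulCommutative ↥M := hM.1
  haveI : Fintype ↥L := Fintype.ofFinite _
  obtain ⟨φ, hφ⟩ : ∃ φ : ↥M →* ↥M, ∀ m : ↥M, φ m = ∏ g : ↥L, cj M (g : S) m :=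
    ⟨∏ g : ↥L, cj M (g : S), fun m => MonoidHom.finset_prod_apply _ _ _⟩
  have h1 : ∀ (g₀ : S) (hg₀ : g₀ ∈ L) (m : ↥M), φ (cj M g₀ m) = φ m := by
    intro g₀ hg₀ m
    rw [hφ, hφ]
    refine Fintype.prod_equiv (Equiv.mulRight (⟨g₀, hg₀⟩ : ↥L)) _ _ (fun g => ?_)
    apply Subtype.ext
    simp [cj_val, mul_assoc]
  have h2 : φ ⟨u, huM⟩ = ⟨u, huM⟩ := by
    rw [hφ]
    have hc : ∀ g : ↥L, cj M (g : S) ⟨u, huM⟩ = ⟨u, huM⟩ := by
      intro g
      apply Subtype.ext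
      rw [cj_val]
      exact hfix g g.2
    rw [Finset.prod_congr rfl (fun g _ => hc g), Finset.prod_const, Finset.card_univ,
      ← Nat.card_eq_fintype_card]
    obtain ⟨k, hk⟩ := hL
    have hu2 : (⟨u, huM⟩ : ↥M) ^ 2 = 1 := by
      apply Subtype.ext
      exact hM.2 u huM
    rw [hk, pow_succ, pow_mul, hu2, one_pow, one_mul]
  have h3 : Subgroup.closure {w : S | ∃ g ∈ L, ∃ m ∈ M, w = g * m * g⁻¹ * m⁻¹}
      ≤ (φ.ker).map M.subtype := by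
    rw [Subgroup.closure_le]
    rintro w ⟨g, hg, m, hm, rfl⟩
    refine ⟨cj M g ⟨m, hm⟩ * (⟨m, hm⟩ : ↥M)⁻¹, ?_, rfl⟩
    show φ (cj M g ⟨m, hm⟩ * (⟨m, hm⟩ : ↥M)⁻¹) = 1
    rw [map_mul, map_inv, h1 g hg, mul_inv_cancel]
  obtain ⟨k, hk, hku⟩ := h3 hu
  have hk' : k = ⟨u, huM⟩ := Subtype.ext hku
  rw [hk'] at hk
  have h4 : φ ⟨u, huM⟩ = 1 := hk
  rw [h2] at h4
  exact congrArg Subtype.val h4

end Cfsg.Agent.Lib.Helper77.TLCOP
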